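import Mathlib
import Cfsg.Agent.Lib.H60.PhL

/-!
Phan systems, part M: two copies of `SU 2` generating `SU 3` with commuting tori of order `q + 1` form a standard pair.
-/

set_option autoImplicit false
set_option linter.unusedSectionVars false
set_option linter.unusedVariables false

namespace H60.Ph

open Matrix Cfsg H16.Herm

variable {F : Type*} [Field F] [Fintype F] {q : ℕ} (hF : Fintype.card F = q ^ 2)

include hF

theorem span_frame (g : SU 3 F q) (v : Fin 3 → F) :
    ∃ x : Fin 3 → F, v = mt g *ᵥ x := ⟨mt g⁻¹ *ᵥ v, by rw [Matrix.mulVec_mulVec, mt_mul_inv, Matrix.one_mulVec]⟩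

/-- eigenvectors of a map diagonal in a frame -/
theorem eigen_frame (g : SU 3 F q) {M : Matrix (Fin 3) (Fin 3) F} {c : Fin 3 → F}
    (hM : ∀ i, M *ᵥ (mt g *ᵥ (Pi.single i 1)) = c i • (mt g *ᵥ (Pi.single i 1))) {x : Fin 3 → F} {d : F}
    (hx : M *ᵥ (mt g *ᵥ x) = d • (mt g *ᵥ x)) (i : Fin 3) (hi : c i ≠ d) : x i = 0 := by
  have h1 : M *ᵥ (mt g *ᵥ x) = mt g *ᵥ (fun i => c i * x i) := by
    have hx' : ∀ y : Fin 3 → F, y = y 0 • Pi.single 0 1 + y 1 • Pi.single 1 1 + y 2 • Pi.single 2 1 := by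
      intro y
      ext i
      fin_cases i <;> simp
    conv_lhs => rw [hx' x]
    conv_rhs => rw [hx' (fun i => c i * x i)]
    simp only [Matrix.mulVec_add, Matrix.mulVec_smul, hM, smul_smul]
    simp only [mul_comm]
  rw [h1, ← Matrix.mulVec_smul] at hx
  have h2 := congrArg (fun v => mt g⁻¹ *ᵥ v) hx
  simp only [Matrix.mulVec_mulVec, mt_inv_mul, Matrix.one_mulVec] at h2
  have h3 := congrFun h2 i
  simp only [Pi.smul_apply, smul_eq_mul] at h3
  have h4 : (c i - d) * x i = 0 := by linear_combination h3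
  exact (mul_eq_zero.mp h4).resolve_left (sub_ne_zero.mpr hi)

/-- not all of `SU 3` fixes a nonzero vector -/
theorem exists_moves (v : Fin 3 → F) (hv : hermForm 3 F q v v = 1) : ∃ g : SU 3 F q, mt g *ᵥ v ≠ v := by
  by_contra hcon
  push Not at hcon
  obtain ⟨g, hg⟩ := exists_SU_unit hF (by omega) 0 v hv
  have h1 : v = Pi.single 0 1 := by
    have h2 := hcon g
    have h3 : mt g *ᵥ v = mt g *ᵥ Pi.single 0 1 := by rw [h2, hg]
    have h4 := congrArg (fun v => mt g⁻¹ *ᵥ v) h3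
    simpa only [Matrix.mulVec_mulVec, mt_inv_mul, Matrix.one_mulVec] using h4
  obtain ⟨g', hg'⟩ := exists_SU_unit hF (by omega) 0 (Pi.single 1 1 : Fin 3 → F) (by rw [hermForm_single_left]; simp)
  have h5 := hcon g'
  rw [h1, hg'] at h5
  have := congrFun h5 1
  simp at this

theorem tor_mul_ne (g : SU 3 F q) : True := trivial

/-- the common frame -/
theorem exists_common_frame (hq : 4 ≤ q) (eA eB : SU 2 F q →* SU 3 F q) (hA : Function.Injective eA)
    (hB : Function.Injective eB) (hgen : eA.range ⊔ eB.range = ⊤) (a b : SU 3 F q) (ha : a ∈ eA.range) (hb : b ∈ eB.range)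
    (hoa : orderOf a = q + 1) (hob : orderOf b = q + 1) (hab : a * b = b * a) :
    ∃ (g : SU 3 F q), (∀ x, mt (eA x) *ᵥ (mt g *ᵥ (Pi.single 2 1)) = mt g *ᵥ (Pi.single 2 1)) ∧
      (∀ x, mt (eB x) *ᵥ (mt g *ᵥ (Pi.single 0 1)) = mt g *ᵥ (Pi.single 0 1)) ∧
      (∃ c : F, mt a *ᵥ (mt g *ᵥ (Pi.single 0 1)) = c • (mt g *ᵥ (Pi.single 0 1))) ∧
      (∃ c : F, mt b *ᵥ (mt g *ᵥ (Pi.single 1 1)) = c • (mt g *ᵥ (Pi.single 1 1))) := by
  obtain ⟨v, hv, hAv⟩ := exists_fixed hF hq eA hA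
  obtain ⟨v', hv', hBv⟩ := exists_fixed hF hq eB hB
  obtain ⟨a₀, rfl⟩ := ha
  obtain ⟨b₀, rfl⟩ := hb
  obtain ⟨g, c, κ, hc, hcc, hκ, hg2, hg0, hg1⟩ := exists_frame_of_torus hF hq _ hoa v hv (hAv a₀)
  obtain ⟨g', c', κ', hc', hcc', hκ', hg2', hg0', hg1'⟩ := exists_frame_of_torus hF hq _ hob v' hv' (hBv b₀)
  have hfix2 : mt (eA a₀) *ᵥ (mt g *ᵥ (Pi.single 2 1)) = (1 : F) • (mt g *ᵥ (Pi.single 2 1)) := by
    rw [hg2, Matrix.mulVec_smul, hAv, one_smul]
  have hfix2' : mt (eB b₀) *ᵥ (mt g' *ᵥ (Pi.single 2 1)) = (1 : F) • (mt g' *ᵥ (Pi.single 2 1)) := by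
    rw [hg2', Matrix.mulVec_smul, hBv, one_smul]
  -- eigenvalue functions
  let C : Fin 3 → F := ![c, c ^ q, 1]
  let C' : Fin 3 → F := ![c', c' ^ q, 1]
  have hC : ∀ i, mt (eA a₀) *ᵥ (mt g *ᵥ (Pi.single i 1)) = C i • (mt g *ᵥ (Pi.single i 1)) := by
    intro i
    fin_cases i
    · exact hg0
    · exact hg1
    · exact hfix2
  have hC' : ∀ i, mt (eB b₀) *ᵥ (mt g' *ᵥ (Pi.single i 1)) = C' i • (mt g' *ᵥ (Pi.single i 1)) := by
    intro i
    fin_cases i
    · exact hg0'
    · exact hg1'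
    · exact hfix2'
  have hne : ∀ c : F, c * c ^ q = 1 → c * c ≠ 1 → c ≠ c ^ q ∧ c ≠ 1 ∧ c ^ q ≠ 1 := by
    intro c hc hcc
    refine ⟨fun h => hcc (by rw [← h] at hc; exact hc), fun h => hcc (by rw [h, one_mul]), fun h => ?_⟩
    have : c = 1 := by rw [← pow_q_pow_q hF c, h, one_pow]
    exact hcc (by rw [this, one_mul])
  obtain ⟨n1, n2, n3⟩ := hne c hc hcc
  obtain ⟨n1', n2', n3'⟩ := hne c' hc' hcc'
  have hCinj : ∀ i j, i ≠ j → C i ≠ C j := by
    intro i j hij
    fin_cases i <;> fin_cases j <;> simp [C] at hij ⊢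
    · exact n1
    · exact n2
    · exact n1.symm
    · exact n3
    · exact n2.symm
    · exact n3.symm
  have hcm : mt (eA a₀) * mt (eB b₀) = mt (eB b₀) * mt (eA a₀) := by rw [← mt_mul, ← mt_mul, hab]
  -- `b` is diagonal in the frame of `a`
  have hbd : ∀ i, ∃ l : F, mt (eB b₀) *ᵥ (mt g *ᵥ (Pi.single i 1)) = l • (mt g *ᵥ (Pi.single i 1)) := by
    intro i
    obtain ⟨x, hx⟩ := span_frame hF g (mt (eB b₀) *ᵥ (mt g *ᵥ (Pi.single i 1)))
    have h1 : mt (eA a₀) *ᵥ (mt g *ᵥ x) = C i • (mt g *ᵥ x) := by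
      rw [← hx, Matrix.mulVec_mulVec, hcm, ← Matrix.mulVec_mulVec, hC, Matrix.mulVec_smul]
    have h2 : ∀ j, j ≠ i → x j = 0 := fun j hj => eigen_frame hF g hC h1 j (hCinj j i hj)
    refine ⟨x i, ?_⟩
    rw [hx, ← Matrix.mulVec_smul]
    congr 1
    ext j
    by_cases hji : j = i
    · subst hji; simp
    · rw [h2 j hji, Pi.smul_apply, Pi.single_eq_of_ne hji, smul_zero]
  choose l hl using hbd
  -- an index with eigenvalue one
  obtain ⟨x, hx⟩ := span_frame hF g v'
  have hv'0 : v' ≠ 0 := by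
    intro h
    rw [h, hermForm_zero_left] at hv'
    exact zero_ne_one hv'
  obtain ⟨i, hxi⟩ : ∃ i, x i ≠ 0 := by
    by_contra hcon
    push Not at hcon
    apply hv'0
    rw [hx, show x = 0 from funext hcon, Matrix.mulVec_zero]
  have hli : l i = 1 := by
    by_contra hne'
    apply hxi
    refine eigen_frame hF g hl (d := 1) ?_ i hne'
    rw [← hx, hBv, one_smul]
  -- that frame vector is fixed by all of `B`
  have hBi : ∀ y, mt (eB y) *ᵥ (mt g *ᵥ (Pi.single i 1)) = mt g *ᵥ (Pi.single i 1) := by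
    obtain ⟨y', hy'⟩ := span_frame hF g' (mt g *ᵥ (Pi.single i 1))
    have h1 : mt (eB b₀) *ᵥ (mt g' *ᵥ y') = (1 : F) • (mt g' *ᵥ y') := by
      rw [← hy', hl, hli]
    have h20 : y' 0 = 0 := eigen_frame hF g' hC' h1 0 n2'
    have h21 : y' 1 = 0 := eigen_frame hF g' hC' h1 1 n3'
    have h3 : y' = y' 2 • (Pi.single 2 1 : Fin 3 → F) := by
      ext j
      fin_cases j
      · simpa using h20
      · simpa using h21
      · simp
    intro y
    rw [hy', h3, Matrix.mulVec_smul, hg2', Matrix.mulVec_smul, Matrix.mulVec_smul, hBv]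
  have hA2 : ∀ y, mt (eA y) *ᵥ (mt g *ᵥ (Pi.single 2 1)) = mt g *ᵥ (Pi.single 2 1) := by
    intro y
    rw [hg2, Matrix.mulVec_smul, hAv]
  have hi2 : i ≠ 2 := by
    rintro rfl
    -- everything fixes the vector
    set w := mt g *ᵥ (Pi.single 2 1 : Fin 3 → F) with hw
    have hww : hermForm 3 F q w w = 1 := by rw [hw, mt_form, hermForm_single_left]; simp
    obtain ⟨h, hh⟩ := exists_moves hF w hww
    let N : Subgroup (SU 3 F q) :=
      { carrier := {a | mt a *ᵥ w = w}
        mul_mem' := by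
          intro a b ha hb
          show mt (a * b) *ᵥ w = w
          rw [mt_mul, ← Matrix.mulVec_mulVec, show mt b *ᵥ w = w from hb]
          exact ha
        one_mem' := by
          show mt 1 *ᵥ w = w
          rw [mt_one, Matrix.one_mulVec]
        inv_mem' := by
          intro a ha
          show mt a⁻¹ *ᵥ w = w
          have ha' : mt a *ᵥ w = w := ha
          conv_lhs => rw [← ha']
          rw [Matrix.mulVec_mulVec, mt_inv_mul, Matrix.one_mulVec] }
    have hN : eA.range ⊔ eB.range ≤ N := by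
      rw [sup_le_iff]
      constructor
      · rintro _ ⟨y, rfl⟩
        exact hA2 y
      · rintro _ ⟨y, rfl⟩
        exact hBi y
    rw [hgen] at hN
    exact hh (hN (Subgroup.mem_top h))
  have hi : i = 0 ∨ i = 1 := by
    fin_cases i
    · exact Or.inl rfl
    · exact Or.inr rfl
    · exact absurd rfl hi2
  rcases hi with rfl | rfl
  · exact ⟨g, hA2, hBi, ⟨c, hg0⟩, ⟨l 1, hl 1⟩⟩
  · -- swap the first two vectors
    set W := emb hF (hd (by omega : 2 ≤ 3)) (wl hF) with hW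
    have hW0 : mt W *ᵥ (Pi.single 0 1) = Pi.single 1 1 := by
      rw [hW, mt_emb_hd_three, mt_wl, col_single]
      ext j
      fin_cases j <;> simp
    have hW1 : mt W *ᵥ (Pi.single 1 1) = (-1 : F) • Pi.single 0 1 := by
      rw [hW, mt_emb_hd_three, mt_wl, col_single]
      ext j
      fin_cases j <;> simp
    have hW2 : mt W *ᵥ (Pi.single 2 1) = Pi.single 2 1 := by
      rw [hW, mt_emb_hd_three, mt_wl, col_single]
      ext j
      fin_cases j <;> simp
    refine ⟨g * W, ?_, ?_, ⟨c ^ q, ?_⟩, ⟨l 0, ?_⟩⟩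
    · intro y
      rw [mt_mul, ← Matrix.mulVec_mulVec, hW2]
      exact hA2 y
    · intro y
      rw [mt_mul, ← Matrix.mulVec_mulVec, hW0]
      exact hBi y
    · rw [mt_mul, ← Matrix.mulVec_mulVec, hW0]
      exact hg1
    · rw [mt_mul, ← Matrix.mulVec_mulVec, hW1, Matrix.mulVec_smul, Matrix.mulVec_smul, hl 0, smul_comm]

theorem card_emb_range {e : SU 2 F q →* SU 3 F q} (he : Function.Injective e) : Nat.card e.range = Nat.card (SU 2 F q) :=
  (Nat.card_congr (MonoidHom.ofInjective he).toEquiv).symm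

/-- a cyclic group of order `q + 1` of diagonal elements is the whole torus -/
theorem torus_surj {G : Type*} [Group G] (hq : 1 ≤ q) (j : SU 2 F q →* G) (hj : Function.Injective j) (D : Subgroup G)
    (hD : Nat.card D = q + 1) (h : ∀ x ∈ D, ∃ c hc, x = j (tor hF c hc)) (c : F) (hc : c * c ^ q = 1) :
    j (tor hF c hc) ∈ D := by
  classical
  choose! C hC hCx using h
  have hfin : Finite D := Nat.finite_of_card_ne_zero (by rw [hD]; omega)
  let Φ : D → {x : F // x ^ (q + 1) = 1} := fun x => ⟨C x.1, by rw [pow_succ']; exact hC x.1 x.2⟩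
  have hinj : Function.Injective Φ := by
    intro x y hxy
    apply Subtype.ext
    have h1 : C x.1 = C y.1 := congrArg Subtype.val hxy
    rw [hCx x.1 x.2, hCx y.1 y.2]
    congr 1
    apply mt_inj
    rw [mt_tor, mt_tor, h1]
  have hbij : Function.Bijective Φ := (Nat.bijective_iff_injective_and_card Φ).2 ⟨hinj, by
    rw [hD, H7.QuadExt.card_norm_one hF]⟩
  obtain ⟨x, hx⟩ := hbij.2 ⟨c, by rw [pow_succ']; exact hc⟩
  have h1 : C x.1 = c := congrArg Subtype.val hx
  have h2 : j (tor hF c hc) = x.1 := by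
    rw [hCx x.1 x.2]
    congr 1
    apply mt_inj
    rw [mt_tor, mt_tor, h1]
  rw [h2]
  exact x.2

/-- **Standard pairs from commuting tori.** -/
theorem exists_std (hq : 4 ≤ q) {G : Type*} [Group G] (φ₀ : SU 3 F q →* G) (hφ₀ : Function.Injective φ₀)
    (U W : Subgroup G) (hr : φ₀.range = U ⊔ W) (eU : SU 2 F q ≃* U) (eW : SU 2 F q ≃* W) (DU DW : Subgroup G)
    (hDU : DU ≤ U) (hDUc : IsCyclic DU) (hDUn : Nat.card DU = q + 1)
    (hDW : DW ≤ W) (hDWc : IsCyclic DW) (hDWn : Nat.card DW = q + 1) (hcomm : ∀ x ∈ DU, ∀ y ∈ DW, x * y = y * x) :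
    ∃ φ : SU 3 F q →* G, Function.Injective φ ∧ φ.range = U ⊔ W ∧ (φ.comp (emb hF (hd (by omega : 2 ≤ 3)))).range = U ∧
      (φ.comp (emb hF (tl 2))).range = W ∧ (∀ x ∈ DU, ∃ c hc, x = φ (emb hF (hd (by omega : 2 ≤ 3)) (tor hF c hc))) ∧
      (∀ c hc, φ (emb hF (hd (by omega : 2 ≤ 3)) (tor hF c hc)) ∈ DU) ∧
      (∀ x ∈ DW, ∃ c hc, x = φ (emb hF (tl 2) (tor hF c hc))) ∧ (∀ c hc, φ (emb hF (tl 2) (tor hF c hc)) ∈ DW) := by
  classical
  have hUr : U ≤ φ₀.range := by rw [hr]; exact le_sup_left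
  have hWr : W ≤ φ₀.range := by rw [hr]; exact le_sup_right
  let E := MonoidHom.ofInjective hφ₀
  let eA : SU 2 F q →* SU 3 F q := E.symm.toMonoidHom.comp ((Subgroup.inclusion hUr).comp eU.toMonoidHom)
  let eB : SU 2 F q →* SU 3 F q := E.symm.toMonoidHom.comp ((Subgroup.inclusion hWr).comp eW.toMonoidHom)
  have hA : Function.Injective eA := E.symm.injective.comp ((Subgroup.inclusion_injective hUr).comp eU.injective)
  have hB : Function.Injective eB := E.symm.injective.comp ((Subgroup.inclusion_injective hWr).comp eW.injective)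
  have hφE : ∀ x, φ₀ (E.symm x) = x := by
    intro x
    have h1 : (E (E.symm x) : G) = φ₀ (E.symm x) := rfl
    rw [← h1, MulEquiv.apply_symm_apply]
  have hφA : ∀ b, φ₀ (eA b) = eU b := fun b => hφE _
  have hφB : ∀ b, φ₀ (eB b) = eW b := fun b => hφE _
  have hAU : eA.range.map φ₀ = U := by
    ext x
    constructor
    · rintro ⟨_, ⟨b, rfl⟩, rfl⟩
      rw [hφA]
      exact (eU b).2
    · intro hx
      refine ⟨eA (eU.symm ⟨x, hx⟩), ⟨_, rfl⟩, ?_⟩
      rw [hφA, MulEquiv.apply_symm_apply]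
  have hBW : eB.range.map φ₀ = W := by
    ext x
    constructor
    · rintro ⟨_, ⟨b, rfl⟩, rfl⟩
      rw [hφB]
      exact (eW b).2
    · intro hx
      refine ⟨eB (eW.symm ⟨x, hx⟩), ⟨_, rfl⟩, ?_⟩
      rw [hφB, MulEquiv.apply_symm_apply]
  have hgen : eA.range ⊔ eB.range = ⊤ := by
    apply Subgroup.map_injective hφ₀
    rw [Subgroup.map_sup, hAU, hBW, ← hr, MonoidHom.range_eq_map]
  -- generators of the tori
  obtain ⟨⟨a₁, ha₁⟩, ha₁g⟩ := hDUc.exists_generator
  obtain ⟨⟨b₁, hb₁⟩, hb₁g⟩ := hDWc.exists_generator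
  have hoa₁ : orderOf a₁ = q + 1 := by
    rw [← hDUn, ← orderOf_eq_card_of_forall_mem_zpowers ha₁g, Subgroup.orderOf_mk]
  have hob₁ : orderOf b₁ = q + 1 := by
    rw [← hDWn, ← orderOf_eq_card_of_forall_mem_zpowers hb₁g, Subgroup.orderOf_mk]
  set a := eA (eU.symm ⟨a₁, hDU ha₁⟩) with hadef
  set b := eB (eW.symm ⟨b₁, hDW hb₁⟩) with hbdef
  have hφa : φ₀ a = a₁ := by rw [hadef, hφA, MulEquiv.apply_symm_apply]
  have hφb : φ₀ b = b₁ := by rw [hbdef, hφB, MulEquiv.apply_symm_apply]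
  have hoa : orderOf a = q + 1 := by rw [← orderOf_injective φ₀ hφ₀, hφa, hoa₁]
  have hob : orderOf b = q + 1 := by rw [← orderOf_injective φ₀ hφ₀, hφb, hob₁]
  have hab : a * b = b * a := by
    apply hφ₀
    rw [map_mul, map_mul, hφa, hφb]
    exact hcomm a₁ ha₁ b₁ hb₁
  obtain ⟨g, g1, g2, ⟨ca, g3⟩, ⟨cb, g4⟩⟩ := exists_common_frame hF hq eA eB hA hB hgen a b ⟨_, rfl⟩ ⟨_, rfl⟩ hoa hob hab
  have hconj : ∀ (y : SU 3 F q) (v : Fin 3 → F), mt (g⁻¹ * y * g) *ᵥ v = mt g⁻¹ *ᵥ (mt y *ᵥ (mt g *ᵥ v)) := by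
    intro y v
    rw [mt_mul, mt_mul, ← Matrix.mulVec_mulVec, ← Matrix.mulVec_mulVec]
  have hback : ∀ v : Fin 3 → F, mt g⁻¹ *ᵥ (mt g *ᵥ v) = v := by
    intro v
    rw [Matrix.mulVec_mulVec, mt_inv_mul, Matrix.one_mulVec]
  -- conjugates of the two blocks
  have hAm : ∀ x, ∃ y, emb hF (hd (by omega : 2 ≤ 3)) y = g⁻¹ * eA x * g := by
    intro x
    apply mem_range_emb hF
    intro j hj
    have h2' : j = 2 := by
      fin_cases j
      · exact absurd rfl (hj 0)
      · exact absurd rfl (hj 1)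
      · rfl
    subst h2'
    rw [hconj, g1, hback]
  have hBm : ∀ x, ∃ y, emb hF (tl 2) y = g⁻¹ * eB x * g := by
    intro x
    apply mem_range_emb hF
    intro j hj
    have h2' : j = 0 := by
      fin_cases j
      · rfl
      · exact absurd rfl (hj 0)
      · exact absurd rfl (hj 1)
    subst h2'
    rw [hconj, g2, hback]
  let φ : SU 3 F q →* G := φ₀.comp (MulAut.conj g).toMonoidHom
  have hφ : ∀ y, φ y = φ₀ (g * y * g⁻¹) := fun y => rfl
  have hfinSU : ∀ n : ℕ, Finite (SU n F q) := by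
    intro n
    exact Finite.of_injective (fun x : SU n F q => mt x) (fun x y h => mt_inj h)
  have hf2 := hfinSU 2
  have hf3 := hfinSU 3
  have hr1 : (φ.comp (emb hF (hd (by omega : 2 ≤ 3)))).range = U := by
    symm
    apply Subgroup.eq_of_le_of_card_ge
    · intro x hx
      rw [← hAU] at hx
      obtain ⟨_, ⟨y, rfl⟩, rfl⟩ := hx
      obtain ⟨z, hz⟩ := hAm y
      refine ⟨z, ?_⟩
      rw [MonoidHom.comp_apply, hφ, hz]
      congr 1
      group
    · rw [← Nat.card_congr eU.toEquiv]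
      exact Finite.card_range_le _
  have hr2 : (φ.comp (emb hF (tl 2))).range = W := by
    symm
    apply Subgroup.eq_of_le_of_card_ge
    · intro x hx
      rw [← hBW] at hx
      obtain ⟨_, ⟨y, rfl⟩, rfl⟩ := hx
      obtain ⟨z, hz⟩ := hBm y
      refine ⟨z, ?_⟩
      rw [MonoidHom.comp_apply, hφ, hz]
      congr 1
      group
    · rw [← Nat.card_congr eW.toEquiv]
      exact Finite.card_range_le _
  have hφinj : Function.Injective φ := hφ₀.comp (MulAut.conj g).injective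
  have hφr : φ.range = U ⊔ W := by
    rw [← hr]
    show (φ₀.comp (MulAut.conj g).toMonoidHom).range = φ₀.range
    rw [MonoidHom.range_comp, MonoidHom.range_eq_top.mpr (MulAut.conj g).surjective, ← MonoidHom.range_eq_map]
  -- the tori
  have hDUe : ∀ x ∈ DU, ∃ c hc, x = φ (emb hF (hd (by omega : 2 ≤ 3)) (tor hF c hc)) := by
    -- the generator
    obtain ⟨y, hy⟩ := hAm (eU.symm ⟨a₁, hDU ha₁⟩)
    rw [← hadef] at hy
    have h0 : mt (emb hF (hd (by omega : 2 ≤ 3)) y) *ᵥ (Pi.single 0 1) = ca • Pi.single 0 1 := by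
      rw [hy, hconj, g3, Matrix.mulVec_smul, hback]
    rw [mt_emb_hd_three, col_single] at h0
    have hy10 := congrFun h0 1
    simp at hy10
    have hcol := SU2_col hF y
    rw [hy10, zero_mul, add_zero] at hcol
    have hyt : y = tor hF (mt y 0 0) hcol := by
      apply SU2_ext hF
      · rw [mt_tor]; rfl
      · rw [mt_tor, hy10]; rfl
    have hya : a₁ = φ (emb hF (hd (by omega : 2 ≤ 3)) y) := by
      rw [hφ, hy, ← hφa]
      congr 1
      group
    intro x hx
    obtain ⟨k, hk⟩ := ha₁g ⟨x, hx⟩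
    have hk' : a₁ ^ k = x := congrArg Subtype.val hk
    have hyk : mt (y ^ k) 1 0 = 0 := by
      -- diagonal elements form a subgroup
      let N : Subgroup (SU 2 F q) :=
        { carrier := {b | mt b 1 0 = 0}
          mul_mem' := by
            intro a b ha hb
            show mt (a * b) 1 0 = 0
            have ha' : mt a 1 0 = 0 := ha
            have hb' : mt b 1 0 = 0 := hb
            rw [mt_mul, Matrix.mul_apply, Fin.sum_univ_two, ha', hb', zero_mul, mul_zero, add_zero]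
          one_mem' := by
            show mt 1 1 0 = (0 : F)
            rw [mt_one]; simp
          inv_mem' := by
            intro a ha
            show mt a⁻¹ 1 0 = 0
            rw [Amal.SU2_inv]
            have ha' : mt a 1 0 = 0 := ha
            rw [ha', neg_zero] }
      exact N.zpow_mem (show y ∈ N from hy10) k
    have hcolk := SU2_col hF (y ^ k)
    rw [hyk, zero_mul, add_zero] at hcolk
    refine ⟨mt (y ^ k) 0 0, hcolk, ?_⟩
    have hykt : y ^ k = tor hF (mt (y ^ k) 0 0) hcolk := by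
      apply SU2_ext hF
      · rw [mt_tor]; rfl
      · rw [mt_tor, hyk]; rfl
    rw [← hykt, map_zpow, map_zpow, ← hya, hk']
  have hDWe : ∀ x ∈ DW, ∃ c hc, x = φ (emb hF (tl 2) (tor hF c hc)) := by
    obtain ⟨y, hy⟩ := hBm (eW.symm ⟨b₁, hDW hb₁⟩)
    rw [← hbdef] at hy
    have h0 : mt (emb hF (tl 2) y) *ᵥ (Pi.single 1 1) = cb • Pi.single 1 1 := by
      rw [hy, hconj, g4, Matrix.mulVec_smul, hback]
    rw [mt_emb_tl_three, col_single] at h0
    have hy10 := congrFun h0 2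
    simp at hy10
    have hcol := SU2_col hF y
    rw [hy10, zero_mul, add_zero] at hcol
    have hya : b₁ = φ (emb hF (tl 2) y) := by
      rw [hφ, hy, ← hφb]
      congr 1
      group
    intro x hx
    obtain ⟨k, hk⟩ := hb₁g ⟨x, hx⟩
    have hk' : b₁ ^ k = x := congrArg Subtype.val hk
    have hyk : mt (y ^ k) 1 0 = 0 := by
      let N : Subgroup (SU 2 F q) :=
        { carrier := {b | mt b 1 0 = 0}
          mul_mem' := by
            intro a b ha hb
            show mt (a * b) 1 0 = 0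
            have ha' : mt a 1 0 = 0 := ha
            have hb' : mt b 1 0 = 0 := hb
            rw [mt_mul, Matrix.mul_apply, Fin.sum_univ_two, ha', hb', zero_mul, mul_zero, add_zero]
          one_mem' := by
            show mt 1 1 0 = (0 : F)
            rw [mt_one]; simp
          inv_mem' := by
            intro a ha
            show mt a⁻¹ 1 0 = 0
            rw [Amal.SU2_inv]
            have ha' : mt a 1 0 = 0 := ha
            rw [ha', neg_zero] }
      exact N.zpow_mem (show y ∈ N from hy10) k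
    have hcolk := SU2_col hF (y ^ k)
    rw [hyk, zero_mul, add_zero] at hcolk
    refine ⟨mt (y ^ k) 0 0, hcolk, ?_⟩
    have hykt : y ^ k = tor hF (mt (y ^ k) 0 0) hcolk := by
      apply SU2_ext hF
      · rw [mt_tor]; rfl
      · rw [mt_tor, hyk]; rfl
    rw [← hykt, map_zpow, map_zpow, ← hya, hk']
  refine ⟨φ, hφinj, hφr, hr1, hr2, hDUe, ?_, hDWe, ?_⟩
  · intro c hc
    exact torus_surj hF (by omega) (φ.comp (emb hF (hd (by omega : 2 ≤ 3)))) (hφinj.comp (emb_injective hF _)) DU hDUn hDUe c hc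
  · intro c hc
    exact torus_surj hF (by omega) (φ.comp (emb hF (tl 2))) (hφinj.comp (emb_injective hF _)) DW hDWn hDWe c hc

end H60.Ph
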