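import Mathlib
import Cfsg.Agent.Lib.H60.PhV

/-!
Phan systems, part W: the middle block.
-/

set_option autoImplicit false
set_option linter.unusedSectionVars false
set_option linter.unusedVariables false

namespace H60.Ph

open Matrix Cfsg H16.Herm

variable {F : Type*} [Field F] [Fintype F]

theorem cmp_mulVec (ε : Fin 2 ↪ Fin 4) (M : Matrix (Fin 4) (Fin 4) F) (h : ∀ i, (∀ k, ε k ≠ i) → ∀ j, M i (ε j) = 0)
    (u : Fin 2 → F) : M *ᵥ ext ε u = ext ε (cmp ε M *ᵥ u) := by
  have key : ∀ i, (M *ᵥ ext ε u) i = ∑ k, M i (ε k) * u k := by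
    intro i
    rw [Matrix.mulVec, dotProduct]
    symm
    apply Fintype.sum_of_injective ε ε.injective
    · intro j hj
      rw [ext_apply' ε u (fun k hk => hj ⟨k, hk⟩), mul_zero]
    · intro k
      rw [ext_apply]
  ext i
  rw [key]
  by_cases hi : ∃ l, ε l = i
  · obtain ⟨l, rfl⟩ := hi
    rw [ext_apply]
    rfl
  · push Not at hi
    rw [ext_apply' ε _ hi]
    apply Finset.sum_eq_zero
    intro k _
    rw [h i hi, zero_mul]

variable (hF : Fintype.card F = 3 ^ 2)

include hF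

/-- eigenbasis of an involutory isometry of the plane -/
theorem exists_plane (M : Matrix (Fin 2) (Fin 2) F) (hM : ∀ u v, hermForm 2 F 3 (M *ᵥ u) (M *ᵥ v) = hermForm 2 F 3 u v)
    (hMM : M * M = 1) (hns : ∀ c : F, M ≠ c • (1 : Matrix (Fin 2) (Fin 2) F)) :
    ∃ h : SU 2 F 3, M *ᵥ (mt h *ᵥ (Pi.single 0 1)) = mt h *ᵥ (Pi.single 0 1) ∧
      M *ᵥ (mt h *ᵥ (Pi.single 1 1)) = -(mt h *ᵥ (Pi.single 1 1)) := by
  have h2 := two_ne hF
  -- from a unit eigenvector
  have step : ∀ (c : F) (v : Fin 2 → F), c * c = 1 → hermForm 2 F 3 v v = 1 → M *ᵥ v = c • v →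
      ∃ h : SU 2 F 3, mt h *ᵥ (Pi.single 0 1) = v ∧ M *ᵥ (mt h *ᵥ (Pi.single 1 1)) = -(c • (mt h *ᵥ (Pi.single 1 1))) := by
    intro c v hcc hv hMv
    obtain ⟨h, hh⟩ := exists_SU_unit hF (by omega) 0 v hv
    refine ⟨h, hh, ?_⟩
    set w := mt h *ᵥ (Pi.single 1 1) with hw
    -- the image of the second vector
    set x := mt h⁻¹ *ᵥ (M *ᵥ w) with hx
    have hhx : mt h *ᵥ x = M *ᵥ w := by rw [hx, Matrix.mulVec_mulVec, mt_mul_inv, Matrix.one_mulVec]
    have hc0 : c ≠ 0 := left_ne_zero_of_mul_eq_one hcc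
    have hwv : hermForm 2 F 3 w v = 0 := by
      rw [hw, ← hh, mt_form, hermForm_single_left]
      simp
    have hx0 : x 0 = 0 := by
      rw [← hermForm_single_right (q := 3) x 0 hF, ← mt_form h, hhx, hh]
      have h3 : v = c⁻¹ • (M *ᵥ v) := by rw [hMv, smul_smul, inv_mul_cancel₀ hc0, one_smul]
      rw [h3, hermForm_smul_right, hM, hwv, mul_zero]
    have hxe : x = x 1 • (Pi.single 1 1 : Fin 2 → F) := by
      ext i
      fin_cases i
      · simpa using hx0
      · simp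
    have hMw : M *ᵥ w = x 1 • w := by
      rw [← hhx, hxe, Matrix.mulVec_smul, ← hw]
      simp
    have hw0 : w ≠ 0 := by
      intro h0
      have : hermForm 2 F 3 w w = 1 := by rw [hw, mt_form, hermForm_single_left]; simp
      rw [h0, hermForm_zero_left] at this
      exact zero_ne_one this
    have hxx : x 1 * x 1 = 1 := by
      have h3 : M *ᵥ (M *ᵥ w) = w := by rw [Matrix.mulVec_mulVec, hMM, Matrix.one_mulVec]
      rw [hMw, Matrix.mulVec_smul, hMw, smul_smul] at h3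
      have h4 : (x 1 * x 1 - 1) • w = 0 := by rw [sub_smul, h3, one_smul, sub_self]
      exact sub_eq_zero.mp ((smul_eq_zero.mp h4).resolve_right hw0)
    have hxc : x 1 = c ∨ x 1 = -c := by
      have h3 : (x 1 - c) * (x 1 + c) = 0 := by linear_combination hxx - hcc
      rcases mul_eq_zero.mp h3 with h4 | h4
      · exact Or.inl (sub_eq_zero.mp h4)
      · exact Or.inr (eq_neg_of_add_eq_zero_left h4)
    rcases hxc with h3 | h3
    · exfalso
      apply hns c
      have h4 : M * mt h = c • mt h := by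
        apply Matrix.ext_of_mulVec_single
        intro i
        rw [← Matrix.mulVec_mulVec, Matrix.smul_mulVec]
        fin_cases i
        · show M *ᵥ (mt h *ᵥ (Pi.single 0 1)) = c • (mt h *ᵥ (Pi.single 0 1))
          rw [hh]; exact hMv
        · show M *ᵥ w = c • w
          rw [hMw, h3]
      calc M = M * (mt h * mt h⁻¹) := by rw [mt_mul_inv, Matrix.mul_one]
        _ = c • (1 : Matrix (Fin 2) (Fin 2) F) := by rw [← Matrix.mul_assoc, h4, Matrix.smul_mul, mt_mul_inv]
    · rw [hMw, h3, neg_smul]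
  obtain ⟨c, v, hc, hcv, hvv, -⟩ := exists_eigen hF M hM (by
    rw [pow_succ, pow_succ, pow_two, hMM, Matrix.one_mul, hMM]) (Pi.single 0 1) (by
      rw [hermForm_single_left]; simp)
  have hv0 : v ≠ 0 := by
    intro h0
    rw [h0, hermForm_zero_left] at hvv
    exact zero_ne_one hvv
  have hcc : c * c = 1 := by
    have h3 : M *ᵥ (M *ᵥ v) = v := by rw [Matrix.mulVec_mulVec, hMM, Matrix.one_mulVec]
    rw [hcv, Matrix.mulVec_smul, hcv, smul_smul] at h3
    have h4 : (c * c - 1) • v = 0 := by rw [sub_smul, h3, one_smul, sub_self]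
    exact sub_eq_zero.mp ((smul_eq_zero.mp h4).resolve_right hv0)
  rcases mul_self_eq_one_iff.mp hcc with h | h
  · obtain ⟨k, k0, k1⟩ := step c v hcc hvv hcv
    refine ⟨k, ?_, ?_⟩
    · rw [k0, hcv, h, one_smul]
    · rw [k1, h, one_smul]
  · obtain ⟨k, k0, k1⟩ := step c v hcc hvv hcv
    rw [h, neg_smul, neg_neg, one_smul] at k1
    have hk1 : hermForm 2 F 3 (mt k *ᵥ (Pi.single 1 1)) (mt k *ᵥ (Pi.single 1 1)) = 1 := by
      rw [mt_form, hermForm_single_left]; simp
    obtain ⟨l, l0, l1⟩ := step 1 (mt k *ᵥ (Pi.single 1 1)) (one_mul 1) hk1 (by rw [k1, one_smul])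
    refine ⟨l, ?_, ?_⟩
    · rw [l0, k1]
    · rw [l1, one_smul]

/-- the three-cycle -/
def pc : SU 3 F 3 := ofMt !![0, 0, 1; 1, 0, 0; 0, 1, 0] (by simp [Matrix.det_fin_three]) (by
  intro u v
  simp [hermForm, Matrix.mulVec, dotProduct, Fin.sum_univ_three]
  ring)

theorem pc_hd (b : SU 2 F 3) : (pc : SU 3 F 3) * emb hF (hd (by omega : 2 ≤ 3)) b = emb hF (tl 2) b * (pc : SU 3 F 3) := by
  apply mt_inj
  rw [mt_mul, mt_mul, mt_emb_hd_three, mt_emb_tl_three]
  have : mt ((pc : SU 3 F 3)) = !![0, 0, 1; 1, 0, 0; 0, 1, 0] := rfl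
  rw [this]
  ext i j
  rw [Matrix.mul_apply, Matrix.mul_apply, Fin.sum_univ_three, Fin.sum_univ_three]
  fin_cases i <;> fin_cases j <;> simp

theorem hd_tt_comm (a b : SU 2 F 3) : emb hF (hd (by omega : 2 ≤ 4)) a * emb hF tt b = emb hF tt b * emb hF (hd (by omega : 2 ≤ 4)) a := by
  apply emb_commute
  intro i j h
  have h' := congrArg Fin.val h
  have h1 : (i : ℕ) < 2 := i.2
  simp [tl, hd] at h'
  omega

end H60.Ph
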