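import Mathlib
import Cfsg.Agent.Lib.H60.PhW

/-!
Phan systems, part X: standardization of the middle block.
-/

set_option autoImplicit false
set_option linter.unusedSectionVars false
set_option linter.unusedVariables false

namespace H60.Ph

open Matrix Cfsg H16.Herm

variable {F : Type*} [Field F] [Fintype F] (hF : Fintype.card F = 3 ^ 2)

include hF

theorem mt_t0 : mt (emb hF (hd (by omega : 2 ≤ 4)) (zz hF)) = Matrix.diagonal ![-1, -1, 1, 1] := by
  rw [mt_emb_hd4, zz00, zz01, zz10, zz11]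
  ext i j
  fin_cases i <;> fin_cases j <;> simp

theorem mt_t2 : mt (emb hF tt (zz hF)) = Matrix.diagonal ![1, 1, -1, -1] := by
  rw [mt_emb_tt, zz00, zz01, zz10, zz11]
  ext i j
  fin_cases i <;> fin_cases j <;> simp

theorem tr_zero (b : SU 2 F 3) (hb : b * b = zz hF) : mt b 0 0 + mt b 1 1 = 0 := by
  rw [SU2_11 hF]
  have h0 : mt (b * b) 0 0 = -1 := by rw [hb, zz00]
  have h1 : mt (b * b) 1 0 = 0 := by rw [hb, zz10]
  rw [SU2_mul00 hF] at h0
  rw [SU2_mul10 hF] at h1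
  have h3 : mt b 1 0 * (mt b 0 0 + mt b 0 0 ^ 3) = 0 := by linear_combination h1
  rcases mul_eq_zero.mp h3 with h4 | h4
  · rw [h4] at h0
    linear_combination mt b 0 0 * h0
  · exact h4

theorem rsp_gen (t w : SU 4 F 3) (D : Fin 4 → F) (ht : mt t = Matrix.diagonal D) (hw : w * t = t * w)
    (ε ε' : Fin 2 ↪ Fin 4) (hcov : ∀ i, (∃ k, ε k = i) ∨ (∃ k, ε' k = i)) (hne : ∀ j k, D (ε j) ≠ D (ε' k)) :
    ∀ i, (∀ k, ε k ≠ i) → ∀ j, mt w i (ε j) = 0 := by
  intro i hi j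
  obtain ⟨k, rfl⟩ : ∃ k, ε' k = i := (hcov i).resolve_left (fun ⟨k, hk⟩ => hi k hk)
  exact off_zero D w t ht hw (hne j k).symm

theorem fix_block (t w : SU 4 F 3) (D : Fin 4 → F) (ht : mt t = Matrix.diagonal D) (hw : w * t = t * w)
    (ε ε' : Fin 2 ↪ Fin 4) (hcov : ∀ i, (∃ k, ε k = i) ∨ (∃ k, ε' k = i)) (hne : ∀ j k, D (ε j) ≠ D (ε' k))
    (hc : cmp ε (mt w) = 1) (hww : w * w = 1) : w = 1 ∨ w = emb hF ε' (zz hF) := by
  have hcol : ∀ k, mt w *ᵥ (Pi.single (ε k) 1) = (Pi.single (ε k) 1 : Fin 4 → F) := by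
    intro k
    rw [← ext_single, cmp_mulVec ε (mt w) (rsp_gen hF t w D ht hw ε ε' hcov hne), hc, Matrix.one_mulVec]
  obtain ⟨b, hb⟩ := mem_range_emb hF ε' w (by
    intro j hj
    obtain ⟨k, rfl⟩ : ∃ k, ε k = j := (hcov j).resolve_right (fun ⟨k, hk⟩ => hj k hk)
    exact hcol k)
  by_cases hb1 : b = 1
  · left
    rw [← hb, hb1, map_one]
  · right
    obtain ⟨e0, e1⟩ := SU2_invol hF (two_ne hF) b (by
      apply emb_injective hF ε'
      rw [map_mul, hb, hww, map_one]) hb1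
    rw [← hb]
    congr 1
    apply SU2_ext hF
    · rw [e0, zz00]
    · rw [e1, zz10]

theorem cover4 : ∀ i : Fin 4, (∃ k, (hd (by omega : 2 ≤ 4) k : Fin 4) = i) ∨ (∃ k, (tt k : Fin 4) = i) := by
  intro i
  fin_cases i
  · exact Or.inl ⟨0, rfl⟩
  · exact Or.inl ⟨1, rfl⟩
  · exact Or.inr ⟨0, rfl⟩
  · exact Or.inr ⟨1, rfl⟩

theorem exists_middle {G : Type*} [Group G] (g : SU 4 F 3 →* G) (hna : ∃ a b, g a * g b ≠ g b * g a)
    (φ : SU 3 F 3 →* G) (hφ : Function.Injective φ) (hr : ∀ y, ∃ a, g a = φ y)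
    (hA : (φ.comp (emb hF (hd (by omega : 2 ≤ 3)))).range = (g.comp (emb hF (hd (by omega : 2 ≤ 4)))).range) :
    ∃ s : SU 4 F 3, ((cj g s).comp (emb hF (hd (by omega : 2 ≤ 4)))).range = (g.comp (emb hF (hd (by omega : 2 ≤ 4)))).range ∧
      ((cj g s).comp (emb hF tt)).range = (g.comp (emb hF tt)).range ∧
      ((cj g s).comp (emb hF md)).range = (φ.comp (emb hF (tl 2))).range := by
  have h2 := two_ne hF
  have hne : (1 : F) ≠ -1 := by
    intro h
    apply h2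
    linear_combination h
  obtain ⟨ι, hι⟩ := exists_iota hF
  have ihd : Function.Injective (g.comp (emb hF (hd (by omega : 2 ≤ 4)))) := by
    apply inj_block hF g hna _ 3
    intro i h
    have h1 := congrArg Fin.val h
    have h3 : (i : ℕ) < 2 := i.2
    simp at h1
    omega
  have iφ : Function.Injective (φ.comp (emb hF (hd (by omega : 2 ≤ 3)))) := hφ.comp (emb_injective hF _)
  have lift : ∀ u : SU 2 F 3, ∃ b : SU 2 F 3, g (emb hF (hd (by omega : 2 ≤ 4)) b) = φ (emb hF (hd (by omega : 2 ≤ 3)) u) := by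
    intro u
    have h3 : φ (emb hF (hd (by omega : 2 ≤ 3)) u) ∈ (φ.comp (emb hF (hd (by omega : 2 ≤ 3)))).range := ⟨u, rfl⟩
    rw [hA] at h3
    exact h3
  have gzz : g (emb hF (hd (by omega : 2 ≤ 4)) (zz hF)) = φ (emb hF (hd (by omega : 2 ≤ 3)) (zz hF)) := by
    obtain ⟨b, hb⟩ := lift (zz hF)
    have hbb : b * b = 1 := by
      apply ihd
      rw [MonoidHom.comp_apply, map_mul, map_mul, hb, ← map_mul, ← map_mul, zz_zz, map_one, map_one, map_one]
    have hb1 : b ≠ 1 := by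
      rintro rfl
      rw [map_one, map_one] at hb
      apply zz_ne hF
      apply iφ
      rw [MonoidHom.comp_apply, ← hb, map_one]
    obtain ⟨e0, e1⟩ := SU2_invol hF h2 b hbb hb1
    have hbz : b = zz hF := by
      apply SU2_ext hF
      · rw [e0, zz00]
      · rw [e1, zz10]
    rw [hbz] at hb
    exact hb
  obtain ⟨bX, hbX⟩ := lift (tor hF ι (iota_norm hι))
  have hbXX : bX * bX = zz hF := by
    apply ihd
    rw [MonoidHom.comp_apply, MonoidHom.comp_apply, gzz, map_mul, map_mul, hbX, ← map_mul, ← map_mul, XX hF ι hι]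
  obtain ⟨p, hp⟩ := hr pc
  obtain ⟨t0, ht0⟩ : ∃ t0, t0 = emb hF (hd (by omega : 2 ≤ 4)) (zz hF) := ⟨_, rfl⟩
  obtain ⟨t2, ht2⟩ : ∃ t2, t2 = emb hF tt (zz hF) := ⟨_, rfl⟩
  obtain ⟨x, hx⟩ : ∃ x, x = emb hF (hd (by omega : 2 ≤ 4)) bX := ⟨_, rfl⟩
  obtain ⟨tj, htj⟩ : ∃ tj, tj = p * t0 * p⁻¹ := ⟨_, rfl⟩
  have mt0 : mt t0 = Matrix.diagonal ![-1, -1, 1, 1] := by rw [ht0, mt_t0]
  have mt2 : mt t2 = Matrix.diagonal ![1, 1, -1, -1] := by rw [ht2, mt_t2]
  have hxx : x * x = t0 := by rw [hx, ← map_mul, hbXX, ht0]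
  have ht00 : t0 * t0 = 1 := by rw [ht0, ← map_mul, zz_zz, map_one]
  have ht22 : t2 * t2 = 1 := by rw [ht2, ← map_mul, zz_zz, map_one]
  have htjj : tj * tj = 1 := by
    rw [htj]
    calc p * t0 * p⁻¹ * (p * t0 * p⁻¹) = p * (t0 * t0) * p⁻¹ := by group
      _ = 1 := by rw [ht00]; group
  have hpc : φ pc * φ (emb hF (hd (by omega : 2 ≤ 3)) (zz hF)) * (φ pc)⁻¹ = φ (emb hF (tl 2) (zz hF)) := by
    rw [← map_mul, pc_hd, map_mul, mul_inv_cancel_right]
  have gtj : g tj = φ (emb hF (tl 2) (zz hF)) := by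
    rw [htj, map_mul, map_mul, map_inv, hp, ht0, gzz, hpc]
  -- exact commutation of `x` and `tj`
  have hXz : emb hF (hd (by omega : 2 ≤ 3)) (tor hF ι (iota_norm hι)) * emb hF (tl 2) (zz hF) =
      emb hF (tl 2) (zz hF) * emb hF (hd (by omega : 2 ≤ 3)) (tor hF ι (iota_norm hι)) := by
    apply mt_inj
    rw [mt_mul, mt_mul, mt_emb_hd_three, mt_emb_tl_three, zz00, zz01, zz10, zz11, mt_tor]
    ext i j
    rw [Matrix.mul_apply, Matrix.mul_apply, Fin.sum_univ_three, Fin.sum_univ_three]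
    fin_cases i <;> fin_cases j <;> simp
  have hxtj : x * tj = tj * x := by
    obtain ⟨ζ, hζ, h3⟩ := same_image hF g hna (x * tj) (tj * x) (by
      rw [map_mul, map_mul, gtj, hx, hbX, ← map_mul, ← map_mul, hXz])
    have htr : Matrix.trace (mt x) = 2 := by
      rw [hx, mt_emb_hd4, Matrix.trace, Fin.sum_univ_four]
      simp
      linear_combination tr_zero hF bX hbXX
    have h4 : mt x = ζ • (mt tj * (mt x * mt tj⁻¹)) := by
      rw [mt_mul, mt_mul] at h3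
      calc mt x = mt x * (mt tj * mt tj⁻¹) := by rw [mt_mul_inv, Matrix.mul_one]
        _ = _ := by rw [← Matrix.mul_assoc, h3, Matrix.smul_mul, Matrix.mul_assoc]
    have h5 := congrArg Matrix.trace h4
    rw [Matrix.trace_smul, Matrix.trace_mul_comm, Matrix.mul_assoc, mt_inv_mul, Matrix.mul_one, htr] at h5
    have hζ1 : ζ = 1 := by
      apply mul_right_cancel₀ h2
      rw [one_mul]
      exact h5.symm
    rw [hζ1, one_smul] at h3
    exact mt_inj h3
  have htj0 : tj * t0 = t0 * tj := by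
    rw [← hxx, ← mul_assoc, ← hxtj, mul_assoc, ← hxtj, mul_assoc]
  have h02 : t0 * t2 = t2 * t0 := by rw [ht0, ht2]; exact hd_tt_comm hF _ _
  have hm1 : mt (t0 * t2) = -1 := by
    rw [mt_mul, mt0, mt2, Matrix.diagonal_mul_diagonal]
    ext i j
    fin_cases i <;> fin_cases j <;> simp
  have hm1c : ∀ w : SU 4 F 3, (t0 * t2) * w = w * (t0 * t2) := by
    intro w
    apply mt_inj
    rw [mt_mul (t0 * t2) w, mt_mul w (t0 * t2), hm1, neg_mul, mul_neg, Matrix.one_mul, Matrix.mul_one]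
  have hcov := cover4 (F := F) hF
  have hDa : ∀ (j k : Fin 2), (![-1, -1, 1, 1] : Fin 4 → F) (hd (by omega : 2 ≤ 4) j) ≠ (![-1, -1, 1, 1] : Fin 4 → F) (tt k) := by
    intro j k
    fin_cases j <;> fin_cases k <;> exact hne.symm
  have hDb : ∀ (j k : Fin 2), (![-1, -1, 1, 1] : Fin 4 → F) (tt j) ≠ (![-1, -1, 1, 1] : Fin 4 → F) (hd (by omega : 2 ≤ 4) k) :=
    fun j k => (hDa k j).symm
  have ra : ∀ w : SU 4 F 3, w * t0 = t0 * w → ∀ i, (∀ k, hd (by omega : 2 ≤ 4) k ≠ i) → ∀ j, mt w i (hd (by omega : 2 ≤ 4) j) = 0 :=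
    fun w hw => rsp_gen hF t0 w _ mt0 hw _ tt hcov hDa
  have rb : ∀ w : SU 4 F 3, w * t0 = t0 * w → ∀ i, (∀ k, tt k ≠ i) → ∀ j, mt w i (tt j) = 0 :=
    fun w hw => rsp_gen hF t0 w _ mt0 hw _ (hd (by omega : 2 ≤ 4)) (fun i => (hcov i).symm) hDb
  have fa : ∀ w : SU 4 F 3, w * t0 = t0 * w → cmp (hd (by omega : 2 ≤ 4)) (mt w) = 1 → w * w = 1 → w = 1 ∨ w = t2 := by
    intro w hw hc hww
    rw [ht2]
    exact fix_block hF t0 w _ mt0 hw _ tt hcov hDa hc hww
  have fb : ∀ w : SU 4 F 3, w * t0 = t0 * w → cmp tt (mt w) = 1 → w * w = 1 → w = 1 ∨ w = t0 := by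
    intro w hw hc hww
    rw [ht0]
    exact fix_block hF t0 w _ mt0 hw _ (hd (by omega : 2 ≤ 4)) (fun i => (hcov i).symm) hDb hc hww
  -- the excluded values
  have n1 : tj ≠ 1 := by
    intro h
    apply zz_ne hF
    apply emb_injective hF (hd (by omega : 2 ≤ 4))
    rw [map_one, ← ht0]
    have : t0 = p⁻¹ * tj * p := by rw [htj]; group
    rw [this, h]
    group
  have n2 : tj ≠ t0 := by
    intro h
    rw [h, ht0, gzz] at gtj
    have h3 := congrArg mt (hφ gtj)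
    rw [mt_emb_hd_three, mt_emb_tl_three, zz00, zz01, zz10, zz11] at h3
    have h4 := congrFun (congrFun h3 0) 0
    simp at h4
    exact hne h4.symm
  have n3 : tj ≠ t0 * t2 := by
    intro h
    apply zz_ne hF
    apply emb_injective hF tt
    rw [map_one, ← ht2]
    have h3 : t0 = p⁻¹ * tj * p := by rw [htj]; group
    rw [h, mul_assoc, hm1c, ← mul_assoc, inv_mul_cancel, one_mul] at h3
    exact (mul_eq_left.mp h3.symm)
  have n4 : tj ≠ t2 := by
    intro h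
    obtain ⟨w, hw⟩ := hr (emb hF (tl 2) (wl hF))
    have h3 : g (t0 * t2) * g w = g w * g (t0 * t2) := by rw [← map_mul, hm1c, map_mul]
    rw [map_mul, ← h, gtj, ht0, gzz, hw, ← map_mul, ← map_mul, ← map_mul] at h3
    have h4 := congrArg mt (hφ h3)
    rw [mt_mul, mt_mul, mt_mul, mt_mul, mt_emb_hd_three, mt_emb_tl_three, mt_emb_tl_three, zz00, zz01, zz10, zz11, mt_wl] at h4
    have h5 := congrFun (congrFun h4 1) 2
    simp [Matrix.mul_apply, Fin.sum_univ_three] at h5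
    exact hne h5.symm
  -- square root cases
  have sq1 : ∀ (ε : Fin 2 ↪ Fin 4) (c : F), (∀ i, (∀ k, ε k ≠ i) → ∀ j, mt tj i (ε j) = 0) →
      cmp ε (mt tj) = c • (1 : Matrix (Fin 2) (Fin 2) F) → c = 1 ∨ c = -1 := by
    intro ε c hrsp hc
    have h3 : cmp ε (mt tj) * cmp ε (mt tj) = 1 := by
      rw [← cmp_mul ε _ _ hrsp, ← mt_mul, htjj, mt_one, cmp_one]
    rw [hc] at h3
    have h4 := congrFun (congrFun h3 0) 0
    simp at h4
    exact mul_self_eq_one_iff.mp h4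
  have nsE : ∀ c : F, cmp (hd (by omega : 2 ≤ 4)) (mt tj) ≠ c • (1 : Matrix (Fin 2) (Fin 2) F) := by
    intro c hc
    rcases sq1 _ c (ra tj htj0) hc with h | h
    · rcases fa tj htj0 (by rw [hc, h, one_smul]) htjj with h3 | h3
      · exact n1 h3
      · exact n4 h3
    · have hw : (tj * t0) * t0 = t0 * (tj * t0) := by rw [htj0, mul_assoc, htj0]
      have hc0 : cmp (hd (by omega : 2 ≤ 4)) (mt t0) = -1 := by
        rw [mt0]
        ext a b
        fin_cases a <;> fin_cases b <;> simp [cmp]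
      have hww : (tj * t0) * (tj * t0) = 1 := by
        calc tj * t0 * (tj * t0) = tj * t0 * (t0 * tj) := by rw [htj0]
          _ = tj * (t0 * t0) * tj := by group
          _ = 1 := by rw [ht00, mul_one, htjj]
      rcases fa (tj * t0) hw (by
        rw [mt_mul, cmp_mul _ _ _ (ra t0 rfl), hc, hc0, h]
        simp) hww with h3 | h3
      · apply n2
        calc tj = tj * t0 * t0 := by rw [mul_assoc, ht00, mul_one]
          _ = t0 := by rw [h3, one_mul]
      · apply n3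
        calc tj = tj * t0 * t0 := by rw [mul_assoc, ht00, mul_one]
          _ = t0 * t2 := by rw [h3, h02]
  have nsW : ∀ c : F, cmp tt (mt tj) ≠ c • (1 : Matrix (Fin 2) (Fin 2) F) := by
    intro c hc
    have htj2 : tj * t2 = t2 * tj := by
      have h3 : tj * (t0 * t2) = (t0 * t2) * tj := (hm1c tj).symm
      rw [← mul_assoc, htj0, mul_assoc, mul_assoc] at h3
      exact mul_left_cancel h3
    rcases sq1 _ c (rb tj htj0) hc with h | h
    · rcases fb tj htj0 (by rw [hc, h, one_smul]) htjj with h3 | h3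
      · exact n1 h3
      · exact n2 h3
    · have hw : (tj * t2) * t0 = t0 * (tj * t2) := by rw [mul_assoc, ← h02, ← mul_assoc, htj0, mul_assoc]
      have hc0 : cmp tt (mt t2) = -1 := by
        rw [mt2]
        ext a b
        fin_cases a <;> fin_cases b <;> simp [cmp, tl]
      have hww : (tj * t2) * (tj * t2) = 1 := by
        calc tj * t2 * (tj * t2) = tj * t2 * (t2 * tj) := by rw [htj2]
          _ = tj * (t2 * t2) * tj := by group
          _ = 1 := by rw [ht22, mul_one, htjj]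
      rcases fb (tj * t2) hw (by
        rw [mt_mul, cmp_mul _ _ _ (rb t2 h02.symm), hc, hc0, h]
        simp) hww with h3 | h3
      · apply n4
        calc tj = tj * t2 * t2 := by rw [mul_assoc, ht22, mul_one]
          _ = t2 := by rw [h3, one_mul]
      · apply n3
        calc tj = tj * t2 * t2 := by rw [mul_assoc, ht22, mul_one]
          _ = t0 * t2 := by rw [h3]
  -- isometries
  have iso : ∀ (ε : Fin 2 ↪ Fin 4), (∀ i, (∀ k, ε k ≠ i) → ∀ j, mt tj i (ε j) = 0) → ∀ u v,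
      hermForm 2 F 3 (cmp ε (mt tj) *ᵥ u) (cmp ε (mt tj) *ᵥ v) = hermForm 2 F 3 u v := by
    intro ε hrsp u v
    rw [← form_ext_ext ε, ← cmp_mulVec ε _ hrsp, ← cmp_mulVec ε _ hrsp, mt_form, form_ext_ext]
  have invl : ∀ (ε : Fin 2 ↪ Fin 4), (∀ i, (∀ k, ε k ≠ i) → ∀ j, mt tj i (ε j) = 0) →
      cmp ε (mt tj) * cmp ε (mt tj) = 1 := by
    intro ε hrsp
    rw [← cmp_mul ε _ _ hrsp, ← mt_mul, htjj, mt_one, cmp_one]
  obtain ⟨h₁, -, he1⟩ := exists_plane hF _ (iso _ (ra tj htj0)) (invl _ (ra tj htj0)) nsE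
  obtain ⟨h₂', -, he2'⟩ := exists_plane hF _ (iso _ (rb tj htj0)) (invl _ (rb tj htj0)) nsW
  obtain ⟨h₂, hh₂⟩ : ∃ h₂, h₂ = h₂' * wl hF := ⟨_, rfl⟩
  have he2 : cmp tt (mt tj) *ᵥ (mt h₂ *ᵥ (Pi.single 0 1)) = -(mt h₂ *ᵥ (Pi.single 0 1)) := by
    have : mt h₂ *ᵥ (Pi.single 0 1) = mt h₂' *ᵥ (Pi.single 1 1) := by
      rw [hh₂, mt_mul, ← Matrix.mulVec_mulVec]
      congr 1
      rw [col_single]
      ext i
      fin_cases i
      · exact mt_wl00 hF
      · exact mt_wl10 hF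
    rw [this, he2']
  obtain ⟨s, hs⟩ : ∃ s, s = emb hF (hd (by omega : 2 ≤ 4)) h₁ * emb hF tt h₂ := ⟨_, rfl⟩
  -- zero compositions
  have z1 : ∀ v : Fin 2 → F, (ext (hd (by omega : 2 ≤ 4)) v) ∘ (tt : Fin 2 ↪ Fin 4) = 0 := by
    intro v
    ext i
    rw [Function.comp_apply, ext_apply']
    · rfl
    · intro k h
      exact hDa k i (by rw [h])
  have z2 : ∀ v : Fin 2 → F, (ext tt v) ∘ (hd (by omega : 2 ≤ 4)) = 0 := by
    intro v
    ext i
    rw [Function.comp_apply, ext_apply']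
    · rfl
    · intro k h
      exact hDa i k (by rw [h])
  have se1 : mt s *ᵥ (Pi.single 1 1) = ext (hd (by omega : 2 ≤ 4)) (mt h₁ *ᵥ (Pi.single 1 1)) := by
    have e : (Pi.single 1 1 : Fin 4 → F) = ext (hd (by omega : 2 ≤ 4)) (Pi.single 1 1) := by
      rw [ext_single]; rfl
    rw [e, hs, mt_mul, ← Matrix.mulVec_mulVec, mt_emb, mt_emb, EM_mulVec_of_zero _ _ _ (z1 _), EM_mulVec_ext]
  have se2 : mt s *ᵥ (Pi.single 2 1) = ext tt (mt h₂ *ᵥ (Pi.single 0 1)) := by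
    have e : (Pi.single 2 1 : Fin 4 → F) = ext tt (Pi.single 0 1) := by
      rw [ext_single]; rfl
    rw [e, hs, mt_mul, ← Matrix.mulVec_mulVec, mt_emb, mt_emb, EM_mulVec_ext, EM_mulVec_of_zero _ _ _ (z2 _)]
  obtain ⟨T, hT⟩ : ∃ T, T = s⁻¹ * tj * s := ⟨_, rfl⟩
  have T1 : mt T *ᵥ (Pi.single 1 1) = -(Pi.single 1 1 : Fin 4 → F) := by
    rw [hT, mt_mul, mt_mul, ← Matrix.mulVec_mulVec, ← Matrix.mulVec_mulVec, se1, cmp_mulVec _ _ (ra tj htj0), he1,
      ← neg_one_smul F (mt h₁ *ᵥ _), ext_smul, Matrix.mulVec_smul, ← se1, Matrix.mulVec_mulVec, mt_inv_mul,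
      Matrix.one_mulVec, neg_one_smul]
  have T2 : mt T *ᵥ (Pi.single 2 1) = -(Pi.single 2 1 : Fin 4 → F) := by
    rw [hT, mt_mul, mt_mul, ← Matrix.mulVec_mulVec, ← Matrix.mulVec_mulVec, se2, cmp_mulVec _ _ (rb tj htj0), he2,
      ← neg_one_smul F (mt h₂ *ᵥ _), ext_smul, Matrix.mulVec_smul, ← se2, Matrix.mulVec_mulVec, mt_inv_mul,
      Matrix.one_mulVec, neg_one_smul]
  have Tz : ∀ (v : Fin 4 → F) (l : Fin 4), mt T *ᵥ v = v → mt T *ᵥ (Pi.single l 1) = -(Pi.single l 1 : Fin 4 → F) → v l = 0 := by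
    intro v l hv hl
    rw [← hermForm_single_right (q := 3) v l hF]
    have h3 := mt_form T v (Pi.single l 1)
    rw [hv, hl, hermForm_neg_right hF] at h3
    have h4 : 2 * hermForm 4 F 3 v (Pi.single l 1) = 0 := by linear_combination -h3
    exact (mul_eq_zero.mp h4).resolve_left h2
  -- conjugation by `s`
  have cs1 : ∀ b : SU 2 F 3, s * emb hF (hd (by omega : 2 ≤ 4)) b * s⁻¹ = emb hF (hd (by omega : 2 ≤ 4)) (h₁ * b * h₁⁻¹) := by
    intro b
    have h3 := hd_tt_comm hF b h₂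
    have e : emb hF (hd (by omega : 2 ≤ 4)) (h₁ * b * h₁⁻¹) = emb hF (hd (by omega : 2 ≤ 4)) h₁ *
        emb hF (hd (by omega : 2 ≤ 4)) b * (emb hF (hd (by omega : 2 ≤ 4)) h₁)⁻¹ := by rw [map_mul, map_mul, map_inv]
    rw [hs, e]
    generalize emb hF (hd (by omega : 2 ≤ 4)) h₁ = A at h3 ⊢
    generalize emb hF (hd (by omega : 2 ≤ 4)) b = B at h3 ⊢
    generalize emb hF tt h₂ = C at h3 ⊢
    calc A * C * B * (A * C)⁻¹ = A * (C * B) * C⁻¹ * A⁻¹ := by group
      _ = A * B * A⁻¹ := by rw [← h3]; group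
  have cs2 : ∀ b : SU 2 F 3, s * emb hF tt b * s⁻¹ = emb hF tt (h₂ * b * h₂⁻¹) := by
    intro b
    have h3 := hd_tt_comm hF h₁ (h₂ * b * h₂⁻¹)
    have e : emb hF tt (h₂ * b * h₂⁻¹) = emb hF tt h₂ * emb hF tt b * (emb hF tt h₂)⁻¹ := by rw [map_mul, map_mul, map_inv]
    rw [e] at h3 ⊢
    rw [hs]
    generalize emb hF (hd (by omega : 2 ≤ 4)) h₁ = A at h3 ⊢
    generalize emb hF tt b = B at h3 ⊢
    generalize emb hF tt h₂ = C at h3 ⊢
    calc A * C * B * (A * C)⁻¹ = A * (C * B * C⁻¹) * A⁻¹ := by group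
      _ = C * B * C⁻¹ := by rw [h3]; group
  refine ⟨s, ?_, ?_, ?_⟩
  · ext y
    constructor
    · rintro ⟨b, rfl⟩
      refine ⟨h₁ * b * h₁⁻¹, ?_⟩
      rw [MonoidHom.comp_apply, MonoidHom.comp_apply, cj_apply, cs1]
    · rintro ⟨b, rfl⟩
      refine ⟨h₁⁻¹ * b * h₁, ?_⟩
      show g (s * emb hF _ (h₁⁻¹ * b * h₁) * s⁻¹) = g (emb hF _ b)
      rw [cs1]
      congr 2
      group
  · ext y
    constructor
    · rintro ⟨b, rfl⟩
      refine ⟨h₂ * b * h₂⁻¹, ?_⟩
      rw [MonoidHom.comp_apply, MonoidHom.comp_apply, cj_apply, cs2]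
    · rintro ⟨b, rfl⟩
      refine ⟨h₂⁻¹ * b * h₂, ?_⟩
      show g (s * emb hF _ (h₂⁻¹ * b * h₂) * s⁻¹) = g (emb hF _ b)
      rw [cs2]
      congr 2
      group
  · have hna' : ∃ a b, cj g s a * cj g s b ≠ cj g s b * cj g s a := by
      obtain ⟨a, b, hab⟩ := hna
      exact ⟨s⁻¹ * a * s, s⁻¹ * b * s, by rwa [cj_apply', cj_apply']⟩
    have imd : Function.Injective ((cj g s).comp (emb hF md)) := by
      apply inj_block hF (cj g s) hna' _ 0
      intro i h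
      have h1 := congrArg Fin.val h
      simp [tl] at h1
    apply range_eq_of_le _ _ imd
    rintro _ ⟨b, rfl⟩
    obtain ⟨P, hP⟩ : ∃ P, P = s⁻¹ * p * s := ⟨_, rfl⟩
    have gP : cj g s P = φ pc := by rw [hP, cj_apply', hp]
    have hPT : P * t0 = T * P := by
      have h3 : s * t0 = t0 * s := by
        have h4 := cs1 (zz hF)
        rw [← ht0] at h4
        have h5 : h₁ * zz hF * h₁⁻¹ = zz hF := by rw [← zz_comm, mul_assoc, mul_inv_cancel, mul_one]
        rw [h5, ← ht0] at h4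
        exact mul_inv_eq_iff_eq_mul.mp h4
      rw [hP, hT, htj]
      calc s⁻¹ * p * s * t0 = s⁻¹ * p * (s * t0) := by group
        _ = s⁻¹ * (p * t0 * p⁻¹) * s * (s⁻¹ * p * s) := by rw [h3]; group
    have hfix : ∀ l : Fin 4, mt t0 *ᵥ (Pi.single l 1) = (Pi.single l 1 : Fin 4 → F) →
        mt (P⁻¹ * emb hF md b * P) *ᵥ (Pi.single l 1) = (Pi.single l 1 : Fin 4 → F) := by
      intro l hl
      set v := mt P *ᵥ (Pi.single l 1) with hv
      have hTv : mt T *ᵥ v = v := by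
        rw [hv, Matrix.mulVec_mulVec, ← mt_mul, ← hPT, mt_mul, ← Matrix.mulVec_mulVec, hl]
      have hvmd : v ∘ (md : Fin 2 ↪ Fin 4) = 0 := by
        ext i
        fin_cases i
        · exact Tz v 1 hTv T1
        · exact Tz v 2 hTv T2
      rw [mt_mul, mt_mul, ← Matrix.mulVec_mulVec, ← Matrix.mulVec_mulVec, ← hv, mt_emb, EM_mulVec_of_zero _ _ _ hvmd, hv,
        Matrix.mulVec_mulVec, mt_inv_mul, Matrix.one_mulVec]
    obtain ⟨b', hb'⟩ := mem_range_emb hF (hd (by omega : 2 ≤ 4)) (P⁻¹ * emb hF md b * P) (by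
      intro j hj
      apply hfix
      rw [mt0, Matrix.diagonal_mulVec_single, mul_one]
      fin_cases j
      · exact absurd rfl (hj 0)
      · exact absurd rfl (hj 1)
      · rfl
      · rfl)
    have hmem : cj g s (emb hF (hd (by omega : 2 ≤ 4)) b') ∈ (φ.comp (emb hF (hd (by omega : 2 ≤ 3)))).range := by
      rw [hA, cj_apply, cs1]
      exact ⟨_, rfl⟩
    obtain ⟨u, hu⟩ := hmem
    refine ⟨u, ?_⟩
    have h5 : emb hF md b = P * emb hF (hd (by omega : 2 ≤ 4)) b' * P⁻¹ := by rw [hb']; group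
    rw [MonoidHom.comp_apply] at hu
    rw [MonoidHom.comp_apply, MonoidHom.comp_apply, h5, map_mul, map_mul, map_inv, gP, ← hu, ← map_mul, pc_hd, map_mul,
      mul_inv_cancel_right]

end H60.Ph
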