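import Mathlib
import Cfsg.Agent.Lib.H60.PhX

/-!
Phan systems, part Y: standard maps from `SU 4` for three consecutive members of a weak Phan system, nine elements.
-/

set_option autoImplicit false
set_option linter.unusedSectionVars false
set_option linter.unusedVariables false

namespace H60.Ph

open Matrix Cfsg H16.Herm

variable {F : Type*} [Field F] [Fintype F] (hF : Fintype.card F = 3 ^ 2)

include hF

theorem inj_of_ker_le {G : Type*} [Group G] (φ : SU 3 F 3 →* G) (h : φ.ker ≤ Subgroup.center (SU 3 F 3)) :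
    Function.Injective φ := by
  rw [injective_iff_map_eq_one]
  intro z hz
  obtain ⟨c, hc⟩ := center_scalar hF (h hz)
  have h1 := scalar_norm hF (by omega) hc
  have h2 := mt_det z
  rw [hc, Matrix.det_smul, Matrix.det_one, Fintype.card_fin, mul_one] at h2
  rw [h2, mul_one] at h1
  apply mt_inj
  rw [hc, h1, one_smul, mt_one]

theorem za3 : emb hF (tl 2) (wl (q := 3) hF) * emb hF (hd (by omega : 2 ≤ 3)) (zz hF) ≠
    emb hF (hd (by omega : 2 ≤ 3)) (zz hF) * emb hF (tl 2) (wl (q := 3) hF) := by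
  intro h
  have h4 := congrArg mt h
  rw [mt_mul, mt_mul, mt_emb_hd_three, mt_emb_tl_three, zz00, zz01, zz10, zz11, mt_wl] at h4
  have h5 := congrFun (congrFun h4 1) 2
  simp [Matrix.mul_apply, Fin.sum_univ_three] at h5
  apply two_ne hF
  linear_combination -h5

theorem zb3 : emb hF (hd (by omega : 2 ≤ 3)) (wl (q := 3) hF) * emb hF (tl 2) (zz hF) ≠
    emb hF (tl 2) (zz hF) * emb hF (hd (by omega : 2 ≤ 3)) (wl (q := 3) hF) := by
  intro h
  have h4 := congrArg mt h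
  rw [mt_mul, mt_mul, mt_emb_hd_three, mt_emb_tl_three, zz00, zz01, zz10, zz11, mt_wl] at h4
  have h5 := congrFun (congrFun h4 0) 1
  simp [Matrix.mul_apply, Fin.sum_univ_three] at h5
  apply two_ne hF
  linear_combination h5

/-- **Standardization.** -/
theorem exists_standard {G : Type*} [Group G] {V W A B C : Subgroup G} (hAB : IsStandardUnitaryPair V A B F 3)
    (hBC : IsStandardUnitaryPair W B C F 3) (hAC : ∀ x ∈ A, ∀ y ∈ C, x * y = y * x)
    (g : SU 4 F 3 →* ↥(V ⊔ W)) (hg : Function.Surjective g) :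
    ∃ γ : SU 4 F 3 →* G, (γ.comp (emb hF (hd (by omega : 2 ≤ 4)))).range = A ∧ (γ.comp (emb hF md)).range = B ∧
      (γ.comp (emb hF tt)).range = C ∧ Function.Injective (γ.comp (emb hF (hd (by omega : 3 ≤ 4)))) ∧
      Function.Injective (γ.comp (emb hF (tl 3))) := by
  obtain ⟨φ, hφV, hφk, hφA, hφB⟩ := exists_map_of_pair hF hAB
  obtain ⟨ψ, hψW, hψk, hψB, hψC⟩ := exists_map_of_pair hF hBC
  have iφ := inj_of_ker_le hF φ hφk
  have iψ := inj_of_ker_le hF ψ hψk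
  obtain ⟨g₀, hg₀⟩ : ∃ g₀ : SU 4 F 3 →* G, g₀ = (V ⊔ W).subtype.comp g := ⟨_, rfl⟩
  have lift : ∀ y ∈ V ⊔ W, ∃ a, g₀ a = y := by
    intro y hy
    obtain ⟨a, ha⟩ := hg ⟨y, hy⟩
    exact ⟨a, by rw [hg₀, MonoidHom.comp_apply, ha]; rfl⟩
  have lφ : ∀ y, ∃ a, g₀ a = φ y := fun y => lift _ (by
    have : φ y ∈ V := by rw [← hφV]; exact ⟨y, rfl⟩
    exact (le_sup_left : V ≤ V ⊔ W) this)
  have lψ : ∀ y, ∃ a, g₀ a = ψ y := fun y => lift _ (by
    have : ψ y ∈ W := by rw [← hψW]; exact ⟨y, rfl⟩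
    exact (le_sup_right : W ≤ V ⊔ W) this)
  have za : ∃ b, g₀ b * (φ.comp (emb hF (hd (by omega : 2 ≤ 3)))) (zz hF) ≠
      (φ.comp (emb hF (hd (by omega : 2 ≤ 3)))) (zz hF) * g₀ b := by
    obtain ⟨b, hb⟩ := lφ (emb hF (tl 2) (wl hF))
    refine ⟨b, fun h => za3 hF ?_⟩
    rw [hb, MonoidHom.comp_apply, ← map_mul, ← map_mul] at h
    exact iφ h
  have zb : ∃ b, g₀ b * (ψ.comp (emb hF (tl 2))) (zz hF) ≠ (ψ.comp (emb hF (tl 2))) (zz hF) * g₀ b := by
    obtain ⟨b, hb⟩ := lψ (emb hF (hd (by omega : 2 ≤ 3)) (wl hF))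
    refine ⟨b, fun h => zb3 hF ?_⟩
    rw [hb, MonoidHom.comp_apply, ← map_mul, ← map_mul] at h
    exact iψ h
  have hna : ∃ a b, g₀ a * g₀ b ≠ g₀ b * g₀ a := by
    obtain ⟨a, ha⟩ := za
    obtain ⟨b, hb⟩ := lφ (emb hF (hd (by omega : 2 ≤ 3)) (zz hF))
    exact ⟨a, b, by rw [hb]; exact ha⟩
  have H : Cfg3 hF g₀ (φ.comp (emb hF (hd (by omega : 2 ≤ 3)))) (ψ.comp (emb hF (tl 2))) :=
    { hna := hna
      la := fun u => lφ _
      lb := fun u => lψ _
      cm := by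
        intro u v
        apply hAC
        · rw [← hφA]; exact ⟨u, rfl⟩
        · rw [← hψC]; exact ⟨v, rfl⟩
      za := za
      zb := zb
      ia := iφ.comp (emb_injective hF _)
      ib := iψ.comp (emb_injective hF _) }
  obtain ⟨s, hs1, hs2⟩ := exists_sides hF H
  have H' := H.conj s
  have lφ' : ∀ y, ∃ a, cj g₀ s a = φ y := by
    intro y
    obtain ⟨a, ha⟩ := lφ y
    exact ⟨s⁻¹ * a * s, by rw [cj_apply', ha]⟩
  obtain ⟨s', h1, h2, h3⟩ := exists_middle hF (cj g₀ s) H'.hna φ iφ lφ' hs1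
  have H'' := H'.conj s'
  refine ⟨cj (cj g₀ s) s', ?_, ?_, ?_, ?_, ?_⟩
  · rw [h1, ← hs1, hφA]
  · rw [h3, hφB]
  · rw [h2, ← hs2, hψC]
  · apply inj_block hF _ H''.hna _ 3
    intro i h
    have h1 := congrArg Fin.val h
    have h4 : (i : ℕ) < 3 := i.2
    simp at h1
    omega
  · apply inj_block hF _ H''.hna _ 0
    intro i h
    have h1 := congrArg Fin.val h
    simp [tl] at h1

end H60.Ph
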