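import Cfsg.Agent.Lib.H1.Solv
import Cfsg.Agent.Lib.H1.Cores
import Cfsg.Agent.Lib.H21.HallTools
import Cfsg.Agent.Lib.H21.SylowTools

/-!
Elements of prime order `r` acting on subgroups of order prime to `r`; the normal closure of a Sylow
subgroup of prime order.
-/

set_option autoImplicit false
set_option linter.unusedSectionVars false

open Subgroup Cfsg

namespace H60.SG

universe u

variable {G : Type u} [Group G] [Finite G] {r : ℕ} [hr : Fact r.Prime] {x : G}

/-- `|P| ≡ |C_P(x)|` modulo `r` -/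
theorem card_mod (hx : orderOf x = r) (P : Subgroup G) (hP : x ∈ normalizer (P : Set G)) :
    Nat.card P ≡ Nat.card (P ⊓ centralizer ({x} : Set G) : Subgroup G) [MOD r] := by
  have hzN : zpowers x ≤ normalizer (P : Set G) := by rwa [zpowers_le]
  let φ : zpowers x →* MulAut P := P.normalizerMonoidHom.comp (Subgroup.inclusion hzN)
  let _ : MulAction (zpowers x) P := MulAction.compHom P φ
  have hsmul : ∀ (g : zpowers x) (v : P), ((g • v : P) : G) = (g : G) * v * (g : G)⁻¹ := fun _ _ => rfl
  have hpg : IsPGroup r (zpowers x) := IsPGroup.of_card (n := 1) (by rw [Nat.card_zpowers, hx, pow_one])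
  have h1 := hpg.card_modEq_card_fixedPoints P
  have h2 : Nat.card (MulAction.fixedPoints (zpowers x) P) =
      Nat.card (P ⊓ centralizer ({x} : Set G) : Subgroup G) := by
    refine Nat.card_congr ⟨fun v => ⟨v.1, v.1.2, ?_⟩, fun v => ⟨⟨v.1, v.2.1⟩, ?_⟩, ?_, ?_⟩
    · have h3 := congrArg Subtype.val (v.2 ⟨x, mem_zpowers x⟩)
      rw [hsmul] at h3
      show (v.1 : G) ∈ centralizer ({x} : Set G)
      rw [mem_centralizer_singleton_iff]
      exact (mul_inv_eq_iff_eq_mul.1 h3).symm
    · intro g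
      apply Subtype.ext
      rw [hsmul]
      have h4 : v.1 ∈ centralizer ({x} : Set G) := v.2.2
      rw [mem_centralizer_singleton_iff] at h4
      have h5 : (g : G) * v.1 = v.1 * g := by
        have hc : Commute x v.1 := h4.symm
        obtain ⟨k, hk⟩ := mem_zpowers_iff.1 g.2
        rw [← hk]
        exact (hc.zpow_left k).eq
      simp only
      rw [h5, mul_inv_cancel_right]
    · intro v; rfl
    · intro v; rfl
  rw [h2] at h1
  exact h1

/-- an element of order `r` acting nontrivially on a `p`-group -/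
theorem exists_pow_of_not_le (hx : orderOf x = r) {p : ℕ} (hp : p.Prime) (hpr : p ≠ r)
    (P : Subgroup G) (hPp : IsPGroup p P) (hP : x ∈ normalizer (P : Set G))
    (hn : ¬ P ≤ centralizer ({x} : Set G)) :
    ∃ i, 1 ≤ i ∧ p ^ i % r = 1 ∧
      Nat.card P = p ^ i * Nat.card (P ⊓ centralizer ({x} : Set G) : Subgroup G) := by
  have fp : Fact p.Prime := ⟨hp⟩
  have h1 := card_mod hx P hP
  obtain ⟨b, hb⟩ := IsPGroup.iff_card.1 hPp
  have h2 : Nat.card (P ⊓ centralizer ({x} : Set G) : Subgroup G) ∣ p ^ b := by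
    rw [← hb]; exact card_dvd_of_le inf_le_left
  obtain ⟨c, hc, hc2⟩ := (Nat.dvd_prime_pow hp).1 h2
  have hne : c ≠ b := by
    rintro rfl
    apply hn
    have h3 : P ⊓ centralizer ({x} : Set G) = P :=
      eq_of_le_of_card_ge inf_le_left (by rw [hb, hc2])
    rw [← h3]
    exact inf_le_right
  refine ⟨b - c, by omega, ?_, ?_⟩
  · rw [hb, hc2] at h1
    have h4 : p ^ c * p ^ (b - c) ≡ p ^ c * 1 [MOD r] := by
      rw [← pow_add, mul_one, Nat.add_sub_cancel' hc]
      exact h1
    have h5 : Nat.gcd r (p ^ c) = 1 := by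
      have := (Nat.coprime_primes hr.out hp).2 hpr.symm
      exact Nat.Coprime.pow_right c this
    have h6 := Nat.ModEq.cancel_left_of_coprime h5 h4
    rw [Nat.ModEq, Nat.mod_eq_of_lt hr.out.one_lt] at h6
    exact h6
  · rw [hb, hc2, ← pow_add, Nat.sub_add_cancel hc]

/-- an element of order `r` acting nontrivially on a normal `r'`-subgroup -/
theorem exists_pow_of_normal (hx : orderOf x = r) (K : Subgroup G) [hK : K.Normal]
    (hKr : ¬ r ∣ Nat.card K) (hn : ¬ K ≤ centralizer ({x} : Set G)) :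
    ∃ p i, p.Prime ∧ 1 ≤ i ∧ p ^ i % r = 1 ∧ p ^ i ∣ Nat.card K := by
  by_contra hcon
  push Not at hcon
  apply hn
  have key : ∀ p k, p.Prime → p ^ k ∣ Nat.card K →
      p ^ k ∣ Nat.card (K ⊓ centralizer ({x} : Set G) : Subgroup G) := by
    intro p k hp hk
    have fp : Fact p.Prime := ⟨hp⟩
    rcases Nat.eq_zero_or_pos k with h0 | h0
    · rw [h0, pow_zero]; exact one_dvd _
    have hpK : p ∣ Nat.card K := (dvd_pow_self p h0.ne').trans hk
    have hpr : p ≠ r := by rintro rfl; exact hKr hpK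
    -- an invariant Sylow subgroup
    let _ : MulDistribMulAction (zpowers x) K := MulDistribMulAction.compHom K
      ((MulAut.conjNormal (H := K)).comp (zpowers x).subtype)
    have hsmul : ∀ (g : zpowers x) (v : K), ((g • v : K) : G) = (g : G) * v * (g : G)⁻¹ :=
      fun _ _ => rfl
    have hpg : IsPGroup r (zpowers x) :=
      IsPGroup.of_card (n := 1) (by rw [Nat.card_zpowers, hx, pow_one])
    have hnd : ¬ r ∣ Nat.card (Sylow p K) := fun h => hKr (h.trans (H21.SylowTools.card_sylow_dvd p))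
    obtain ⟨P, hP⟩ := hpg.nonempty_fixed_point_of_prime_not_dvd_card (Sylow p K) hnd
    have hPn : x ∈ normalizer (((P : Subgroup K).map K.subtype : Subgroup G) : Set G) := by
      have hfix : ∀ g : zpowers x, ∀ v ∈ (P : Subgroup K), g • v ∈ (P : Subgroup K) := by
        intro g v hv
        have h1 : g • P = P := hP g
        have h2 : g • v ∈ ((g • P : Sylow p K) : Subgroup K) := by
          rw [Sylow.pointwise_smul_def]
          exact Subgroup.smul_mem_pointwise_smul _ _ _ hv
        rwa [h1] at h2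
      rw [mem_normalizer_iff]
      intro y
      constructor
      · rintro ⟨v, hv, rfl⟩
        exact ⟨(⟨x, mem_zpowers x⟩ : zpowers x) • v, hfix _ v hv, hsmul _ _⟩
      · rintro ⟨v, hv, hvy⟩
        refine ⟨(⟨x, mem_zpowers x⟩ : zpowers x)⁻¹ • v, hfix _ v hv, ?_⟩
        have h3 := hsmul ((⟨x, mem_zpowers x⟩ : zpowers x)⁻¹) v
        rw [Subgroup.subtype_apply]
        rw [h3]
        have hvy' : (v : G) = x * y * x⁻¹ := hvy
        rw [hvy']
        simp only [InvMemClass.coe_inv, inv_inv]
        group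
    have hPp : IsPGroup p ((P : Subgroup K).map K.subtype) := P.2.map _
    have hle : (P : Subgroup K).map K.subtype ≤ centralizer ({x} : Set G) := by
      by_contra hcon2
      obtain ⟨i, hi, hi2, hi3⟩ := exists_pow_of_not_le hx hp hpr _ hPp hPn hcon2
      apply hcon p i hp hi hi2
      refine (Dvd.intro _ hi3.symm).trans ?_
      exact card_dvd_of_le (map_subtype_le _)
    have h5 : Nat.card ((P : Subgroup K).map K.subtype) = Nat.card P :=
      Nat.card_congr ((P : Subgroup K).equivMapOfInjective _ K.subtype_injective).symm.toEquiv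
    have h6 : p ^ k ∣ Nat.card P := by
      rw [P.card_eq_multiplicity]
      exact pow_dvd_pow p ((hp.pow_dvd_iff_le_factorization Nat.card_pos.ne').1 hk)
    rw [← h5] at h6
    exact h6.trans (card_dvd_of_le (le_inf (map_subtype_le _) hle))
  have h7 : Nat.card K ∣ Nat.card (K ⊓ centralizer ({x} : Set G) : Subgroup G) := by
    rw [Nat.dvd_iff_prime_pow_dvd_dvd]
    exact key
  have h8 : K ⊓ centralizer ({x} : Set G) = K :=
    eq_of_le_of_card_ge inf_le_left (Nat.le_of_dvd Nat.card_pos h7)
  rw [← h8]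
  exact inf_le_right

/-- a fixed-point-free element of order `r` on a group of order `p ^ 3` -/
theorem comm_of_fpf (hx : orderOf x = r) {p : ℕ} (hp : p.Prime) (hpr : p ≠ r)
    (P : Subgroup G) (hPc : Nat.card P = p ^ 3) (hP : x ∈ normalizer (P : Set G))
    (hf : Nat.card (P ⊓ centralizer ({x} : Set G) : Subgroup G) = 1)
    (h1 : p % r ≠ 1) (h2 : p ^ 2 % r ≠ 1) : ∀ a ∈ P, ∀ b ∈ P, a * b = b * a := by
  have fp : Fact p.Prime := ⟨hp⟩
  have hPp : IsPGroup p P := IsPGroup.of_card hPc
  have hnt : Nontrivial P := by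
    rw [← Finite.one_lt_card_iff_nontrivial, hPc]
    exact Nat.one_lt_pow (by norm_num) hp.one_lt
  have hcn : Nontrivial (center P) := hPp.center_nontrivial
  obtain ⟨Z, hZ⟩ : ∃ Z : Subgroup G, Z = (center P).map P.subtype := ⟨_, rfl⟩
  have hZP : Z ≤ P := by rw [hZ]; exact map_subtype_le _
  have hZp : IsPGroup p Z := hPp.to_le hZP
  have hZn : x ∈ normalizer (Z : Set G) := by
    have hmem : ∀ y : G, y ∈ Z ↔ y ∈ P ∧ ∀ z ∈ P, z * y = y * z := by
      intro y
      rw [hZ]
      constructor
      · rintro ⟨v, hv, rfl⟩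
        refine ⟨v.2, fun z hz => ?_⟩
        exact congrArg Subtype.val (mem_center_iff.1 hv ⟨z, hz⟩)
      · rintro ⟨hy, hy2⟩
        exact ⟨⟨y, hy⟩, mem_center_iff.2 (fun z => Subtype.ext (hy2 z z.2)), rfl⟩
    have hfwd : ∀ g ∈ normalizer (P : Set G), ∀ y ∈ Z, g * y * g⁻¹ ∈ Z := by
      intro g hg y hy
      rw [hmem] at hy ⊢
      refine ⟨(mem_normalizer_iff.1 hg y).1 hy.1, fun z hz => ?_⟩
      have h3 : g⁻¹ * z * g ∈ P := by
        have := (mem_normalizer_iff.1 (inv_mem hg) z).1 hz
        rwa [inv_inv] at this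
      have h4 := hy.2 _ h3
      calc z * (g * y * g⁻¹) = g * ((g⁻¹ * z * g) * y) * g⁻¹ := by group
        _ = g * (y * (g⁻¹ * z * g)) * g⁻¹ := by rw [h4]
        _ = g * y * g⁻¹ * z := by group
    rw [mem_normalizer_iff]
    intro y
    constructor
    · exact hfwd x hP y
    · intro hy
      have := hfwd x⁻¹ (inv_mem hP) _ hy
      have h5 : x⁻¹ * (x * y * x⁻¹) * x⁻¹⁻¹ = y := by group
      rwa [h5] at this
  have hZc : Nat.card (Z ⊓ centralizer ({x} : Set G) : Subgroup G) = 1 := by
    apply Nat.eq_one_of_dvd_one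
    rw [← hf]
    exact card_dvd_of_le (inf_le_inf_right _ hZP)
  have hZ1 : Nat.card Z ≠ 1 := by
    rw [hZ, Nat.card_congr ((center P).equivMapOfInjective _ P.subtype_injective).symm.toEquiv]
    have := Finite.one_lt_card_iff_nontrivial.2 hcn
    omega
  have hnle : ¬ Z ≤ centralizer ({x} : Set G) := by
    intro hle
    rw [inf_eq_left.2 hle] at hZc
    exact hZ1 hZc
  obtain ⟨i, hi, hi2, hi3⟩ := exists_pow_of_not_le hx hp hpr Z hZp hZn hnle
  rw [hZc, mul_one] at hi3
  have hdvd : p ^ i ∣ p ^ 3 := by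
    rw [← hi3, ← hPc]; exact card_dvd_of_le hZP
  have hi4 : i ≤ 3 := (Nat.pow_dvd_pow_iff_le_right hp.one_lt).1 hdvd
  have hi5 : i = 3 := by
    have h6 : i ≠ 1 := by rintro rfl; rw [pow_one] at hi2; exact h1 hi2
    have h7 : i ≠ 2 := by rintro rfl; exact h2 hi2
    omega
  have hZeq : Z = P := eq_of_le_of_card_ge hZP (by rw [hi3, hPc, hi5])
  intro a ha b hb
  have ha' : a ∈ Z := by rw [hZeq]; exact ha
  rw [hZ] at ha'
  obtain ⟨v, hv, rfl⟩ := ha'
  exact (congrArg Subtype.val (mem_center_iff.1 hv ⟨b, hb⟩)).symm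

/-- the solvable case: a normal `q`-subgroup on which `x` acts nontrivially -/
theorem exists_pCore (hs : Group.IsSolvable G) (hx : orderOf x = r)
    (hrr : ¬ r * r ∣ Nat.card G) (hn : Nat.card (Sylow r G) ≠ 1) :
    ∃ q : ℕ, q.Prime ∧ q ≠ r ∧ ¬ pCore q G ≤ centralizer ({x} : Set G) := by
  have hbot : pCore r G = ⊥ := by
    obtain ⟨Q⟩ : Nonempty (Sylow r G) := inferInstance
    have hQd : ¬ r * r ∣ Nat.card Q := fun h => hrr (h.trans (card_subgroup_dvd_card _))
    obtain ⟨k, hk⟩ := Q.2.exists_card_eq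
    have hk1 : k ≤ 1 := by
      by_contra hcon
      push Not at hcon
      apply hQd
      rw [← pow_two]
      have : r ^ 2 ∣ r ^ k := pow_dvd_pow r hcon
      rw [← hk] at this
      exact this
    have hle := H1.Cores.pCore_le_sylow Q
    have hd : Nat.card (pCore r G) ∣ r ^ k := by
      rw [← hk]; exact card_dvd_of_le hle
    have hd2 : Nat.card (pCore r G) ∣ r := hd.trans (by
      have := pow_dvd_pow r hk1
      rwa [pow_one] at this)
    rcases (Nat.dvd_prime hr.out).1 hd2 with h1 | h1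
    · exact eq_bot_of_card_eq _ h1
    · exfalso
      have hkk : k = 1 := by
        rcases Nat.eq_zero_or_pos k with h0 | h0
        · rw [h0, pow_zero, h1, Nat.dvd_one] at hd
          exact absurd hd hr.out.ne_one
        · omega
      have heq : pCore r G = Q := eq_of_le_of_card_ge hle (by rw [h1]; rw [hkk, pow_one] at hk; exact hk.le)
      have hQn : (Q : Subgroup G).Normal := by rw [← heq]; infer_instance
      have := Sylow.unique_of_normal Q hQn
      exact hn Nat.card_unique
  by_contra hcon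
  push Not at hcon
  have hF : fittingSubgroup G ≤ centralizer ({x} : Set G) := by
    rw [H1.Cores.fittingSubgroup_eq_iSup_pCore]
    refine iSup_le fun q => ?_
    by_cases hq : (q : ℕ) = r
    · rw [hq, hbot]; exact bot_le
    · exact hcon q q.2 hq
  have hxF : x ∈ fittingSubgroup G := by
    apply H1.Solv.centralizer_fitting_le hs
    rw [mem_centralizer_iff]
    intro y hy
    have := hF hy
    rw [mem_centralizer_singleton_iff] at this
    exact this
  have h2 := H1.Cores.not_dvd_index_pCore_iSup (G := G) r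
  rw [hbot, relIndex_bot_left, ← H1.Cores.fittingSubgroup_eq_iSup_pCore] at h2
  apply h2
  rw [← hx]
  have := orderOf_dvd_natCard (⟨x, hxF⟩ : fittingSubgroup G)
  rwa [Subgroup.orderOf_mk] at this

end H60.SG
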