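import Cfsg.Agent.Lib.H60.SG1
import Cfsg.Agent.Lib.H4.CenterIndex
import Cfsg.Agent.Lib.H82.Cliff
import Cfsg.Agent.Lib.H4.Burnside

/-!
The normal closure of a Sylow subgroup of prime order.
-/

set_option autoImplicit false
set_option linter.unusedSectionVars false

open Subgroup Cfsg

namespace H60.SG

universe u

variable {G : Type u} [Group G] [Finite G] {r : ℕ} [hr : Fact r.Prime] {x : G}

/-- the structure found in all groups considered -/
structure Str (r : ℕ) (x : G) : Prop where
  simple : IsSimpleGroup (↥(normalClosure ({x} : Set G)) ⧸ pPrimeCore r ↥(normalClosure ({x} : Set G)))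
  ncomm : ¬ IsMulCommutative (↥(normalClosure ({x} : Set G)) ⧸ pPrimeCore r ↥(normalClosure ({x} : Set G)))
  dvd : r ∣ Nat.card (↥(normalClosure ({x} : Set G)) ⧸ pPrimeCore r ↥(normalClosure ({x} : Set G)))
  cent : pPrimeCore r ↥(normalClosure ({x} : Set G)) ≤ center ↥(normalClosure ({x} : Set G))

theorem mem_nc (x : G) : x ∈ normalClosure ({x} : Set G) := subset_normalClosure rfl

/-- a normal subgroup of the normal closure of order divisible by `r` is everything -/
theorem eq_top_of_dvd (hx : orderOf x = r) (hrr : ¬ r * r ∣ Nat.card G)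
    (N : Subgroup ↥(normalClosure ({x} : Set G))) [hN : N.Normal] (hd : r ∣ Nat.card N) : N = ⊤ := by
  have hidx : ¬ r ∣ N.index := by
    intro h
    apply hrr
    have h1 := Nat.mul_dvd_mul hd h
    rw [card_mul_index] at h1
    exact h1.trans (card_subgroup_dvd_card _)
  have hz : ∀ z : ↥(normalClosure ({x} : Set G)), orderOf z = r → z ∈ N := by
    intro z hz
    have h1 : zpowers z ≤ N := by
      apply H21.HallTools.le_of_coprime_card_index
      rw [Nat.card_zpowers, hz]
      exact (Nat.Prime.coprime_iff_not_dvd hr.out).2 hidx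
    exact h1 (mem_zpowers z)
  have hle : normalClosure ({x} : Set G) ≤ N.map (normalClosure ({x} : Set G)).subtype := by
    show closure (Group.conjugatesOfSet {x}) ≤ _
    rw [closure_le]
    intro y hy
    have hyM : y ∈ normalClosure ({x} : Set G) := conjugatesOfSet_subset_normalClosure hy
    have hyo : orderOf y = r := by
      rw [Group.mem_conjugatesOfSet_iff] at hy
      obtain ⟨a, ha, hay⟩ := hy
      rw [Set.mem_singleton_iff] at ha
      subst ha
      obtain ⟨g, rfl⟩ := isConj_iff.1 hay
      rw [← hx]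
      exact orderOf_injective (MulAut.conj g).toMonoidHom (MulAut.conj g).injective a
    exact ⟨⟨y, hyM⟩, hz _ (by rw [Subgroup.orderOf_mk]; exact hyo), rfl⟩
  rw [eq_top_iff]
  intro z _
  obtain ⟨w, hw, hwz⟩ := hle z.2
  have : w = z := Subtype.ext hwz
  rwa [← this]

theorem str_of_cent (hx : orderOf x = r) (hrr : ¬ r * r ∣ Nat.card G)
    (hn : Nat.card (Sylow r G) ≠ 1)
    (hK : (pPrimeCore r ↥(normalClosure ({x} : Set G))).map (normalClosure ({x} : Set G)).subtype ≤
      centralizer ({x} : Set G)) : Str r x := by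
  obtain ⟨M, hM⟩ : ∃ M : Subgroup G, M = normalClosure ({x} : Set G) := ⟨_, rfl⟩
  have hcop := H1.Cores.coprime_card_pPrimeCore (G := ↥(normalClosure ({x} : Set G))) r
  have hchar := H1.Cores.pPrimeCore_characteristic (G := ↥(normalClosure ({x} : Set G))) r
  have hrM : r ∣ Nat.card ↥(normalClosure ({x} : Set G)) := by
    rw [← hx, ← Subgroup.orderOf_mk x (mem_nc x)]
    exact orderOf_dvd_natCard _
  have hrK : ¬ r ∣ Nat.card (pPrimeCore r ↥(normalClosure ({x} : Set G))) := by
    intro h
    have h1 := Nat.Coprime.eq_one_of_dvd hcop.symm h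
    exact hr.out.ne_one h1
  have hdvd : r ∣ Nat.card (↥(normalClosure ({x} : Set G)) ⧸ pPrimeCore r ↥(normalClosure ({x} : Set G))) := by
    rw [card_eq_card_quotient_mul_card_subgroup (pPrimeCore r ↥(normalClosure ({x} : Set G)))] at hrM
    exact (hr.out.dvd_mul.1 hrM).resolve_right hrK
  have hsimple : IsSimpleGroup (↥(normalClosure ({x} : Set G)) ⧸
      pPrimeCore r ↥(normalClosure ({x} : Set G))) := by
    have hnt : Nontrivial (↥(normalClosure ({x} : Set G)) ⧸
        pPrimeCore r ↥(normalClosure ({x} : Set G))) := by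
      rw [← Finite.one_lt_card_iff_nontrivial]
      exact lt_of_lt_of_le hr.out.one_lt (Nat.le_of_dvd Nat.card_pos hdvd)
    refine ⟨fun N hN => ?_⟩
    have hN' : (N.comap (QuotientGroup.mk' (pPrimeCore r ↥(normalClosure ({x} : Set G))))).Normal :=
      hN.comap _
    by_cases hd : r ∣ Nat.card (N.comap (QuotientGroup.mk' (pPrimeCore r ↥(normalClosure ({x} : Set G)))))
    · right
      have h1 := eq_top_of_dvd hx hrr _ hd
      rw [eq_top_iff]
      intro z _
      obtain ⟨w, rfl⟩ := QuotientGroup.mk'_surjective _ z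
      have : w ∈ N.comap (QuotientGroup.mk' (pPrimeCore r ↥(normalClosure ({x} : Set G)))) := by
        rw [h1]; trivial
      exact this
    · left
      have h1 := H1.Cores.le_pPrimeCore (p := r) hN'
        ((Nat.Prime.coprime_iff_not_dvd hr.out).2 hd).symm
      rw [eq_bot_iff]
      intro z hz
      obtain ⟨w, rfl⟩ := QuotientGroup.mk'_surjective _ z
      rw [mem_bot]
      exact (QuotientGroup.eq_one_iff w).2 (h1 hz)
  have hcent : pPrimeCore r ↥(normalClosure ({x} : Set G)) ≤ center ↥(normalClosure ({x} : Set G)) := by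
    have hKn : ((pPrimeCore r ↥(normalClosure ({x} : Set G))).map
        (normalClosure ({x} : Set G)).subtype).Normal := ConjAct.normal_of_characteristic_of_normal
    have hCn : (centralizer (((pPrimeCore r ↥(normalClosure ({x} : Set G))).map
        (normalClosure ({x} : Set G)).subtype : Subgroup G) : Set G)).Normal := inferInstance
    have hle : normalClosure ({x} : Set G) ≤ centralizer (((pPrimeCore r
        ↥(normalClosure ({x} : Set G))).map (normalClosure ({x} : Set G)).subtype : Subgroup G) : Set G) := by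
      apply normalClosure_le_normal
      rw [Set.singleton_subset_iff, SetLike.mem_coe, mem_centralizer_iff]
      intro y hy
      have := hK hy
      rw [mem_centralizer_singleton_iff] at this
      exact this
    intro k hk
    rw [mem_center_iff]
    intro g
    apply Subtype.ext
    have h1 := hle g.2
    rw [mem_centralizer_iff] at h1
    exact (h1 k ⟨k, hk, rfl⟩).symm
  refine ⟨hsimple, ?_, hdvd, hcent⟩
  intro hc
  -- prime order
  let _ : CommGroup (↥(normalClosure ({x} : Set G)) ⧸ pPrimeCore r ↥(normalClosure ({x} : Set G))) :=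
    { (inferInstance : Group (↥(normalClosure ({x} : Set G)) ⧸
        pPrimeCore r ↥(normalClosure ({x} : Set G)))) with mul_comm := hc.is_comm.comm }
  have hpr : (Nat.card (↥(normalClosure ({x} : Set G)) ⧸
      pPrimeCore r ↥(normalClosure ({x} : Set G)))).Prime := IsSimpleGroup.prime_card
  have hcyc : IsCyclic (↥(normalClosure ({x} : Set G)) ⧸ pPrimeCore r ↥(normalClosure ({x} : Set G))) := by
    have : Fact (Nat.card (↥(normalClosure ({x} : Set G)) ⧸
      pPrimeCore r ↥(normalClosure ({x} : Set G)))).Prime := ⟨hpr⟩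
    exact isCyclic_of_prime_card (p := Nat.card (↥(normalClosure ({x} : Set G)) ⧸
      pPrimeCore r ↥(normalClosure ({x} : Set G)))) rfl
  have hMc : ∀ a b : ↥(normalClosure ({x} : Set G)), a * b = b * a := by
    apply commutative_of_cyclic_center_quotient (QuotientGroup.mk' (pPrimeCore r
      ↥(normalClosure ({x} : Set G))))
    rw [QuotientGroup.ker_mk']
    exact hcent
  apply hn
  obtain ⟨Q⟩ : Nonempty (Sylow r G) := inferInstance
  have hQM : (Q : Subgroup G) ≤ normalClosure ({x} : Set G) := by
    apply H21.HallTools.sylow_le_of_not_dvd_index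
    intro h
    apply hrr
    have h1 := Nat.mul_dvd_mul hrM h
    rwa [card_mul_index] at h1
  have h1 : Nat.card (Sylow r ↥(normalClosure ({x} : Set G))) = 1 := by
    obtain ⟨P⟩ : Nonempty (Sylow r ↥(normalClosure ({x} : Set G))) := inferInstance
    have hPn : (P : Subgroup ↥(normalClosure ({x} : Set G))).Normal :=
      ⟨fun a ha g => by rw [hMc g a, mul_inv_cancel_right]; exact ha⟩
    have := Sylow.unique_of_normal P hPn
    exact Nat.card_unique
  have h2 := H21.HallTools.sylow_normal_of_normal_le Q _ hQM h1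
  have := Sylow.unique_of_normal Q h2
  exact Nat.card_unique

/-- the generic case -/
theorem str_generic (hx : orderOf x = r) (hrr : ¬ r * r ∣ Nat.card G)
    (hn : Nat.card (Sylow r G) ≠ 1)
    (hnum : ∀ p i, p.Prime → p ≠ r → 1 ≤ i → p ^ i ∣ Nat.card G → p ^ i % r ≠ 1) : Str r x := by
  apply str_of_cent hx hrr hn
  have hchar := H1.Cores.pPrimeCore_characteristic (G := ↥(normalClosure ({x} : Set G))) r
  have hKn : ((pPrimeCore r ↥(normalClosure ({x} : Set G))).map
      (normalClosure ({x} : Set G)).subtype).Normal := ConjAct.normal_of_characteristic_of_normal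
  have hcop := H1.Cores.coprime_card_pPrimeCore (G := ↥(normalClosure ({x} : Set G))) r
  have hcc : Nat.card ((pPrimeCore r ↥(normalClosure ({x} : Set G))).map
      (normalClosure ({x} : Set G)).subtype) = Nat.card (pPrimeCore r ↥(normalClosure ({x} : Set G))) :=
    Nat.card_congr ((pPrimeCore r ↥(normalClosure ({x} : Set G))).equivMapOfInjective _
      (subtype_injective _)).symm.toEquiv
  have hrK : ¬ r ∣ Nat.card ((pPrimeCore r ↥(normalClosure ({x} : Set G))).map
      (normalClosure ({x} : Set G)).subtype) := by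
    rw [hcc]
    intro h
    exact hr.out.ne_one (Nat.Coprime.eq_one_of_dvd hcop.symm h)
  by_contra hcon
  obtain ⟨p, i, hp, hi, hi2, hi3⟩ := exists_pow_of_normal hx _ hrK hcon
  have hpr : p ≠ r := by
    rintro rfl
    exact hrK ((dvd_pow_self p (by omega)).trans hi3)
  exact hnum p i hp hpr hi (hi3.trans (card_subgroup_dvd_card _)) hi2

/-- Itô: a normal abelian Sylow subgroup -/
theorem not_mem_degreePrimes (A : Subgroup G) [hA : A.Normal] (hc : ∀ a ∈ A, ∀ b ∈ A, a * b = b * a)
    {q : ℕ} (hq : ¬ q ∣ A.index) : q ∉ degreePrimes G := by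
  rintro ⟨hqp, d, ⟨χ, rfl⟩, hd⟩
  apply hq
  have h1 : charDegree (χ : G → ℂ) ∣ A.index :=
    H4.CenterIndex.ito χ.2 (H82.Deg.coe_charDegree' χ).symm A hc
  exact hd.trans h1

/-- the exceptional case -/
theorem str_exc (hx : orderOf x = r) (hrr : ¬ r * r ∣ Nat.card G)
    (hn : Nat.card (Sylow r G) ≠ 1) {q : ℕ} (hq : q.Prime) (hqr : q ≠ r)
    (hnum : ∀ p i, p.Prime → p ≠ r → 1 ≤ i → p ^ i ∣ Nat.card G → p ^ i % r = 1 → p = q ∧ i = 3)
    (h4 : ¬ q ^ 4 ∣ Nat.card G) (h1 : q % r ≠ 1) (h2 : q ^ 2 % r ≠ 1)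
    (hqd : q ∈ degreePrimes G)
    (hs1 : ∀ K : Subgroup G, K.Normal → ¬ r ∣ Nat.card K → Group.IsSolvable K)
    (hs2 : ∀ K : Subgroup G, ∀ _ : K.Normal, q ^ 3 ∣ Nat.card K → Group.IsSolvable (G ⧸ K)) :
    Str r x := by
  apply str_of_cent hx hrr hn
  have fq : Fact q.Prime := ⟨hq⟩
  have hchar := H1.Cores.pPrimeCore_characteristic (G := ↥(normalClosure ({x} : Set G))) r
  obtain ⟨K, hK⟩ : ∃ K : Subgroup G, K = (pPrimeCore r ↥(normalClosure ({x} : Set G))).map
      (normalClosure ({x} : Set G)).subtype := ⟨_, rfl⟩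
  have hKn : K.Normal := by rw [hK]; exact ConjAct.normal_of_characteristic_of_normal
  have hcop := H1.Cores.coprime_card_pPrimeCore (G := ↥(normalClosure ({x} : Set G))) r
  have hcc : Nat.card K = Nat.card (pPrimeCore r ↥(normalClosure ({x} : Set G))) := by
    rw [hK]
    exact Nat.card_congr ((pPrimeCore r ↥(normalClosure ({x} : Set G))).equivMapOfInjective _
      (subtype_injective _)).symm.toEquiv
  have hrK : ¬ r ∣ Nat.card K := by
    rw [hcc]
    intro h
    exact hr.out.ne_one (Nat.Coprime.eq_one_of_dvd hcop.symm h)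
  rw [← hK]
  by_contra hcon
  obtain ⟨p, i, hp, hi, hi2, hi3⟩ := exists_pow_of_normal hx _ hrK hcon
  have hpr : p ≠ r := by
    rintro rfl
    exact hrK ((dvd_pow_self p (by omega)).trans hi3)
  obtain ⟨rfl, rfl⟩ := hnum p i hp hpr hi (hi3.trans (card_subgroup_dvd_card _)) hi2
  -- G is solvable
  have hs : Group.IsSolvable G := by
    have e1 := hs1 K hKn hrK
    have e2 := hs2 K hKn hi3
    exact Group.isSolvable_of_ker_le_range K.subtype (QuotientGroup.mk' K) (by simp)
  obtain ⟨s, hs1', hs2', hs3'⟩ := exists_pCore hs hx hrr hn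
  have hpn : x ∈ normalizer ((pCore s G : Subgroup G) : Set G) := by
    rw [normalizer_eq_top]; trivial
  obtain ⟨j, hj, hj2, hj3⟩ := exists_pow_of_not_le hx hs1' hs2' _ (H1.Cores.isPGroup_pCore s) hpn hs3'
  obtain ⟨rfl, rfl⟩ := hnum s j hs1' hs2' hj
    ((Dvd.intro _ hj3.symm).trans (card_subgroup_dvd_card _)) hj2
  have hone : Nat.card (pCore s G ⊓ centralizer ({x} : Set G) : Subgroup G) = 1 := by
    have e1 : IsPGroup s (pCore s G ⊓ centralizer ({x} : Set G) : Subgroup G) :=
      (H1.Cores.isPGroup_pCore s).to_le inf_le_left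
    obtain ⟨k, hk⟩ := IsPGroup.iff_card.1 e1
    rw [hk] at hj3 ⊢
    have e2 : k = 0 := by
      by_contra hk0
      apply h4
      have e3 : s ^ 4 ∣ s ^ 3 * s ^ k := by
        rw [← pow_add]; exact pow_dvd_pow s (by omega)
      rw [← hj3] at e3
      exact e3.trans (card_subgroup_dvd_card _)
    rw [e2, pow_zero]
  rw [hone, mul_one] at hj3
  have hcomm := comm_of_fpf hx hs1' hs2' (pCore s G) hj3 hpn hone h1 h2
  refine not_mem_degreePrimes (pCore s G) hcomm (q := s) ?_ hqd
  intro hd
  apply h4
  have e4 := card_mul_index (pCore s G)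
  rw [hj3] at e4
  rw [← e4, pow_succ]
  exact Nat.mul_dvd_mul_left _ hd

end H60.SG
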