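import Cfsg.Agent.Lib.H60.SO2
import Cfsg.Agent.Lib.H21.NE14
import Cfsg.Agent.S0987

/-!
There are no simple groups of orders 1800, 2700 and 3360.
-/

set_option autoImplicit false
set_option linter.unusedSectionVars false

namespace H60.SO

open Cfsg H18.CharBasic H18.CharOrtho H18.CharInd H21.PLat H21.BK H21.BT H21.NE

universe u

/-- a group of order 150 with a normal subgroup of order 5 has one Sylow 5-subgroup -/
theorem sylow_one_of_150 {H : Type u} [Group H] [Finite H] (h : Nat.card H = 150)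
    (D : Subgroup H) [hDn : D.Normal] (hD : Nat.card D = 5) [Fact (Nat.Prime 5)] :
    Nat.card (Sylow 5 H) = 1 := by
  have hq : Nat.card (H ⧸ D) = 2 * 3 * 5 := by
    have h1 := Subgroup.card_eq_card_quotient_mul_card_subgroup D
    rw [h, hD] at h1
    omega
  obtain ⟨Q⟩ : Nonempty (Sylow 5 (H ⧸ D)) := inferInstance
  have hn := Cfsg.Agent.S0987.result 2 3 5 (by norm_num) (by norm_num) (by norm_num) (by norm_num)
    hq Q
  have hker : IsPGroup 5 (QuotientGroup.mk' D).ker := by
    rw [QuotientGroup.ker_mk']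
    exact IsPGroup.of_card (n := 1) (by rw [hD, pow_one])
  have hr : (Q : Subgroup (H ⧸ D)) ≤ (QuotientGroup.mk' D).range := by
    rw [MonoidHom.range_eq_top.2 (QuotientGroup.mk'_surjective D)]
    exact le_top
  have hT : ((Q.comapOfKerIsPGroup (QuotientGroup.mk' D) hker hr : Sylow 5 H) : Subgroup H).Normal := by
    rw [Sylow.coe_comapOfKerIsPGroup]
    exact hn.comap _
  have := Sylow.unique_of_normal _ hT
  exact Nat.card_unique

theorem no_five {G : Type u} [Group G] [Finite G] [IsSimpleGroup G] {m : ℕ}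
    (hG : ¬ IsMulCommutative G) (hcard : Nat.card G = 5 ^ 2 * m) (hm : ¬ 5 ∣ m) (hm0 : 0 < m)
    (hchk : (List.range (m + 1)).all (fun s => !((m % s == 0) && (s % 5 == 1) && decide (1 < s)) ||
      !(s.factorial % (2 * (25 * m)) == 0) || !(s % 25 == 1)) = true)
    (hchk2 : (List.range (m + 1)).all (fun k => !(m % k == 0) ||
      !(k.factorial % (2 * (25 * m)) == 0) || decide (m / k = 6) ||
      (List.range (m / k + 1)).all (fun t => !((m / k % t == 0) && (t % 5 == 1) && decide (1 < t)))) =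
        true) : False := by
  have f5 : Fact (Nat.Prime 5) := ⟨by norm_num⟩
  have hdvd : 5 ∣ Nat.card G := by rw [hcard]; exact ⟨5 * m, by ring⟩
  have s1 := H21.SylowTools.card_sylow_dvd_of_card (G := G) hcard
  have s2 := H21.SylowTools.card_sylow_ne_one hG (p := 5) hdvd
  have s3 := card_sylow_modEq_one 5 G
  have s4 : Nat.card (Sylow 5 G) % 5 = 1 := by rw [s3]
  have s5 : 0 < Nat.card (Sylow 5 G) := Nat.card_pos
  rw [List.all_eq_true] at hchk hchk2
  have hns : ¬ Nat.card (Sylow 5 G) ≡ 1 [MOD 5 ^ 2] := by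
    intro hcon
    have h5 := hchk (Nat.card (Sylow 5 G)) (List.mem_range.2 (by
      have := Nat.le_of_dvd hm0 s1
      omega))
    rw [Nat.mod_eq_zero_of_dvd s1, s4] at h5
    have h6 : (Nat.card (Sylow 5 G)).factorial % (2 * (25 * m)) = 0 := by
      apply Nat.mod_eq_zero_of_dvd
      obtain ⟨P⟩ := (inferInstance : Nonempty (Sylow 5 G))
      have h7 := H21.SylowInter.dvd_factorial_of_card hG _
        (H21.SylowTools.normalizer_sylow_ne_top hG hdvd P)
        (H21.SylowTools.card_normalizer_mul_card_sylow P)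
      rw [hcard] at h7
      exact h7
    have h8 : Nat.card (Sylow 5 G) % 25 = 1 := by
      have h9 : Nat.card (Sylow 5 G) % 25 = 1 % 25 := hcon
      simpa using h9
    rw [h6, h8] at h5
    simp only [beq_self_eq_true, Bool.true_and, Bool.not_true, Bool.or_false, Bool.or_eq_true,
      Bool.not_eq_true', decide_eq_false_iff_not, not_lt] at h5
    omega
  obtain ⟨P, R, M, w, k, hPR, hM, hPM, -, hD, hMc, hwk, hkf, -, t1, t2, t3⟩ :=
    H21.SylowInter.exists_normalizer hG hcard hm (le_refl 2) hns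
  have hk0 : 0 < k := by
    rcases Nat.eq_zero_or_pos k with h0 | h0
    · rw [h0, mul_zero] at hwk; omega
    · exact h0
  have hw0 : 0 < w := by
    rcases Nat.eq_zero_or_pos w with h0 | h0
    · rw [h0, zero_mul] at hwk; omega
    · exact h0
  have h7 := hchk2 k (List.mem_range.2 (by
    have : k ∣ m := ⟨w, by rw [← hwk, mul_comm]⟩
    have := Nat.le_of_dvd hm0 this
    omega))
  have e1 : m / k = w := by rw [← hwk, Nat.mul_div_cancel _ hk0]
  rw [hcard] at hkf
  rw [Nat.mod_eq_zero_of_dvd ⟨w, by rw [← hwk, mul_comm]⟩, e1,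
    Nat.mod_eq_zero_of_dvd (show 2 * (25 * m) ∣ k.factorial from hkf)] at h7
  simp only [beq_self_eq_true, Bool.not_true, Bool.false_or, Bool.or_eq_true,
    decide_eq_true_eq] at h7
  rcases h7 with h7 | h7
  · -- order 150
    subst h7
    rw [hM] at hMc t2
    have h8 : Nat.card (((P : Subgroup G) ⊓ (R : Subgroup G) : Subgroup G).subgroupOf
        (Subgroup.normalizer (((P : Subgroup G) ⊓ (R : Subgroup G) : Subgroup G) : Set G))) = 5 := by
      rw [Nat.card_congr (Subgroup.subgroupOfEquivOfLe Subgroup.le_normalizer).toEquiv, hD]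
      norm_num
    exact t2 (sylow_one_of_150 (by rw [hMc]; norm_num) _ h8)
  · rw [List.all_eq_true] at h7
    have h8 := h7 (Nat.card (Sylow 5 M)) (List.mem_range.2 (by
      have := Nat.le_of_dvd hw0 t1
      omega))
    have t4 : Nat.card (Sylow 5 M) % 5 = 1 := by rw [t3]
    rw [Nat.mod_eq_zero_of_dvd t1, t4] at h8
    simp only [beq_self_eq_true, Bool.true_and, Bool.not_eq_true', decide_eq_false_iff_not,
      not_lt] at h8
    have : 0 < Nat.card (Sylow 5 M) := Nat.card_pos
    omega

theorem no1800 {G : Type u} [Group G] [Finite G] [IsSimpleGroup G] (hN : Nat.card G = 1800) :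
    False :=
  no_five (m := 72) (not_comm_of_card hN (by norm_num)) (by rw [hN]; norm_num) (by norm_num)
    (by norm_num) (by decide +kernel) (by decide +kernel)

theorem no2700 {G : Type u} [Group G] [Finite G] [IsSimpleGroup G] (hN : Nat.card G = 2700) :
    False :=
  no_five (m := 108) (not_comm_of_card hN (by norm_num)) (by rw [hN]; norm_num) (by norm_num)
    (by norm_num) (by decide +kernel) (by decide +kernel)

theorem no3360 {G : Type u} [Group G] [Finite G] [IsSimpleGroup G] (hN : Nat.card G = 3360) :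
    False := by
  classical
  have f7 : Fact (Nat.Prime 7) := ⟨by norm_num⟩
  have f5 : Fact (Nat.Prime 5) := ⟨by norm_num⟩
  let _ : Fintype G := Fintype.ofFinite G
  let _ : Fintype (Cfsg.IrrCharacter G) := Fintype.ofFinite _
  have hG := H21.NE.not_comm_of_card hN (by norm_num)
  obtain ⟨x0, a, Y, ε, e, n, c, h, hmem⟩ := H21.NE.main2 hG hN 5 61 [(2, 32), (3, 3), (7, 7)] (by
    intro x hx
    simp only [List.mem_cons, List.not_mem_nil, or_false] at hx
    rcases hx with rfl | rfl | rfl <;> norm_num) [(336, 2, [0, 1, 0, 0, 0, 0, 0])] (by decide +kernel)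
  obtain ⟨x0', a', Y', ε', e', n', c', h', hmem'⟩ := H21.NE.main2 hG hN 7 61 [(2, 32), (3, 3), (5, 5)] (by
    intro x hx
    simp only [List.mem_cons, List.not_mem_nil, or_false] at hx
    rcases hx with rfl | rfl | rfl <;> norm_num) [(120, 2, [1, 0, 0])] (by decide +kernel)
  rw [List.mem_singleton, Prod.mk.injEq, Prod.mk.injEq] at hmem hmem'
  obtain ⟨hv, he, hcnt⟩ := hmem
  obtain ⟨hv', he', hcnt'⟩ := hmem'
  subst he
  subst he'
  have hn : n = 67 := by omega
  have hn' : n' = 17 := by omega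
  subst hn
  subst hn'
  have hc : c = 1 := by
    have h1 := h.hcard
    rw [hN] at h1
    omega
  have hc' : c' = 2 := by
    have h1 := h'.hcard
    rw [hN] at h1
    omega
  subst hc
  subst hc'
  have hL : H21.NE.cands 3360 5 (1 + 67 * 5) 2 1 61 = [4, 6, 14, 16, 21, 24, 56] := by decide +kernel
  have hL' : H21.NE.cands 3360 7 (1 + 17 * 7) 2 2 61 = [15, 20, 48] := by decide +kernel
  rw [hL] at hcnt
  rw [hL'] at hcnt'
  simp only [List.map_cons, List.map_nil, List.cons.injEq, and_true] at hcnt hcnt'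
  obtain ⟨c4, c6, c14, c16, c21, c24, c56⟩ := hcnt
  obtain ⟨c15', c20', c48'⟩ := hcnt'
  obtain ⟨θ, hθ⟩ := h.exists_Y
  obtain ⟨θ', hθ'⟩ := h'.exists_Y
  obtain ⟨-, d2, -⟩ := H21.NE.degree_eq h (by norm_num) hG (B := 61) (by rw [hN]; norm_num) hθ
  obtain ⟨-, d2', -⟩ := H21.NE.degree_eq h' (by norm_num) hG (B := 61) (by rw [hN]; norm_num) hθ'
  rw [hN, hL] at d2
  rw [hN, hL'] at d2'
  simp only [List.map_cons, List.map_nil, List.sum_cons, List.sum_nil, c4, c6, c14, c16, c21, c24,
    c56, H21.NE.sg] at d2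
  simp only [List.map_cons, List.map_nil, List.sum_cons, List.sum_nil, c15', c20', c48',
    H21.NE.sg] at d2'
  norm_num at d2 d2'
  have e1 : Cfsg.charDegree (θ : G → ℂ) = 7 := by
    rcases h.hε with h1 | h1 <;> rw [h1] at d2 <;> omega
  have e2 : Cfsg.charDegree (θ' : G → ℂ) = 16 := by
    rcases h'.hε with h1 | h1 <;> rw [h1] at d2' <;> omega
  rcases mem_of_c_one h rfl (χ := θ') (by rw [e2]; norm_num) with h1 | h1
  · have hSS : θ' ∈ SS a := mem_SS.2 ⟨h1, fun h0 => by
      rw [h0, triv_degree] at e2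
      norm_num at e2⟩
    have h3 : cnt (SS a) 16 ≠ 0 := by
      unfold cnt
      rw [Finset.card_ne_zero]
      exact ⟨θ', Finset.mem_filter.2 ⟨hSS, e2⟩⟩
    exact h3 c16
  · have := H21.BT.degree_Y h h1 hθ
    omega

end H60.SO
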