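import Cfsg.Agent.Lib.H60.SO3
import Cfsg.Agent.Lib.H64.Order60

/-!
There is no simple group of order 3600.
-/

set_option autoImplicit false
set_option linter.unusedSectionVars false

namespace H60.SO

open Cfsg H21.NE

universe u

/-- if `H ⧸ D` has one Sylow `p`-subgroup, `D` a `p`-group, so has `H` -/
theorem sylow_one_of_quot {H : Type u} [Group H] [Finite H] {p : ℕ} [Fact p.Prime]
    (D : Subgroup H) [hDn : D.Normal] (hD : IsPGroup p D)
    (h : Nat.card (Sylow p (H ⧸ D)) = 1) : Nat.card (Sylow p H) = 1 := by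
  obtain ⟨Q⟩ : Nonempty (Sylow p (H ⧸ D)) := inferInstance
  have hn : (Q : Subgroup (H ⧸ D)).Normal := by
    have := (Nat.card_eq_one_iff_unique.1 h).1
    exact Sylow.normal_of_subsingleton Q
  have hker : IsPGroup p (QuotientGroup.mk' D).ker := by
    rw [QuotientGroup.ker_mk']
    exact hD
  have hr : (Q : Subgroup (H ⧸ D)) ≤ (QuotientGroup.mk' D).range := by
    rw [MonoidHom.range_eq_top.2 (QuotientGroup.mk'_surjective D)]
    exact le_top
  have hT : ((Q.comapOfKerIsPGroup (QuotientGroup.mk' D) hker hr : Sylow p H) : Subgroup H).Normal := by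
    rw [Sylow.coe_comapOfKerIsPGroup]
    exact hn.comap _
  have := Sylow.unique_of_normal _ hT
  exact Nat.card_unique

theorem le_sylow_of_normal {H : Type u} [Group H] [Finite H] {p : ℕ} [Fact p.Prime]
    (D : Subgroup H) [hDn : D.Normal] (hD : IsPGroup p D) (P : Sylow p H) :
    D ≤ (P : Subgroup H) := by
  obtain ⟨Q, hQ⟩ := hD.exists_le_sylow
  obtain ⟨g, rfl⟩ := MulAction.exists_smul_eq H Q P
  intro x hx
  have h1 : g⁻¹ * x * g⁻¹⁻¹ ∈ (Q : Subgroup H) := hQ (hDn.conj_mem x hx g⁻¹)
  have h2 : g * (g⁻¹ * x * g⁻¹⁻¹) * g⁻¹ = x := by group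
  rw [← h2]
  exact Subgroup.smul_mem_pointwise_smul _ (MulAut.conj g) (Q : Subgroup H) h1

theorem simple_sixty {H : Type u} [Group H] [Finite H] (h : Nat.card H = 60)
    [Fact (Nat.Prime 5)] (hn : Nat.card (Sylow 5 H) ≠ 1) : IsSimpleGroup H :=
  H60.Ord60.isSimple_of_not_solvable h (H64.Order60.not_solvable h
    (H64.Order60.five_mem (H64.Order60.card_sylow_five h hn)))

theorem order300 {H : Type u} [Group H] [Finite H] (h : Nat.card H = 300)
    (D : Subgroup H) [hDn : D.Normal] (hD : Nat.card D = 5) [f5 : Fact (Nat.Prime 5)]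
    (hn : Nat.card (Sylow 5 H) ≠ 1) :
    D ≤ Subgroup.center H ∧ Nat.card (Sylow 5 H) = 6 ∧ (∀ P : Sylow 5 H, Nat.card P = 25 ∧
      ¬ Subgroup.normalizer ((P : Subgroup H) : Set H) ≤
        Subgroup.centralizer ((P : Subgroup H) : Set H)) := by
  have hDp : IsPGroup 5 D := IsPGroup.of_card (n := 1) (by rw [hD, pow_one])
  have hq : Nat.card (H ⧸ D) = 60 := by
    have h1 := Subgroup.card_eq_card_quotient_mul_card_subgroup D
    rw [h, hD] at h1
    omega
  have hs : IsSimpleGroup (H ⧸ D) := simple_sixty hq (fun h1 => hn (sylow_one_of_quot D hDp h1))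
  have hcomm : ¬ IsMulCommutative (H ⧸ D) := not_comm_of_card hq (by norm_num)
  have hPc : ∀ P : Sylow 5 H, Nat.card P = 25 := fun P =>
    H21.SylowTools.card_sylow_eq_pow (a := 2) (m := 12) (by rw [h]; norm_num) (by norm_num) P
  have hDP : ∀ P : Sylow 5 H, D ≤ P := fun P => le_sylow_of_normal D hDp P
  have hPcomm : ∀ P : Sylow 5 H, ∀ x ∈ (P : Subgroup H), ∀ y ∈ (P : Subgroup H), x * y = y * x := by
    intro P x hx y hy
    have := IsPGroup.isMulCommutative_of_card_eq_prime_sq (p := 5) (G := P) (by rw [hPc P]; norm_num)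
    exact congrArg Subtype.val (this.is_comm.comm (⟨x, hx⟩ : P) ⟨y, hy⟩)
  obtain ⟨P0⟩ : Nonempty (Sylow 5 H) := inferInstance
  refine ⟨?_, ?_, ?_⟩
  · -- the centralizer of D
    have hCn : (Subgroup.centralizer (D : Set H)).Normal := inferInstance
    have hmap : ((Subgroup.centralizer (D : Set H)).map (QuotientGroup.mk' D)).Normal :=
      hCn.map _ (QuotientGroup.mk'_surjective D)
    rcases hs.eq_bot_or_eq_top_of_normal _ hmap with h1 | h1
    · exfalso
      rw [Subgroup.map_eq_bot_iff, QuotientGroup.ker_mk'] at h1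
      have h2 : (P0 : Subgroup H) ≤ D := by
        refine le_trans ?_ h1
        intro x hx
        rw [Subgroup.mem_centralizer_iff]
        intro d hd
        exact hPcomm P0 d (hDP P0 hd) x hx
      have h3 := Subgroup.card_le_of_le h2
      rw [hD] at h3
      have h4 := hPc P0
      change Nat.card (P0 : Subgroup H) = 25 at h4
      omega
    · have h2 : D ≤ Subgroup.centralizer (D : Set H) := by
        intro x hx
        rw [Subgroup.mem_centralizer_iff]
        intro d hd
        exact hPcomm P0 d (hDP P0 hd) x (hDP P0 hx)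
      have h3 : Subgroup.centralizer (D : Set H) = ⊤ := by
        rw [eq_top_iff]
        intro x _
        have h4 : (QuotientGroup.mk' D) x ∈ (Subgroup.centralizer (D : Set H)).map (QuotientGroup.mk' D) := by
          rw [h1]; trivial
        obtain ⟨c, hc, hcx⟩ := h4
        have h5 : c⁻¹ * x ∈ D := QuotientGroup.eq.1 hcx
        have h6 := mul_mem hc (h2 h5)
        rwa [mul_inv_cancel_left] at h6
      intro d hd
      rw [Subgroup.mem_center_iff]
      intro g
      have h4 : g ∈ Subgroup.centralizer (D : Set H) := by rw [h3]; trivial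
      exact (Subgroup.mem_centralizer_iff.1 h4 d hd).symm
  · have s1 := H21.SylowTools.card_sylow_dvd_of_card (G := H) (p := 5) (a := 2) (m := 12)
      (by rw [h]; norm_num)
    have s3 : Nat.card (Sylow 5 H) % 5 = 1 := card_sylow_modEq_one 5 H
    have s4 := Nat.le_of_dvd (by norm_num) s1
    have s5 : Nat.card (Sylow 5 H) ≠ 11 := by
      intro h0
      rw [h0] at s1
      norm_num at s1
    omega
  · intro P
    refine ⟨hPc P, fun hNC => ?_⟩
    have hle : (P : Subgroup H) ≤ ((P : Subgroup H).map (QuotientGroup.mk' D)).comap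
        (QuotientGroup.mk' D) := Subgroup.le_comap_map _ _
    obtain ⟨Q, hQ⟩ : ∃ Q : Sylow 5 (H ⧸ D), (Q : Subgroup (H ⧸ D)) =
        (P : Subgroup H).map (QuotientGroup.mk' D) :=
      ⟨P.mapSurjective (QuotientGroup.mk'_surjective D), rfl⟩
    refine H21.SylowTools.burnside_not_le hcomm (by rw [hq]; norm_num) Q ?_
    intro x hx
    obtain ⟨g, rfl⟩ := QuotientGroup.mk'_surjective D x
    rw [hQ] at hx ⊢
    have hg : g ∈ Subgroup.normalizer ((P : Subgroup H) : Set H) := by
      rw [Subgroup.mem_normalizer_iff] at hx ⊢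
      have key : ∀ y : H, (QuotientGroup.mk' D) y ∈ (P : Subgroup H).map (QuotientGroup.mk' D) ↔
          y ∈ (P : Subgroup H) := by
        intro y
        constructor
        · rintro ⟨z, hz, hzy⟩
          have h5 : z⁻¹ * y ∈ D := QuotientGroup.eq.1 hzy
          have h6 := mul_mem hz (hDP P h5)
          rwa [mul_inv_cancel_left] at h6
        · intro hy
          exact ⟨y, hy, rfl⟩
      intro y
      rw [← key y, ← key (g * y * g⁻¹), map_mul, map_mul, map_inv]
      exact hx _
    rw [Subgroup.mem_centralizer_iff]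
    rintro _ ⟨z, hz, rfl⟩
    rw [← map_mul, ← map_mul, Subgroup.mem_centralizer_iff.1 (hNC hg) z hz]

theorem no3600 {G : Type u} [Group G] [Finite G] [IsSimpleGroup G] (hN : Nat.card G = 3600) :
    False := by
  have hG := not_comm_of_card hN (by norm_num)
  have f5 : Fact (Nat.Prime 5) := ⟨by norm_num⟩
  have hcard : Nat.card G = 5 ^ 2 * 144 := by rw [hN]; norm_num
  have hdvd : 5 ∣ Nat.card G := by rw [hN]; norm_num
  have s1 := H21.SylowTools.card_sylow_dvd_of_card (G := G) hcard
  have s2 := H21.SylowTools.card_sylow_ne_one hG (p := 5) hdvd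
  have s4 : Nat.card (Sylow 5 G) % 5 = 1 := card_sylow_modEq_one 5 G
  have s6 : 2 * Nat.card G ∣ (Nat.card (Sylow 5 G)).factorial := by
    obtain ⟨P⟩ := (inferInstance : Nonempty (Sylow 5 G))
    exact H21.SylowInter.dvd_factorial_of_card hG _
      (H21.SylowTools.normalizer_sylow_ne_top hG hdvd P)
      (H21.SylowTools.card_normalizer_mul_card_sylow P)
  have s7 : Nat.card (Sylow 5 G) = 16 ∨ Nat.card (Sylow 5 G) = 36 := by
    have hmem : Nat.card (Sylow 5 G) ∈ (144 : ℕ).divisors := Nat.mem_divisors.mpr ⟨s1, by norm_num⟩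
    have hdiv : (144 : ℕ).divisors = {1, 2, 3, 4, 6, 8, 9, 12, 16, 18, 24, 36, 48, 72, 144} := by
      decide +kernel
    rw [hdiv] at hmem
    simp only [Finset.mem_insert, Finset.mem_singleton] at hmem
    have h6 : Nat.card (Sylow 5 G) ≠ 6 := by
      intro h0
      rw [h0, hN] at s6
      revert s6
      decide
    omega
  have hns : ¬ Nat.card (Sylow 5 G) ≡ 1 [MOD 5 ^ 2] := by
    rcases s7 with h0 | h0 <;> rw [h0] <;> decide
  obtain ⟨P, R, M, w, k, hPR, hM, hPM, -, hD, hMc, hwk, hkf, -, t1, t2, t3⟩ :=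
    H21.SylowInter.exists_normalizer hG hcard (by norm_num) (le_refl 2) hns
  obtain ⟨D, hDdef⟩ : ∃ D : Subgroup G, D = (P : Subgroup G) ⊓ (R : Subgroup G) := ⟨_, rfl⟩
  rw [← hDdef] at hM hD
  have hDM : D ≤ M := by rw [hM]; exact Subgroup.le_normalizer
  have hDMn : (D.subgroupOf M).Normal := by
    rw [hM]; exact Subgroup.normal_in_normalizer
  have hDc : Nat.card (D.subgroupOf M) = 5 := by
    rw [Nat.card_congr (Subgroup.subgroupOfEquivOfLe hDM).toEquiv, hD]
    norm_num
  have t4 : Nat.card (Sylow 5 M) % 5 = 1 := t3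
  have hk1 : 10 ≤ k := by
    by_contra hcon
    push Not at hcon
    rw [hN] at hkf
    interval_cases k <;> revert hkf <;> decide
  have hw : w = 12 := by
    have hw0 : 0 < w := by
      rcases Nat.eq_zero_or_pos w with h0 | h0
      · rw [h0, zero_mul] at hwk; omega
      · exact h0
    have hle : w ≤ 14 := by
      by_contra hcon
      push Not at hcon
      have := Nat.mul_le_mul (show 15 ≤ w from hcon) hk1
      omega
    have h6 : w ≠ 6 := by
      intro h0
      rw [h0] at hMc
      exact t2 (sylow_one_of_150 (by rw [hMc]; norm_num) _ hDc)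
    have h7 := Nat.le_of_dvd hw0 t1
    have h8 : Nat.card (Sylow 5 M) = 6 ∨ Nat.card (Sylow 5 M) = 11 := by
      have : 0 < Nat.card (Sylow 5 M) := Nat.card_pos
      omega
    have h9 : w ∣ 144 := ⟨k, hwk.symm⟩
    rcases h8 with h8 | h8
    · rw [h8] at t1
      obtain ⟨j, hj⟩ := t1
      omega
    · rw [h8] at t1
      obtain ⟨j, hj⟩ := t1
      have : w = 11 := by omega
      rw [this] at h9
      norm_num at h9
  subst hw
  have hMc' : Nat.card M = 300 := by rw [hMc]; norm_num
  obtain ⟨u1, u2, u3⟩ := order300 hMc' (D.subgroupOf M) hDc t2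
  obtain ⟨v1, v2⟩ := u3 (P.subtype hPM)
  -- normalizer in M
  have hPc : Nat.card (P : Subgroup G) = 25 :=
    H21.SylowTools.card_sylow_eq_pow hcard (by norm_num) P
  have hPcomm : ∀ x ∈ (P : Subgroup G), ∀ y ∈ (P : Subgroup G), x * y = y * x := by
    intro x hx y hy
    have := IsPGroup.isMulCommutative_of_card_eq_prime_sq (p := 5) (G := P) (by
      rw [show Nat.card P = 25 from hPc]; norm_num)
    exact congrArg Subtype.val (this.is_comm.comm (⟨x, hx⟩ : P) ⟨y, hy⟩)
  have w1 := H21.SylowTools.card_normalizer_mul_card_sylow (P.subtype hPM)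
  rw [u2, hMc'] at w1
  have w2 := H21.SylowTools.card_normalizer_mul_card_sylow P
  rw [hN] at w2
  -- N_M(P) maps into N_G(P)
  have hNle : ∀ m : M, m ∈ Subgroup.normalizer ((P.subtype hPM : Subgroup M) : Set M) →
      (m : G) ∈ Subgroup.normalizer ((P : Subgroup G) : Set G) := by
    intro m hm
    rw [Subgroup.mem_normalizer_iff] at hm ⊢
    intro y
    constructor
    · intro hy
      have h1 := (hm ⟨y, hPM hy⟩).1 (by
        rw [Sylow.coe_subtype, Subgroup.mem_subgroupOf]; exact hy)
      rw [Sylow.coe_subtype, Subgroup.mem_subgroupOf] at h1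
      exact h1
    · intro hy
      have hyM : y ∈ M := by
        have h2 := mul_mem (mul_mem (inv_mem m.2) (hPM hy)) m.2
        have h3 : (m : G)⁻¹ * ((m : G) * y * (m : G)⁻¹) * (m : G) = y := by group
        rwa [h3] at h2
      have h1 := (hm ⟨y, hyM⟩).2 (by
        rw [Sylow.coe_subtype, Subgroup.mem_subgroupOf]; exact hy)
      rw [Sylow.coe_subtype, Subgroup.mem_subgroupOf] at h1
      exact h1
  have w3 : Nat.card (Subgroup.normalizer ((P.subtype hPM : Subgroup M) : Set M)) = 50 := by omega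
  have w4 : 50 ∣ Nat.card (Subgroup.normalizer ((P : Subgroup G) : Set G)) := by
    rw [← w3, ← Subgroup.card_map_of_injective M.subtype_injective
      (K := Subgroup.normalizer ((P.subtype hPM : Subgroup M) : Set M))]
    apply Subgroup.card_dvd_of_le
    rintro _ ⟨m, hm, rfl⟩
    exact hNle m hm
  have w5 : Nat.card (Subgroup.normalizer ((P : Subgroup G) : Set G)) = 100 := by
    rcases s7 with h0 | h0
    · rw [h0] at w2
      omega
    · rw [h0] at w2
      omega
  -- an element of M normalising but not centralising P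
  obtain ⟨τ, hτ1, hτ2⟩ := Set.not_subset.1 v2
  -- the centralizer of τ in P is D
  have hτN := hNle τ hτ1
  have hcent : ∀ x ∈ (P : Subgroup G), (τ : G) * x = x * τ ↔ x ∈ D := by
    have hDle : D ≤ (P : Subgroup G) ⊓ Subgroup.centralizer {(τ : G)} := by
      intro d hd
      refine ⟨(by rw [hDdef] at hd; exact hd.1), ?_⟩
      show d ∈ Subgroup.centralizer {(τ : G)}
      rw [Subgroup.mem_centralizer_singleton_iff]
      have h1 := u1 (show (⟨d, hDM hd⟩ : M) ∈ D.subgroupOf M from hd)
      rw [Subgroup.mem_center_iff] at h1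
      exact (congrArg Subtype.val (h1 τ)).symm
    have hne : (P : Subgroup G) ⊓ Subgroup.centralizer {(τ : G)} ≠ P := by
      intro h0
      apply hτ2
      rw [SetLike.mem_coe, Subgroup.mem_centralizer_iff]
      intro x hx
      have hx' : (x : G) ∈ (P : Subgroup G) := by
        rw [SetLike.mem_coe, Sylow.coe_subtype, Subgroup.mem_subgroupOf] at hx; exact hx
      rw [← h0] at hx'
      have h1 := Subgroup.mem_centralizer_singleton_iff.1 hx'.2
      exact Subtype.ext h1
    have hcd : Nat.card ((P : Subgroup G) ⊓ Subgroup.centralizer {(τ : G)} : Subgroup G) ∣ 5 ^ 2 := by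
      rw [show 5 ^ 2 = Nat.card (P : Subgroup G) by rw [hPc]; norm_num]
      exact Subgroup.card_dvd_of_le inf_le_left
    obtain ⟨j, hj, hj2⟩ := (Nat.dvd_prime_pow f5.out).1 hcd
    have hj3 : j ≠ 2 := by
      rintro rfl
      apply hne
      apply Subgroup.eq_of_le_of_card_ge inf_le_left
      rw [hPc, hj2]
      norm_num
    have hle := Subgroup.card_le_of_le hDle
    have heq : D = (P : Subgroup G) ⊓ Subgroup.centralizer {(τ : G)} := by
      apply Subgroup.eq_of_le_of_card_ge hDle
      rw [hj2, hD]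
      apply Nat.pow_le_pow_right (by norm_num)
      omega
    intro x hx
    constructor
    · intro h1
      rw [heq]
      exact ⟨hx, Subgroup.mem_centralizer_singleton_iff.2 h1.symm⟩
    · intro h1
      rw [heq] at h1
      exact (Subgroup.mem_centralizer_singleton_iff.1 h1.2).symm
  -- N(P)/P is commutative
  have hPn : ((P : Subgroup G).subgroupOf (Subgroup.normalizer ((P : Subgroup G) : Set G))).Normal :=
    Subgroup.normal_in_normalizer
  have hq4 : Nat.card (↥(Subgroup.normalizer ((P : Subgroup G) : Set G)) ⧸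
      (P : Subgroup G).subgroupOf (Subgroup.normalizer ((P : Subgroup G) : Set G))) = 2 ^ 2 := by
    have h1 := Subgroup.card_eq_card_quotient_mul_card_subgroup
      ((P : Subgroup G).subgroupOf (Subgroup.normalizer ((P : Subgroup G) : Set G)))
    rw [w5, Nat.card_congr (Subgroup.subgroupOfEquivOfLe Subgroup.le_normalizer).toEquiv, hPc] at h1
    omega
  have f2 : Fact (Nat.Prime 2) := ⟨Nat.prime_two⟩
  have hcm := IsPGroup.isMulCommutative_of_card_eq_prime_sq hq4
  -- D is normalised by N(P)
  have hNM : Subgroup.normalizer ((P : Subgroup G) : Set G) ≤ M := by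
    have key : ∀ ν ∈ Subgroup.normalizer ((P : Subgroup G) : Set G), ∀ d ∈ D, ν * d * ν⁻¹ ∈ D := by
      intro ν hν d hd
      have hdP : d ∈ (P : Subgroup G) := by rw [hDdef] at hd; exact hd.1
      have hdP' : ν * d * ν⁻¹ ∈ (P : Subgroup G) := (Subgroup.mem_normalizer_iff.1 hν d).1 hdP
      rw [← hcent _ hdP']
      -- commutator
      have h1 := hcm.is_comm.comm ((⟨ν, hν⟩ : ↥(Subgroup.normalizer ((P : Subgroup G) : Set G))) :
        ↥(Subgroup.normalizer ((P : Subgroup G) : Set G)) ⧸
          (P : Subgroup G).subgroupOf (Subgroup.normalizer ((P : Subgroup G) : Set G)))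
        ((⟨τ, hτN⟩ : ↥(Subgroup.normalizer ((P : Subgroup G) : Set G))) : _)
      have h2 : ((⟨ν, hν⟩ * ⟨τ, hτN⟩)⁻¹ * (⟨τ, hτN⟩ * ⟨ν, hν⟩) :
          ↥(Subgroup.normalizer ((P : Subgroup G) : Set G))) ∈
          (P : Subgroup G).subgroupOf (Subgroup.normalizer ((P : Subgroup G) : Set G)) :=
        QuotientGroup.eq.1 h1
      rw [Subgroup.mem_subgroupOf] at h2
      have h3 : (ν * τ)⁻¹ * (τ * ν) ∈ (P : Subgroup G) := h2
      obtain ⟨g, hg⟩ : ∃ g, g = (ν * (τ : G))⁻¹ * (τ * ν) := ⟨_, rfl⟩
      rw [← hg] at h3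
      have h4 : (τ : G) * ν = ν * τ * g := by rw [hg]; group
      have h5 : (τ : G) * d = d * τ := (hcent d hdP).2 hd
      have h6 : g * d = d * g := hPcomm g h3 d hdP
      have h7 : (τ : G) * (ν * d) = ν * d * τ * g := by
        calc (τ : G) * (ν * d) = (τ * ν) * d := by group
          _ = ν * τ * (g * d) := by rw [h4]; group
          _ = ν * (τ * d) * g := by rw [h6]; group
          _ = ν * d * τ * g := by rw [h5]; group
      calc (τ : G) * (ν * d * ν⁻¹) = (τ * (ν * d)) * ν⁻¹ := by group
        _ = ν * d * ν⁻¹ * (ν * τ * g) * ν⁻¹ := by rw [h7]; group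
        _ = ν * d * ν⁻¹ * τ := by rw [← h4]; group
    intro ν hν
    rw [hM, Subgroup.mem_normalizer_iff]
    intro d
    constructor
    · exact key ν hν d
    · intro hd
      have h1 := key ν⁻¹ (inv_mem hν) _ hd
      have h2 : ν⁻¹ * (ν * d * ν⁻¹) * ν⁻¹⁻¹ = d := by group
      rwa [h2] at h1
  have w6 : Nat.card (Subgroup.normalizer ((P : Subgroup G) : Set G)) ≤ 50 := by
    have h1 : (Subgroup.normalizer ((P : Subgroup G) : Set G)).subgroupOf M ≤
        Subgroup.normalizer ((P.subtype hPM : Subgroup M) : Set M) := by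
      intro m hm
      rw [Subgroup.mem_subgroupOf, Subgroup.mem_normalizer_iff] at hm
      rw [Subgroup.mem_normalizer_iff]
      intro y
      rw [Sylow.coe_subtype, Subgroup.mem_subgroupOf, Subgroup.mem_subgroupOf]
      exact hm y
    have h2 := Subgroup.card_le_of_le h1
    rw [w3, Nat.card_congr (Subgroup.subgroupOfEquivOfLe hNM).toEquiv] at h2
    exact h2
  omega

end H60.SO
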