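import Cfsg.Agent.Lib.H60.SO2
import Cfsg.Agent.Lib.H21.NE14
import Cfsg.Agent.Lib.H18.CharCentral
import Cfsg.Agent.Lib.H31.RatVal

/-!
Class multiplication for a self-centralising Sylow subgroup of prime order.
-/

set_option autoImplicit false
set_option linter.unusedSectionVars false

namespace H60.SO

open Cfsg H18.CharBasic H18.CharOrtho H18.CharInd H21.PLat H21.BK H21.BT H21.NE
open scoped ComplexConjugate

universe u

section

variable {G : Type u} [Group G] [Finite G]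

/-- values at involutions are integers -/
theorem int_of_two {χ : G → ℂ} (h : IsCharacter G χ) {x : G} (hx : x * x = 1) :
    ∃ n : ℤ, χ x = n := by
  apply H31.RatVal.int_of_forall_pow (H18.CharOrtho.isGen_of_isCharacter h) x
  intro k hk
  have h2 : x ^ 2 = 1 := by rw [pow_two]; exact hx
  have h3 : orderOf x ∣ 2 := orderOf_dvd_of_pow_eq_one h2
  rcases (Nat.dvd_prime Nat.prime_two).1 h3 with h4 | h4
  · rw [orderOf_eq_one_iff] at h4
    rw [h4, one_pow]
  · rw [h4] at hk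
    have h5 : k % 2 = 1 := by
      rcases Nat.mod_two_eq_zero_or_one k with h6 | h6
      · exfalso
        have : 2 ∣ Nat.gcd k 2 := Nat.dvd_gcd (Nat.dvd_of_mod_eq_zero h6) dvd_rfl
        rw [hk] at this
        norm_num at this
      · exact h6
    rw [← Nat.div_add_mod k 2, h5, pow_add, pow_mul, h2, one_pow, one_mul, pow_one]

end

section bd

variable {G : Type u} [Group G] [Fintype G] [Fintype (IrrCharacter G)] {p : ℕ} [hp : Fact p.Prime]
  {x0 : G} {a : IrrCharacter G → ℤ} {Y : Finset (IrrCharacter G)} {ε : ℤ} {e n c : ℕ}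

theorem sum_Y_one (h : BD G p x0 a Y ε e n c) (hc : c = 1) :
    ∑ θ ∈ Y, (θ : G → ℂ) x0 = -ε := by
  classical
  obtain ⟨θ, hθ⟩ := h.exists_Y
  have h1 := sum_Y h hc
  have h2 := h.degree_sum hθ
  have h3 : ∑ θ' ∈ Y, (charDegree (θ' : G → ℂ) : ℂ) * (θ' : G → ℂ) x0 =
      (charDegree (θ : G → ℂ) : ℂ) * ∑ θ' ∈ Y, (θ' : G → ℂ) x0 := by
    rw [Finset.mul_sum]
    refine Finset.sum_congr rfl fun θ' hθ' => ?_
    rw [degree_Y h hθ' hθ]
  rw [h3] at h1
  have h4 : (∑ χ : IrrCharacter G, (a χ : ℂ) * charDegree (χ : G → ℂ)) =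
      (ε : ℂ) * charDegree (θ : G → ℂ) := by
    have h5 := congrArg (fun z : ℤ => (z : ℂ)) h2
    push_cast at h5
    exact h5.symm
  rw [h4] at h1
  have h5 : (charDegree (θ : G → ℂ) : ℂ) ≠ 0 := by
    exact_mod_cast H82.Deg.charDegree_ne_zero θ
  apply mul_left_cancel₀ h5
  rw [h1]
  ring

theorem struct (h : BD G p x0 a Y ε e n c) (hc : c = 1) {s t : G} (hs : ¬ p ∣ orderOf s)
    (ht : ¬ p ∣ orderOf t) {θ : IrrCharacter G} (hθ : θ ∈ Y) :
    ∑ χ : IrrCharacter G, (χ : G → ℂ) s * (χ : G → ℂ) t * conj ((χ : G → ℂ) x0) / (χ : G → ℂ) 1 =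
      ∑ χ : IrrCharacter G, (a χ : ℂ) * ((χ : G → ℂ) s * (χ : G → ℂ) t / (χ : G → ℂ) 1) -
        ε * ((θ : G → ℂ) s * (θ : G → ℂ) t / (θ : G → ℂ) 1) := by
  classical
  have hx0 : ∀ χ : IrrCharacter G, (χ : G → ℂ) s * (χ : G → ℂ) t * conj ((χ : G → ℂ) x0) /
      (χ : G → ℂ) 1 = (a χ : ℂ) * ((χ : G → ℂ) s * (χ : G → ℂ) t / (χ : G → ℂ) 1) +
        (if χ ∈ Y then (χ : G → ℂ) s * (χ : G → ℂ) t * conj ((χ : G → ℂ) x0) / (χ : G → ℂ) 1
          else 0) := by
    intro χ
    by_cases h1 : χ ∈ Y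
    · rw [if_pos h1, h.hYa χ h1]
      push_cast
      ring
    · rw [if_neg h1]
      by_cases h2 : a χ = 0
      · have h3 := hz h hc h2 h1 (k := 1) one_ne_zero
        rw [pw_one h.hx0] at h3
        rw [h2, h3, map_zero]
        push_cast
        ring
      · have h3 := h.hval χ h2 1 one_ne_zero
        rw [pw_one h.hx0] at h3
        rw [h3]
        have h4 : conj ((a χ : ℤ) : ℂ) = ((a χ : ℤ) : ℂ) := by simp
        rw [h4]
        ring
  rw [Finset.sum_congr rfl (fun χ _ => hx0 χ), Finset.sum_add_distrib, sub_eq_add_neg]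
  congr 1
  rw [Finset.sum_ite_mem, Finset.univ_inter]
  have h5 : ∀ χ ∈ Y, (χ : G → ℂ) s * (χ : G → ℂ) t * conj ((χ : G → ℂ) x0) / (χ : G → ℂ) 1 =
      ((θ : G → ℂ) s * (θ : G → ℂ) t / (θ : G → ℂ) 1) * conj ((χ : G → ℂ) x0) := by
    intro χ hχ
    rw [value_Y h hχ hθ hs, value_Y h hχ hθ ht]
    have h6 : (χ : G → ℂ) 1 = (θ : G → ℂ) 1 := by
      rw [← H82.Deg.coe_charDegree' χ, ← H82.Deg.coe_charDegree' θ, degree_Y h hχ hθ]
    rw [h6]
    ring
  rw [Finset.sum_congr rfl h5, ← Finset.mul_sum, ← map_sum, sum_Y_one h hc]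
  have h7 : conj (-(ε : ℂ)) = -(ε : ℂ) := by simp
  rw [h7]
  ring

/-- the number of pairs of conjugates of an involution `u` inverting `x0` with product `x0` -/
theorem card_pairs_inv (hx0 : orderOf x0 = p) (hp2 : p ≠ 2)
    (hC : Nat.card (Subgroup.centralizer ({x0} : Set G)) = p) {u : G} (hu : u * u = 1)
    (hinv : u * x0 * u⁻¹ = x0⁻¹) :
    Nat.card {q : G × G // IsConj u q.1 ∧ IsConj u q.2 ∧ q.1 * q.2 = x0} = p := by
  have hCz : ∀ g : G, g * x0 = x0 * g → ∃ k : ℕ, g = x0 ^ k := by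
    intro g hg
    have h1 : Subgroup.zpowers x0 = Subgroup.centralizer ({x0} : Set G) := by
      apply Subgroup.eq_of_le_of_card_ge
      · rw [Subgroup.zpowers_le, Subgroup.mem_centralizer_singleton_iff]
      · rw [hC, Nat.card_zpowers, hx0]
    have h2 : g ∈ Subgroup.zpowers x0 := by
      rw [h1, Subgroup.mem_centralizer_singleton_iff]; exact hg
    obtain ⟨k, hk⟩ := (isOfFinOrder_of_finite x0).mem_powers_iff_mem_zpowers.2 h2
    exact ⟨k, hk.symm⟩
  have hpow : ∀ k : ℕ, u * x0 ^ k * u⁻¹ = (x0 ^ k)⁻¹ := by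
    intro k
    rw [← conj_pow, hinv, inv_pow]
  have hui : u⁻¹ = u := by rw [inv_eq_iff_mul_eq_one, hu]
  -- square roots
  have hsq : ∀ k : ℕ, ∃ j : ℕ, x0 ^ k = x0 ^ j * x0 ^ j := by
    intro k
    obtain ⟨m, hm⟩ : ∃ m, p = 2 * m + 1 := by
      rcases hp.out.eq_two_or_odd with h0 | h0
      · exact absurd h0 hp2
      · exact ⟨p / 2, by omega⟩
    refine ⟨k * (m + 1), ?_⟩
    rw [← pow_add]
    have h1 : k * (m + 1) + k * (m + 1) = k + p * k := by rw [hm]; ring
    rw [h1, pow_add, pow_mul, ← hx0, pow_orderOf_eq_one, one_pow, mul_one]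
  have hconj : ∀ k : ℕ, IsConj u (u * x0 ^ k) := by
    intro k
    obtain ⟨j, hj⟩ := hsq k
    rw [isConj_iff]
    refine ⟨(x0 ^ j)⁻¹, ?_⟩
    have h1 := hpow j
    have h2 : (x0 ^ j)⁻¹ * u = u * x0 ^ j := by
      rw [← h1]; group
    rw [inv_inv, h2, hj, mul_assoc]
  have e : {q : G × G // IsConj u q.1 ∧ IsConj u q.2 ∧ q.1 * q.2 = x0} ≃
      Subgroup.zpowers x0 := by
    refine Equiv.ofBijective (fun q => ⟨u * q.1.1, ?_⟩) ⟨?_, ?_⟩
    · obtain ⟨⟨s, t⟩, h1, h2, h3⟩ := q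
      simp only at h1 h2 h3 ⊢
      have hs : s * s = 1 := by
        obtain ⟨g, hg⟩ := isConj_iff.1 h1
        rw [← hg]
        calc g * u * g⁻¹ * (g * u * g⁻¹) = g * (u * u) * g⁻¹ := by group
          _ = 1 := by rw [hu]; group
      have ht : t * t = 1 := by
        obtain ⟨g, hg⟩ := isConj_iff.1 h2
        rw [← hg]
        calc g * u * g⁻¹ * (g * u * g⁻¹) = g * (u * u) * g⁻¹ := by group
          _ = 1 := by rw [hu]; group
      have hsx : s * x0 * s⁻¹ = x0⁻¹ := by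
        have hsi : s⁻¹ = s := by rw [inv_eq_iff_mul_eq_one, hs]
        have hti : t⁻¹ = t := by rw [inv_eq_iff_mul_eq_one, ht]
        rw [hsi, ← h3, mul_inv_rev, hsi, hti]
        calc s * (s * t) * s = (s * s) * t * s := by group
          _ = t * s := by rw [hs, one_mul]
      obtain ⟨k, hk⟩ := hCz (u * s) (by
        have h4 : s * x0 = x0⁻¹ * s := by rw [← hsx]; group
        have h5 : u * x0⁻¹ = x0 * u := by
          have := hinv
          have h6 : u * x0⁻¹ * u⁻¹ = x0 := by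
            rw [← conj_inv, hinv, inv_inv]
          calc u * x0⁻¹ = (u * x0⁻¹ * u⁻¹) * u := by group
            _ = x0 * u := by rw [h6]
        calc u * s * x0 = u * (s * x0) := by group
          _ = (u * x0⁻¹) * s := by rw [h4]; group
          _ = x0 * (u * s) := by rw [h5]; group)
      rw [hk]
      exact Subgroup.npow_mem_zpowers _ _
    · rintro ⟨⟨s, t⟩, h1, h2, h3⟩ ⟨⟨s', t'⟩, h1', h2', h3'⟩ heq
      simp only [Subtype.mk.injEq, mul_right_inj] at heq
      simp only at h3 h3'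
      subst heq
      have : t = t' := by
        rw [← h3'] at h3
        exact mul_left_cancel h3
      subst this
      rfl
    · rintro ⟨y, hy⟩
      obtain ⟨k, hk⟩ := (isOfFinOrder_of_finite x0).mem_powers_iff_mem_zpowers.2 hy
      have hk' : x0 ^ k = y := hk
      subst hk'
      have hst : (u * x0 ^ k)⁻¹ * x0 = u * x0 ^ (k + 1) := by
        have h1 := hpow k
        rw [hui] at h1
        have h2 : (u * x0 ^ k)⁻¹ = u * x0 ^ k := by
          rw [mul_inv_rev, hui, ← h1]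
          calc u * x0 ^ k * u * u = u * x0 ^ k * (u * u) := by group
            _ = u * x0 ^ k := by rw [hu, mul_one]
        rw [h2, pow_succ]
        group
      refine ⟨⟨(u * x0 ^ k, (u * x0 ^ k)⁻¹ * x0), hconj k, ?_, ?_⟩, ?_⟩
      · simp only
        rw [hst]
        exact hconj (k + 1)
      · simp only
        group
      · apply Subtype.ext
        simp only
        rw [← mul_assoc, hu, one_mul]
  rw [Nat.card_congr e, Nat.card_zpowers, hx0]

end bd

end H60.SO
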