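import Cfsg.Agent.Lib.H60.SO5

/-!
There is no simple group of order 1512.
-/

set_option autoImplicit false
set_option linter.unusedSectionVars false

namespace H60.SO

open Cfsg H18.CharBasic H18.CharOrtho H18.CharInd H21.PLat H21.BK H21.BT H21.NE
open scoped ComplexConjugate

universe u

section bd

variable {G : Type u} [Group G] [Fintype G] [Fintype (IrrCharacter G)] {p : ℕ} [hp : Fact p.Prime]
  {x0 : G} {a : IrrCharacter G → ℤ} {Y : Finset (IrrCharacter G)} {ε : ℤ} {e n c : ℕ}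

theorem card_cent (h : BD G p x0 a Y ε e n c) (hc : c = 1) :
    Nat.card (Subgroup.centralizer ({x0} : Set G)) = p := by
  have h1 := (CC_mul h.hx0 h.hidx).2
  rw [h.hc, hc, mul_one] at h1
  have h2 := centralizer_pw h.hx0 (k := 1) one_ne_zero
  rw [pw_one h.hx0] at h2
  rw [h2]
  exact h1

/-- if `e = p - 1 = 6` and `c = 1` there is an element of order 6 whose cube inverts `x0` -/
theorem exists_six (h : BD G p x0 a Y ε e n c) (hc : c = 1) (hp7 : p = 7) (he : e = 6) :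
    ∃ w : G, orderOf w = 6 ∧ (w ^ 3) * x0 * (w ^ 3)⁻¹ = x0⁻¹ := by
  classical
  subst hp7
  subst he
  subst hc
  obtain ⟨g0, hg0, hg6, hgen⟩ := exists_gen h.hx0
  have hCc := card_cent h rfl
  have hCC : Subgroup.centralizer (Subgroup.zpowers x0 : Set G) =
      Subgroup.centralizer ({x0} : Set G) := by
    have h2 := centralizer_pw h.hx0 (k := 1) one_ne_zero
    rw [pw_one h.hx0] at h2
    exact h2.symm
  rw [hCC] at hg6 hgen
  have hNc := h.hcardN
  have h7 : ∀ z ∈ Subgroup.centralizer ({x0} : Set G), z ^ 7 = 1 := by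
    intro z hz
    have h1 := pow_card_eq_one' (G := Subgroup.centralizer ({x0} : Set G)) (x := ⟨z, hz⟩)
    rw [hCc] at h1
    exact congrArg Subtype.val h1
  obtain ⟨w, hw⟩ : ∃ w, w = g0 ^ 7 := ⟨_, rfl⟩
  have hg6' : g0 ^ 6 ∈ Subgroup.centralizer ({x0} : Set G) := hg6
  have hw6 : w ^ 6 = 1 := by
    rw [hw, ← pow_mul, show 7 * 6 = 6 * 7 by norm_num, pow_mul]
    exact h7 _ hg6'
  have hwN : w ∈ Subgroup.normalizer (Subgroup.zpowers x0 : Set G) := by
    rw [hw]; exact pow_mem hg0 7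
  have hd : orderOf w ∣ 6 := orderOf_dvd_of_pow_eq_one hw6
  have hdpos := orderOf_pos w
  -- counting
  have hcount : 42 ≤ orderOf w * 7 := by
    have h1 : (Subgroup.normalizer (Subgroup.zpowers x0 : Set G) : Set G) ⊆
        (fun q : ℕ × G => w ^ q.1 * q.2) '' (((Finset.range (orderOf w)) : Set ℕ) ×ˢ
          ((Subgroup.centralizer ({x0} : Set G) : Subgroup G) : Set G)) := by
      intro g hg
      obtain ⟨k, z, hz, rfl⟩ := hgen g hg
      have hg0w : g0 = w * (g0 ^ 6)⁻¹ := by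
        rw [hw, ← pow_sub_mul_pow g0 (show 6 ≤ 7 by norm_num)]
        group
      have hcom : Commute w (g0 ^ 6)⁻¹ := by
        rw [hw]
        exact ((Commute.refl g0).pow_pow 7 6).inv_right
      refine ⟨(k % orderOf w, ((g0 ^ 6)⁻¹) ^ k * z), ⟨?_, ?_⟩, ?_⟩
      · rw [Finset.mem_coe, Finset.mem_range]
        exact Nat.mod_lt _ hdpos
      · exact mul_mem (pow_mem (inv_mem hg6') k) hz
      · simp only
        rw [pow_mod_orderOf, ← mul_assoc, ← hcom.mul_pow, ← hg0w]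
    have h2 := Set.ncard_le_ncard h1 (Set.toFinite _)
    have h3 := Set.ncard_image_le (s := ((Finset.range (orderOf w)) : Set ℕ) ×ˢ
          ((Subgroup.centralizer ({x0} : Set G) : Subgroup G) : Set G))
          (f := fun q : ℕ × G => w ^ q.1 * q.2) ((Finset.finite_toSet _).prod (Set.toFinite _))
    have h4 : (((Finset.range (orderOf w)) : Set ℕ) ×ˢ
          ((Subgroup.centralizer ({x0} : Set G) : Subgroup G) : Set G)).ncard = orderOf w * 7 := by
      rw [Set.ncard_prod, Set.ncard_coe_finset, Finset.card_range]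
      congr 1
    have h5 : (Subgroup.normalizer (Subgroup.zpowers x0 : Set G) : Set G).ncard = 42 := by
      have : (Subgroup.normalizer (Subgroup.zpowers x0 : Set G) : Set G).ncard =
        Nat.card (Subgroup.normalizer (Subgroup.zpowers x0 : Set G)) := rfl
      rw [this, hNc]
    rw [h5] at h2
    rw [h4] at h3
    omega
  have hdle := Nat.le_of_dvd (by norm_num) hd
  have ho : orderOf w = 6 := by omega
  refine ⟨w, ho, ?_⟩
  -- the cube inverts
  obtain ⟨b, hb⟩ := exists_conj_pw h.hx0 (⟨w ^ 3, pow_mem hwN 3⟩ :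
    Subgroup.normalizer (Subgroup.zpowers x0 : Set G))
  simp only at hb
  have hb2 := pw_conj b (w ^ 3) h.hx0 hb
  have h8 : w ^ 3 * pw x0 b * (w ^ 3)⁻¹ = x0 := by
    rw [hb]
    have h9 : w ^ 3 * (w ^ 3 * x0 * (w ^ 3)⁻¹) * (w ^ 3)⁻¹ = w ^ 6 * x0 * (w ^ 6)⁻¹ := by group
    rw [h9, hw6]; group
  rw [h8] at hb2
  have hbb : b * b = 1 := by
    apply pw_inj h.hx0
    rw [← hb2, pw_one h.hx0]
  rcases mul_self_eq_one_iff.1 hbb with h9 | h9
  · exfalso
    rw [h9, pw_one h.hx0] at hb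
    have h10 : w ^ 3 ∈ Subgroup.centralizer ({x0} : Set G) := by
      rw [Subgroup.mem_centralizer_singleton_iff]
      calc w ^ 3 * x0 = (w ^ 3 * x0 * (w ^ 3)⁻¹) * w ^ 3 := by group
        _ = x0 * w ^ 3 := by rw [← hb]
    have h11 := h7 _ h10
    rw [← pow_mul] at h11
    have h12 := orderOf_dvd_of_pow_eq_one h11
    rw [ho] at h12
    norm_num at h12
  · rw [← hb, h9, ← pw_inv h.hx0, pw_one h.hx0]

end bd

theorem arith1512 {γ A B s q : ℤ} (hγ : 1 ≤ γ)
    (E1 : (6 * γ) ^ 2 = 216 - 36 * A ^ 2 + 27 * q - 8 * B ^ 2)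
    (E2 : 1 - A + s - B = 0) (E3 : 1 + A ^ 2 + q + B ^ 2 ≤ 6 * γ) (E4 : (2 : ℤ) ∣ q - s)
    (E5 : s ^ 2 ≤ 4 * q) : False := by
  have h1 : 36 * γ ^ 2 - 162 * γ + 63 * A ^ 2 + 35 * B ^ 2 ≤ 189 := by nlinarith
  have h2 : γ ≤ 5 := by nlinarith [sq_nonneg A, sq_nonneg B]
  have h3 : A ≤ 2 := by nlinarith [sq_nonneg B, sq_nonneg (4 * γ - 9)]
  have h4 : -2 ≤ A := by nlinarith [sq_nonneg B, sq_nonneg (4 * γ - 9)]
  have h5 : B ≤ 3 := by nlinarith [sq_nonneg A, sq_nonneg (4 * γ - 9)]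
  have h6 : -3 ≤ B := by nlinarith [sq_nonneg A, sq_nonneg (4 * γ - 9)]
  obtain ⟨m, hm⟩ := E4
  have h7 : s = B + A - 1 := by linarith
  subst h7
  clear E2
  have key : ∀ γ ∈ Finset.Icc (1 : ℤ) 5, ∀ A ∈ Finset.Icc (-2 : ℤ) 2, ∀ B ∈ Finset.Icc (-3 : ℤ) 3,
      ((6 * γ) ^ 2 - 216 + 36 * A ^ 2 + 8 * B ^ 2) % 27 = 0 →
      1 + A ^ 2 + ((6 * γ) ^ 2 - 216 + 36 * A ^ 2 + 8 * B ^ 2) / 27 + B ^ 2 ≤ 6 * γ →
      (B + A - 1) ^ 2 ≤ 4 * (((6 * γ) ^ 2 - 216 + 36 * A ^ 2 + 8 * B ^ 2) / 27) →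
      (((6 * γ) ^ 2 - 216 + 36 * A ^ 2 + 8 * B ^ 2) / 27 - (B + A - 1)) % 2 ≠ 0 := by
    decide +kernel
  have hq : (6 * γ) ^ 2 - 216 + 36 * A ^ 2 + 8 * B ^ 2 = 27 * q := by linarith
  have hq' : 27 * q / 27 = q := by omega
  have := key γ (Finset.mem_Icc.2 ⟨hγ, h2⟩) A (Finset.mem_Icc.2 ⟨h4, h3⟩) B (Finset.mem_Icc.2 ⟨h6, h5⟩)
    (by rw [hq]; omega) (by rw [hq, hq']; exact E3) (by rw [hq, hq']; exact E5)
  rw [hq, hq'] at this
  omega

theorem no1512 {G : Type u} [Group G] [Finite G] [IsSimpleGroup G] (hN : Nat.card G = 1512) :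
    False := by
  classical
  have f7 : Fact (Nat.Prime 7) := ⟨by norm_num⟩
  let _ : Fintype G := Fintype.ofFinite G
  let _ : Fintype (Cfsg.IrrCharacter G) := Fintype.ofFinite _
  have hG := H21.NE.not_comm_of_card hN (by norm_num)
  obtain ⟨x0, a, Y, ε, e, n, c, h, hmem⟩ := H21.NE.main2 hG hN 7 61 [(2, 8), (3, 27)] (by
    intro x hx
    simp only [List.mem_cons, List.not_mem_nil, or_false] at hx
    rcases hx with rfl | rfl <;> norm_num)
    [(36, 6, [0, 4, 1, 0]), (36, 6, [1, 3, 1, 0]), (36, 6, [1, 4, 0, 0])] (by decide +kernel)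
  have hve : 1 + n * 7 = 36 ∧ e = 6 ∧
      ((cands 1512 7 (1 + n * 7) e c 61).map (cnt (SS a)) = [0, 4, 1, 0] ∨
      (cands 1512 7 (1 + n * 7) e c 61).map (cnt (SS a)) = [1, 3, 1, 0] ∨
      (cands 1512 7 (1 + n * 7) e c 61).map (cnt (SS a)) = [1, 4, 0, 0]) := by
    simp only [List.mem_cons, List.not_mem_nil, or_false, Prod.mk.injEq] at hmem
    tauto
  obtain ⟨hv, he, hcnt⟩ := hve
  subst he
  have hn : n = 5 := by omega
  subst hn
  have hc : c = 1 := by
    have h1 := h.hcard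
    rw [hN] at h1
    omega
  subst hc
  have hL : H21.NE.cands 1512 7 (1 + 5 * 7) 6 1 61 = [6, 8, 27, 36] := by decide +kernel
  rw [hL] at hcnt
  simp only [List.map_cons, List.map_nil, List.cons.injEq, and_true] at hcnt
  obtain ⟨θ, hθ⟩ := h.exists_Y
  obtain ⟨-, d2, -⟩ := H21.NE.degree_eq h (by norm_num) hG (B := 61) (by rw [hN]; norm_num) hθ
  rw [hN, hL] at d2
  simp only [List.map_cons, List.map_nil, List.sum_cons, List.sum_nil, H21.NE.sg] at d2
  -- Y = {θ}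
  have hY1 : Y.card = 1 := by
    have := h.hcardY
    omega
  have hYθ : Y = {θ} := by
    obtain ⟨y, hy⟩ := Finset.card_eq_one.1 hY1
    rw [hy, Finset.mem_singleton] at hθ
    rw [hy, hθ]
  have hθS : θ ∉ SS a := fun h0 => (mem_SS.1 h0).1 (h.hYa θ hθ)
  -- degree data
  have hdat : -ε = sg 7 (charDegree (θ : G → ℂ)) ∧
      cnt (insert θ (SS a)) 6 = 1 ∧ cnt (insert θ (SS a)) 8 = 4 ∧ cnt (insert θ (SS a)) 27 = 1 ∧
      (∀ χ ∈ insert θ (SS a), charDegree (χ : G → ℂ) ∈ ({6, 8, 27} : Finset ℕ)) := by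
    have hcz : ∀ D, cnt (SS a) D = 0 → ∀ χ ∈ SS a, charDegree (χ : G → ℂ) ≠ D := by
      intro D hD χ hχ hχD
      rw [cnt, Finset.card_eq_zero] at hD
      have : χ ∈ (SS a).filter (fun χ : IrrCharacter G => charDegree (χ : G → ℂ) = D) :=
        Finset.mem_filter.2 ⟨hχ, hχD⟩
      rw [hD] at this
      simp at this
    have hins : ∀ D, cnt (insert θ (SS a)) D =
        cnt (SS a) D + if charDegree (θ : G → ℂ) = D then 1 else 0 := by
      intro D
      rw [cnt, cnt, Finset.filter_insert]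
      split_ifs with h0
      · rw [Finset.card_insert_of_notMem (fun h1 => hθS (Finset.mem_filter.1 h1).1)]
      · rw [add_zero]
    have hdegs : ∀ χ ∈ SS a, charDegree (χ : G → ℂ) ∈ ({6, 8, 27, 36} : Finset ℕ) := by
      intro χ hχ
      have h1 := mem_cands h (by norm_num) hG (B := 61) (by rw [hN]; norm_num) hχ
      rw [hN, hL] at h1
      simpa using h1
    have h36 : cnt (SS a) 36 = 0 := by
      rcases hcnt with h1 | h1 | h1 <;> exact h1.2.2.2
    have hdegs' : ∀ χ ∈ SS a, charDegree (χ : G → ℂ) ∈ ({6, 8, 27} : Finset ℕ) := by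
      intro χ hχ
      have h1 := hdegs χ hχ
      have h2 := hcz 36 h36 χ hχ
      simp only [Finset.mem_insert, Finset.mem_singleton] at h1 ⊢
      tauto
    have hθd : (charDegree (θ : G → ℂ) = 6 ∧ ε = 1 ∧ cnt (SS a) 6 = 0 ∧ cnt (SS a) 8 = 4 ∧
        cnt (SS a) 27 = 1) ∨ (charDegree (θ : G → ℂ) = 8 ∧ ε = -1 ∧ cnt (SS a) 6 = 1 ∧
        cnt (SS a) 8 = 3 ∧ cnt (SS a) 27 = 1) ∨ (charDegree (θ : G → ℂ) = 27 ∧ ε = 1 ∧
        cnt (SS a) 6 = 1 ∧ cnt (SS a) 8 = 4 ∧ cnt (SS a) 27 = 0) := by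
      rcases hcnt with ⟨h1, h2, h3, h4⟩ | ⟨h1, h2, h3, h4⟩ | ⟨h1, h2, h3, h4⟩ <;>
      rw [h1, h2, h3, h4] at d2 <;> norm_num at d2
      · left
        rcases h.hε with h5 | h5 <;> rw [h5] at d2
        · exact ⟨by omega, h5, h1, h2, h3⟩
        · omega
      · right; left
        rcases h.hε with h5 | h5 <;> rw [h5] at d2
        · omega
        · exact ⟨by omega, h5, h1, h2, h3⟩
      · right; right
        rcases h.hε with h5 | h5 <;> rw [h5] at d2
        · exact ⟨by omega, h5, h1, h2, h3⟩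
        · omega
    rw [hins, hins, hins]
    rcases hθd with ⟨h1, h2, h3, h4, h5⟩ | ⟨h1, h2, h3, h4, h5⟩ | ⟨h1, h2, h3, h4, h5⟩ <;>
    rw [h1, h2, h3, h4, h5] <;>
    refine ⟨by decide, by norm_num, by norm_num, by norm_num, ?_⟩ <;>
    · intro χ hχ
      rw [Finset.mem_insert] at hχ
      rcases hχ with hχ | hχ
      · rw [hχ, h1]; decide
      · exact hdegs' χ hχ
  obtain ⟨hεs, n6, n8, n27, hTd⟩ := hdat
  obtain ⟨T, hT⟩ : ∃ T, T = insert θ (SS a) := ⟨_, rfl⟩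
  rw [← hT] at n6 n8 n27 hTd
  -- sums over the block
  have hsum : ∀ F : IrrCharacter G → ℂ, ∑ χ : IrrCharacter G, (a χ : ℂ) * F χ - ε * F θ =
      F (triv G) + ∑ χ ∈ T, ((sg 7 (charDegree (χ : G → ℂ)) : ℤ) : ℂ) * F χ := by
    intro F
    rw [hT, Finset.sum_insert hθS, ← hεs]
    have h1 : ∑ χ : IrrCharacter G, (a χ : ℂ) * F χ =
        F (triv G) + ∑ χ ∈ SS a, ((sg 7 (charDegree (χ : G → ℂ)) : ℤ) : ℂ) * F χ := by
      have h2 : ∑ χ : IrrCharacter G, (a χ : ℂ) * F χ =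
          ∑ χ ∈ insert (triv G) (SS a), (a χ : ℂ) * F χ := by
        symm
        apply Finset.sum_subset (Finset.subset_univ _)
        intro χ _ hχ
        rw [Finset.mem_insert, mem_SS] at hχ
        push Not at hχ
        by_cases h3 : a χ = 0
        · rw [h3]; simp
        · exact absurd (hχ.2 h3) hχ.1
      rw [h2, Finset.sum_insert (fun h0 => (mem_SS.1 h0).2 rfl), h.htriv]
      congr 1
      · push_cast; ring
      · refine Finset.sum_congr rfl fun χ hχ => ?_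
        rw [(deg_mod h (by norm_num) (mem_SS.1 hχ).1).2]
    rw [h1]
    push_cast
    ring
  obtain ⟨χ6, h6⟩ := Finset.card_eq_one.1 n6
  obtain ⟨χ27, h27⟩ := Finset.card_eq_one.1 n27
  have hfib : ∀ F : IrrCharacter G → ℂ, ∑ χ ∈ T, F χ = F χ6 +
      ∑ χ ∈ T.filter (fun χ : IrrCharacter G => charDegree (χ : G → ℂ) = 8), F χ + F χ27 := by
    intro F
    rw [← Finset.sum_fiberwise_of_maps_to hTd F, Finset.sum_insert (by decide),
      Finset.sum_insert (by decide), Finset.sum_singleton, h6, h27, Finset.sum_singleton,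
      Finset.sum_singleton, add_assoc]
  have d6 : χ6 ∈ T ∧ charDegree (χ6 : G → ℂ) = 6 := by
    have : χ6 ∈ T.filter (fun χ : IrrCharacter G => charDegree (χ : G → ℂ) = 6) := by
      rw [h6]; exact Finset.mem_singleton_self _
    exact Finset.mem_filter.1 this
  have d27 : χ27 ∈ T ∧ charDegree (χ27 : G → ℂ) = 27 := by
    have : χ27 ∈ T.filter (fun χ : IrrCharacter G => charDegree (χ : G → ℂ) = 27) := by
      rw [h27]; exact Finset.mem_singleton_self _
    exact Finset.mem_filter.1 this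
  -- the involution
  obtain ⟨w, hw6, hinv⟩ := exists_six h rfl rfl rfl
  obtain ⟨u, hu⟩ : ∃ u, u = w ^ 3 := ⟨_, rfl⟩
  rw [← hu] at hinv
  have huu : u * u = 1 := by
    rw [hu, ← pow_add]
    have h0 := pow_orderOf_eq_one w
    rw [hw6] at h0
    exact h0
  have hu7 : ¬ 7 ∣ orderOf u := by
    intro h0
    have h1 : orderOf u ∣ 2 := orderOf_dvd_of_pow_eq_one (by rw [pow_two]; exact huu)
    have h2 := h0.trans h1
    norm_num at h2
  have hv : ∀ χ : IrrCharacter G, ∃ v : ℤ, (χ : G → ℂ) u = v := fun χ =>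
    int_of_two (isCharacter_of_isIrr χ.2) huu
  choose v hv using hv
  have hvt : v (triv G) = 1 := by
    have h1 := hv (triv G)
    have h2 : ((triv G : IrrCharacter G) : G → ℂ) u = 1 := by simp
    rw [h2] at h1
    exact_mod_cast h1.symm
  -- counting pairs
  have hpairs := card_pairs_inv h.hx0 (by norm_num) (card_cent h rfl) huu hinv
  have hcm := H18.CharCentral.class_mult (G := G) u u x0
  rw [hpairs, struct h rfl hu7 hu7 hθ] at hcm
  have hKC := card_isConj_mul_card_centralizer (G := G) u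
  obtain ⟨K, hK⟩ : ∃ K, K = Nat.card {x : G // IsConj u x} := ⟨_, rfl⟩
  obtain ⟨C, hC⟩ : ∃ C, C = Nat.card (Subgroup.centralizer ({u} : Set G)) := ⟨_, rfl⟩
  rw [← hK, ← hC, hN] at hKC
  rw [← hK, hN] at hcm
  have hsF := hsum (fun χ => (χ : G → ℂ) u * (χ : G → ℂ) u / (χ : G → ℂ) 1)
  rw [hfib] at hsF
  simp only at hsF
  rw [hsF] at hcm
  have hdeg : ∀ χ : IrrCharacter G, (χ : G → ℂ) 1 = (charDegree (χ : G → ℂ) : ℂ) := fun χ =>
    (H82.Deg.coe_charDegree' χ).symm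
  obtain ⟨q, hq⟩ : ∃ q : ℤ, q = ∑ χ ∈ T.filter (fun χ : IrrCharacter G =>
    charDegree (χ : G → ℂ) = 8), v χ ^ 2 := ⟨_, rfl⟩
  obtain ⟨s, hs⟩ : ∃ s : ℤ, s = ∑ χ ∈ T.filter (fun χ : IrrCharacter G =>
    charDegree (χ : G → ℂ) = 8), v χ := ⟨_, rfl⟩
  have hS8 : ∑ χ ∈ T.filter (fun χ : IrrCharacter G => charDegree (χ : G → ℂ) = 8),
      ((sg 7 (charDegree (χ : G → ℂ)) : ℤ) : ℂ) * ((χ : G → ℂ) u * (χ : G → ℂ) u / (χ : G → ℂ) 1) =
      (q : ℂ) / 8 := by
    rw [hq]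
    push_cast
    rw [Finset.sum_div]
    refine Finset.sum_congr rfl fun χ hχ => ?_
    rw [hv χ, hdeg χ, (Finset.mem_filter.1 hχ).2]
    norm_num [sg]
    ring
  rw [hS8, hv χ6, hv χ27, hdeg χ6, hdeg χ27, d6.2, d27.2] at hcm
  have hKC' : (K : ℂ) * C = 1512 := by exact_mod_cast hKC
  have hC0 : (C : ℂ) ≠ 0 := by
    intro h0
    rw [h0, mul_zero] at hKC'
    norm_num at hKC'
  have hKe : (K : ℂ) = 1512 / C := by
    field_simp
    exact hKC'
  have E1 : ((C : ℤ)) ^ 2 = 216 - 36 * (v χ6) ^ 2 + 27 * q - 8 * (v χ27) ^ 2 := by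
    have h1 : ((C : ℂ)) ^ 2 = 216 - 36 * (v χ6) ^ 2 + 27 * q - 8 * (v χ27) ^ 2 := by
      rw [hKe] at hcm
      norm_num [sg] at hcm
      field_simp at hcm
      linear_combination (1 / 9072 : ℂ) * hcm
    exact_mod_cast h1
  -- the linear relation
  have hrel := h.hrel θ hθ u hu7
  have hsL := hsum (fun χ => (χ : G → ℂ) u)
  rw [hfib] at hsL
  simp only at hsL
  rw [← hrel, sub_self] at hsL
  have hS8' : ∑ χ ∈ T.filter (fun χ : IrrCharacter G => charDegree (χ : G → ℂ) = 8),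
      ((sg 7 (charDegree (χ : G → ℂ)) : ℤ) : ℂ) * ((χ : G → ℂ) u) = (s : ℂ) := by
    rw [hs]
    push_cast
    refine Finset.sum_congr rfl fun χ hχ => ?_
    rw [hv χ, (Finset.mem_filter.1 hχ).2]
    norm_num [sg]
  rw [hS8', hv χ6, hv χ27, d6.2, d27.2] at hsL
  have E2 : 1 - v χ6 + s - v χ27 = 0 := by
    have h1 : (1 : ℂ) - v χ6 + s - v χ27 = 0 := by
      norm_num [sg] at hsL
      linear_combination -hsL
    exact_mod_cast h1
  -- column orthogonality
  have hcol := column_orthogonality (G := G) u u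
  rw [if_pos (IsConj.refl u), ← hC] at hcol
  have hcol' : ∑ χ : IrrCharacter G, v χ ^ 2 = (C : ℤ) := by
    have h1 : ∑ χ : IrrCharacter G, ((v χ : ℂ)) ^ 2 = (C : ℂ) := by
      rw [← hcol]
      refine Finset.sum_congr rfl fun χ _ => ?_
      rw [hv χ]
      simp [pow_two]
    exact_mod_cast h1
  have hfibZ : ∑ χ ∈ T, v χ ^ 2 = v χ6 ^ 2 + q + v χ27 ^ 2 := by
    have h1 := hfib (fun χ => (v χ : ℂ) ^ 2)
    have h2 : (∑ χ ∈ T.filter (fun χ : IrrCharacter G => charDegree (χ : G → ℂ) = 8),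
      (v χ : ℂ) ^ 2) = (q : ℂ) := by rw [hq]; push_cast; rfl
    rw [h2] at h1
    exact_mod_cast h1
  have htT : triv G ∉ T := by
    rw [hT, Finset.mem_insert]
    rintro (h0 | h0)
    · rw [← h0] at hθ
      exact h.triv_notin hθ rfl
    · exact (mem_SS.1 h0).2 rfl
  have E3 : 1 + v χ6 ^ 2 + q + v χ27 ^ 2 ≤ (C : ℤ) := by
    rw [← hcol']
    have h1 : ∑ χ ∈ insert (triv G) T, v χ ^ 2 ≤ ∑ χ : IrrCharacter G, v χ ^ 2 :=
      Finset.sum_le_sum_of_subset_of_nonneg (Finset.subset_univ _) (fun _ _ _ => sq_nonneg _)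
    rw [Finset.sum_insert htT, hfibZ, hvt] at h1
    linarith
  have E4 : (2 : ℤ) ∣ q - s := by
    rw [hq, hs, ← Finset.sum_sub_distrib]
    apply Finset.dvd_sum
    intro χ _
    have h1 : v χ ^ 2 - v χ = v χ * (v χ - 1) := by ring
    rw [h1]
    exact (Int.even_mul_pred_self (v χ)).two_dvd
  have E5 : s ^ 2 ≤ 4 * q := by
    have h1 := sq_sum_le_card_mul_sum_sq (s := T.filter (fun χ : IrrCharacter G =>
      charDegree (χ : G → ℂ) = 8)) (f := v)
    rw [← hs, ← hq] at h1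
    have h2 : ((T.filter (fun χ : IrrCharacter G => charDegree (χ : G → ℂ) = 8)).card : ℤ) = 4 := by
      exact_mod_cast n8
    rw [h2] at h1
    exact h1
  -- six divides
  have h6C : 6 ∣ C := by
    rw [hC, ← hw6]
    have h1 : w ∈ Subgroup.centralizer ({u} : Set G) := by
      rw [Subgroup.mem_centralizer_singleton_iff, hu, ← pow_succ, ← pow_succ']
    have h2 := orderOf_dvd_natCard (⟨w, h1⟩ : Subgroup.centralizer ({u} : Set G))
    rwa [Subgroup.orderOf_mk] at h2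
  obtain ⟨γ, hγ⟩ := h6C
  have hγ0 : γ ≠ 0 := by
    rintro rfl
    rw [mul_zero] at hγ
    rw [hγ] at hKC
    omega
  have hCγ : (C : ℤ) = 6 * γ := by rw [hγ]; push_cast; ring
  rw [hCγ] at E1 E3
  exact arith1512 (γ := γ) (by omega) E1 E2 E3 E4 E5

end H60.SO
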