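import Mathlib

/-!
Coordinates on an extraspecial group of order 27 and exponent 3 with generators inverted by an involution.
-/

set_option autoImplicit false
set_option linter.unusedSectionVars false

open Subgroup

namespace H60.SP

universe u

section pw

variable {X : Type u} [Group X]

/-- powers with exponents in `ZMod 3` -/
def pw (g : X) (i : ZMod 3) : X := g ^ i.val

theorem pow_mod3 {g : X} (hg : g ^ 3 = 1) (n : ℕ) : g ^ n = g ^ (n % 3) := by
  conv_lhs => rw [← Nat.mod_add_div n 3, pow_add, pow_mul, hg, one_pow, mul_one]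

theorem pw_natCast {g : X} (hg : g ^ 3 = 1) (n : ℕ) : pw g (n : ZMod 3) = g ^ n := by
  unfold pw
  rw [ZMod.val_natCast, ← pow_mod3 hg]

theorem pw_zero (g : X) : pw g 0 = 1 := by unfold pw; rw [ZMod.val_zero, pow_zero]

theorem pw_one (g : X) : pw g 1 = g := by
  unfold pw
  have : (1 : ZMod 3).val = 1 := rfl
  rw [this, pow_one]

theorem pw_add {g : X} (hg : g ^ 3 = 1) (i j : ZMod 3) : pw g (i + j) = pw g i * pw g j := by
  unfold pw
  rw [ZMod.val_add, ← pow_mod3 hg, pow_add]

theorem pw_neg {g : X} (hg : g ^ 3 = 1) (i : ZMod 3) : pw g (-i) = (pw g i)⁻¹ := by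
  rw [eq_inv_iff_mul_eq_one, ← pw_add hg, neg_add_cancel, pw_zero]

theorem pw_inj {g : X} (hg : g ^ 3 = 1) (hne : g ≠ 1) {i j : ZMod 3} (h : pw g i = pw g j) : i = j := by
  have h1 : pw g (i - j) = 1 := by
    rw [sub_eq_add_neg, pw_add hg, pw_neg hg, h, mul_inv_cancel]
  have h2 : orderOf g = 3 := orderOf_eq_prime hg hne
  unfold pw at h1
  have h3 := orderOf_dvd_of_pow_eq_one h1
  rw [h2] at h3
  have h4 := ZMod.val_lt (i - j)
  have h5 : (i - j).val = 0 := Nat.eq_zero_of_dvd_of_lt h3 h4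
  exact sub_eq_zero.1 ((ZMod.val_eq_zero _).1 h5)

theorem pw_conj (x g : X) (i : ZMod 3) : x * pw g i * x⁻¹ = pw (x * g * x⁻¹) i := by
  unfold pw
  rw [conj_pow]

theorem pw_mul_exp {g : X} (hg : g ^ 3 = 1) (i j : ZMod 3) : pw (pw g i) j = pw g (i * j) := by
  have h1 : pw g i = g ^ i.val := rfl
  have h2 : pw (pw g i) j = (g ^ i.val) ^ j.val := rfl
  rw [h2, ← pow_mul, ← pw_natCast hg, Nat.cast_mul, ZMod.natCast_zmod_val, ZMod.natCast_zmod_val]

end pw

/-- the basic relations -/
structure Heis {X : Type u} [Group X] (a b z : X) : Prop where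
  ha : a ^ 3 = 1
  hb : b ^ 3 = 1
  hz : z ^ 3 = 1
  hz1 : z ≠ 1
  hza : z * a = a * z
  hzb : z * b = b * z
  hab : a * b = z * (b * a)

/-- coordinates -/
def S {X : Type u} [Group X] (a b z : X) (v : ZMod 3 × ZMod 3) (k : ZMod 3) : X :=
  pw a v.1 * pw b v.2 * pw z (v.1 * v.2 + k)

/-- the symplectic form -/
def dt (v w : ZMod 3 × ZMod 3) : ZMod 3 := v.1 * w.2 - v.2 * w.1

namespace Heis

variable {X : Type u} [Group X] {a b z : X} (h : Heis a b z)

include h

theorem comm_za (i j : ZMod 3) : pw z i * pw a j = pw a j * pw z i :=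
  ((show Commute z a from h.hza).pow_pow _ _).eq

theorem comm_zb (i j : ZMod 3) : pw z i * pw b j = pw b j * pw z i :=
  ((show Commute z b from h.hzb).pow_pow _ _).eq

theorem ab_nat (m n : ℕ) : a ^ m * b ^ n = z ^ (m * n) * (b ^ n * a ^ m) := by
  have hza : Commute z a := h.hza
  have hzb : Commute z b := h.hzb
  have h1 : ∀ m : ℕ, a ^ m * b = z ^ m * (b * a ^ m) := by
    intro m
    induction m with
    | zero => simp
    | succ m ih =>
      have e2 : a ^ m * z = z * a ^ m := (hza.pow_right m).eq.symm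
      calc a ^ (m + 1) * b = a ^ m * (a * b) := by rw [pow_succ, mul_assoc]
        _ = a ^ m * z * (b * a) := by rw [h.hab, mul_assoc]
        _ = z * (a ^ m * b) * a := by rw [e2]; simp only [mul_assoc]
        _ = z * (z ^ m * (b * a ^ m)) * a := by rw [ih]
        _ = z ^ (m + 1) * (b * a ^ (m + 1)) := by rw [pow_succ' z, pow_succ a]; simp only [mul_assoc]
  induction n with
  | zero => simp
  | succ n ih =>
    rw [pow_succ b, ← mul_assoc, ih]
    have e1 : z ^ (m * n) * (b ^ n * a ^ m) * b = z ^ (m * n) * (b ^ n * (a ^ m * b)) := by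
      simp only [mul_assoc]
    rw [e1, h1, ← mul_assoc (b ^ n) (z ^ m), ← (hzb.pow_pow m n).eq, Nat.mul_succ, pow_add]
    simp only [mul_assoc]

theorem comm_ab (i j : ZMod 3) : pw a i * pw b j = pw z (i * j) * (pw b j * pw a i) := by
  have h1 := h.ab_nat i.val j.val
  have h2 : pw z (i * j) = z ^ (i.val * j.val) := by
    rw [← pw_natCast h.hz, Nat.cast_mul, ZMod.natCast_zmod_val, ZMod.natCast_zmod_val]
  rw [h2]
  exact h1

theorem comm_ba (i j : ZMod 3) : pw b j * pw a i = pw a i * pw b j * pw z (-(i * j)) := by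
  rw [h.comm_ab, pw_neg h.hz]
  have h1 : pw z (i * j) * (pw b j * pw a i) = (pw b j * pw a i) * pw z (i * j) := by
    rw [← mul_assoc, h.comm_zb, mul_assoc, h.comm_za, mul_assoc]
  rw [h1, mul_inv_cancel_right]

theorem comm_zS (i : ZMod 3) (v : ZMod 3 × ZMod 3) (k : ZMod 3) :
    pw z i * S a b z v k = S a b z v k * pw z i := by
  unfold S
  calc pw z i * (pw a v.1 * pw b v.2 * pw z (v.1 * v.2 + k))
      = (pw z i * pw a v.1) * pw b v.2 * pw z (v.1 * v.2 + k) := by simp only [mul_assoc]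
    _ = pw a v.1 * (pw z i * pw b v.2) * pw z (v.1 * v.2 + k) := by rw [h.comm_za]; simp only [mul_assoc]
    _ = pw a v.1 * pw b v.2 * (pw z i * pw z (v.1 * v.2 + k)) := by rw [h.comm_zb]; simp only [mul_assoc]
    _ = pw a v.1 * pw b v.2 * (pw z (v.1 * v.2 + k) * pw z i) := by
        rw [← pw_add h.hz, ← pw_add h.hz, add_comm i]
    _ = _ := by simp only [mul_assoc]

theorem S_add_right (v : ZMod 3 × ZMod 3) (k l : ZMod 3) :
    S a b z v (k + l) = S a b z v k * pw z l := by
  unfold S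
  rw [← add_assoc, pw_add h.hz _ l]
  simp only [mul_assoc]

theorem S_mul (v w : ZMod 3 × ZMod 3) (k l : ZMod 3) :
    S a b z v k * S a b z w l = S a b z (v + w) (k + l - dt v w) := by
  have key : S a b z v k * S a b z w l = pw a v.1 * (pw b v.2 * pw a w.1) * pw b w.2 *
      pw z (v.1 * v.2 + k + (w.1 * w.2 + l)) := by
    unfold S
    rw [pw_add h.hz (v.1 * v.2 + k)]
    calc pw a v.1 * pw b v.2 * pw z (v.1 * v.2 + k) * (pw a w.1 * pw b w.2 * pw z (w.1 * w.2 + l))
        = pw a v.1 * pw b v.2 * (pw z (v.1 * v.2 + k) * pw a w.1) * pw b w.2 *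
          pw z (w.1 * w.2 + l) := by simp only [mul_assoc]
      _ = pw a v.1 * pw b v.2 * (pw a w.1 * pw z (v.1 * v.2 + k)) * pw b w.2 *
          pw z (w.1 * w.2 + l) := by rw [h.comm_za]
      _ = pw a v.1 * pw b v.2 * pw a w.1 * (pw z (v.1 * v.2 + k) * pw b w.2) *
          pw z (w.1 * w.2 + l) := by simp only [mul_assoc]
      _ = pw a v.1 * pw b v.2 * pw a w.1 * (pw b w.2 * pw z (v.1 * v.2 + k)) *
          pw z (w.1 * w.2 + l) := by rw [h.comm_zb]
      _ = _ := by simp only [mul_assoc]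
  rw [key, h.comm_ba]
  unfold S
  rw [Prod.fst_add, Prod.snd_add, pw_add h.ha, pw_add h.hb]
  have e1 : pw a v.1 * (pw a w.1 * pw b v.2 * pw z (-(w.1 * v.2))) * pw b w.2 *
      pw z (v.1 * v.2 + k + (w.1 * w.2 + l)) =
      pw a v.1 * pw a w.1 * (pw b v.2 * pw b w.2) *
        (pw z (-(w.1 * v.2)) * pw z (v.1 * v.2 + k + (w.1 * w.2 + l))) := by
    calc _ = pw a v.1 * pw a w.1 * pw b v.2 * (pw z (-(w.1 * v.2)) * pw b w.2) *
          pw z (v.1 * v.2 + k + (w.1 * w.2 + l)) := by simp only [mul_assoc]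
      _ = pw a v.1 * pw a w.1 * pw b v.2 * (pw b w.2 * pw z (-(w.1 * v.2))) *
          pw z (v.1 * v.2 + k + (w.1 * w.2 + l)) := by rw [h.comm_zb]
      _ = _ := by simp only [mul_assoc]
  rw [e1, ← pw_add h.hz]
  congr 2
  unfold dt
  generalize v.1 = v1
  generalize v.2 = v2
  generalize w.1 = w1
  generalize w.2 = w2
  have h3 : (3 : ZMod 3) = 0 := rfl
  linear_combination (-(w1 * v2)) * h3

theorem S_zero : S a b z 0 0 = 1 := by
  unfold S
  simp [pw_zero]

theorem S_inv (v : ZMod 3 × ZMod 3) (k : ZMod 3) : (S a b z v k)⁻¹ = S a b z (-v) (-k) := by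
  rw [inv_eq_iff_mul_eq_one, h.S_mul]
  have h1 : dt v (-v) = 0 := by unfold dt; simp; ring
  rw [add_neg_cancel, add_neg_cancel, h1, sub_zero, h.S_zero]

theorem S_zk (k : ZMod 3) : S a b z 0 k = pw z k := by
  unfold S; simp [pw_zero]

theorem S_inj {v w : ZMod 3 × ZMod 3} {k l : ZMod 3} (he : S a b z v k = S a b z w l) :
    v = w ∧ k = l := by
  -- commutators with a and b
  have hc : ∀ (u v w : ZMod 3 × ZMod 3) (k l : ZMod 3), S a b z v k = S a b z w l → dt u v = dt u w := by
    intro u v w k l he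
    have h1 : S a b z u 0 * S a b z v k = S a b z v k * S a b z u 0 * pw z (dt u v) := by
      rw [h.S_mul, h.S_mul, ← h.S_add_right]
      congr 1
      · rw [add_comm]
      · unfold dt
        have h3 : (3 : ZMod 3) = 0 := rfl
        linear_combination (- (u.1 * v.2 - u.2 * v.1)) * h3
    have h2 : S a b z u 0 * S a b z w l = S a b z w l * S a b z u 0 * pw z (dt u w) := by
      rw [h.S_mul, h.S_mul, ← h.S_add_right]
      congr 1
      · rw [add_comm]
      · unfold dt
        have h3 : (3 : ZMod 3) = 0 := rfl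
        linear_combination (- (u.1 * w.2 - u.2 * w.1)) * h3
    rw [he, h2] at h1
    exact (pw_inj h.hz h.hz1 (mul_left_cancel h1)).symm
  have e1 := hc (1, 0) v w k l he
  have e2 := hc (0, 1) v w k l he
  unfold dt at e1 e2
  simp at e1 e2
  have hv : v = w := Prod.ext e2 e1
  subst hv
  refine ⟨rfl, ?_⟩
  unfold S at he
  have h3 := pw_inj h.hz h.hz1 (mul_left_cancel he)
  exact add_left_cancel h3

end Heis

end H60.SP
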