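import Mathlib
import Cfsg.Agent.Lib.H60.SP1

/-!
The structure of a split extension of an extraspecial group of order 27 by SL(2,3): coordinates.
-/

set_option autoImplicit false
set_option linter.unusedSectionVars false

open Subgroup Matrix

namespace H60.SP

universe u

/-- abbreviation -/
abbrev SL3 := Matrix.SpecialLinearGroup (Fin 2) (ZMod 3)

theorem sq_sq : ∀ A : SL3, ∃ B C : SL3, A = (B * B) * (C * C) := by decide +kernel

theorem gen_neg : ∀ B : SL3, B ≠ 1 → ∃ C : SL3, -1 = B ∨ -1 = B * B ∨ -1 = B * B * B ∨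
    -1 = (B * (C * B⁻¹ * C⁻¹)) * (B * (C * B⁻¹ * C⁻¹)) := by decide +kernel

theorem card_SL3 : Nat.card SL3 = 24 := by
  rw [Nat.card_eq_fintype_card]
  decide +kernel

/-- the action on column vectors -/
def act (A : SL3) (v : ZMod 3 × ZMod 3) : ZMod 3 × ZMod 3 :=
  (A 0 0 * v.1 + A 0 1 * v.2, A 1 0 * v.1 + A 1 1 * v.2)

/-- the product law -/
def Law {X : Type u} [Group X] (Φ : (ZMod 3 × ZMod 3) → ZMod 3 → SL3 → X) : Prop :=
  (∀ v k A v' k' A', Φ v k A = Φ v' k' A' → v = v' ∧ k = k' ∧ A = A') ∧ (∀ g, ∃ v k A, Φ v k A = g) ∧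
      ∀ v k A v' k' A', Φ v k A * Φ v' k' A' = Φ (v + act A v') (k + k' - dt v (act A v')) (A * A')

theorem mulEquiv_of_law {X : Type*} {Y : Type*} [Group X] [Group Y]
    (Φ : (ZMod 3 × ZMod 3) → ZMod 3 → SL3 → X) (Ψ : (ZMod 3 × ZMod 3) → ZMod 3 → SL3 → Y)
    (h1 : Law Φ) (h2 : Law Ψ) : Nonempty (X ≃* Y) := by
  classical
  have hb1 : Function.Bijective (fun p : ((ZMod 3 × ZMod 3) × ZMod 3) × SL3 => Φ p.1.1 p.1.2 p.2) := by
    refine ⟨?_, ?_⟩
    · rintro ⟨⟨v, k⟩, A⟩ ⟨⟨v', k'⟩, A'⟩ h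
      obtain ⟨e1, e2, e3⟩ := h1.1 _ _ _ _ _ _ h
      subst e1; subst e2; subst e3; rfl
    · intro g
      obtain ⟨v, k, A, h⟩ := h1.2.1 g
      exact ⟨((v, k), A), h⟩
  have hb2 : Function.Bijective (fun p : ((ZMod 3 × ZMod 3) × ZMod 3) × SL3 => Ψ p.1.1 p.1.2 p.2) := by
    refine ⟨?_, ?_⟩
    · rintro ⟨⟨v, k⟩, A⟩ ⟨⟨v', k'⟩, A'⟩ h
      obtain ⟨e1, e2, e3⟩ := h2.1 _ _ _ _ _ _ h
      subst e1; subst e2; subst e3; rfl
    · intro g
      obtain ⟨v, k, A, h⟩ := h2.2.1 g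
      exact ⟨((v, k), A), h⟩
  let E1 := Equiv.ofBijective _ hb1
  let E2 := Equiv.ofBijective _ hb2
  refine ⟨{ toEquiv := E1.symm.trans E2, map_mul' := ?_ }⟩
  intro x y
  obtain ⟨⟨⟨v, k⟩, A⟩, rfl⟩ := E1.surjective x
  obtain ⟨⟨⟨v', k'⟩, A'⟩, rfl⟩ := E1.surjective y
  have e1 : E1 ((v, k), A) * E1 ((v', k'), A') = E1 ((v + act A v', k + k' - dt v (act A v')), A * A') :=
    h1.2.2 _ _ _ _ _ _
  have e2 : E2 ((v, k), A) * E2 ((v', k'), A') = E2 ((v + act A v', k + k' - dt v (act A v')), A * A') :=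
    h2.2.2 _ _ _ _ _ _
  rw [e1]
  simp only [Equiv.toFun_as_coe, Equiv.trans_apply, Equiv.symm_apply_apply]
  exact e2.symm

section X

variable {X : Type u} [Group X]

/-- all elements centralize an element of order three of a normal subgroup of order three -/
theorem cent_z {π : X →* SL3} (hπ : Function.Surjective π) {z : X}
    (hn : ∀ g : X, g * z * g⁻¹ = z ∨ g * z * g⁻¹ = z⁻¹) (hR : ∀ r : X, π r = 1 → r * z = z * r) (g : X) :
    g * z = z * g := by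
  have hsq : ∀ g : X, (g * g) * z = z * (g * g) := by
    intro g
    have h1 : (g * g) * z * (g * g)⁻¹ = g * (g * z * g⁻¹) * g⁻¹ := by group
    have h2 : (g * g) * z * (g * g)⁻¹ = z := by
      rw [h1]
      rcases hn g with h | h
      · rw [h, h]
      · rw [h]
        have h3 : g * z⁻¹ * g⁻¹ = (g * z * g⁻¹)⁻¹ := by group
        rw [h3, h, inv_inv]
    rw [mul_inv_eq_iff_eq_mul] at h2
    exact h2
  obtain ⟨B, C, hBC⟩ := sq_sq (π g)
  obtain ⟨b, hb⟩ := hπ B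
  obtain ⟨c, hc⟩ := hπ C
  have h1 : π (g * ((b * b) * (c * c))⁻¹) = 1 := by
    rw [map_mul, map_inv, map_mul, map_mul, map_mul, hb, hc, hBC, mul_inv_cancel]
  have h2 := hR _ h1
  have h3 : g = (g * ((b * b) * (c * c))⁻¹) * ((b * b) * (c * c)) := by group
  rw [h3]
  calc (g * ((b * b) * (c * c))⁻¹) * ((b * b) * (c * c)) * z
      = (g * ((b * b) * (c * c))⁻¹) * ((b * b) * ((c * c) * z)) := by simp only [mul_assoc]
    _ = (g * ((b * b) * (c * c))⁻¹) * ((b * b) * z) * (c * c) := by rw [hsq c]; simp only [mul_assoc]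
    _ = (g * ((b * b) * (c * c))⁻¹) * z * ((b * b) * (c * c)) := by rw [hsq b]; simp only [mul_assoc]
    _ = _ := by rw [h2]; simp only [mul_assoc]

/-- the data -/
structure Dat (π : X →* SL3) (t a b z : X) : Prop where
  surj : Function.Surjective π
  t2 : t * t = 1
  pt : π t = -1
  H : Heis a b z
  ker : ∀ r : X, π r = 1 ↔ ∃ v k, r = S a b z v k
  ta : t * a * t⁻¹ = a⁻¹
  tb : t * b * t⁻¹ = b⁻¹
  zc : ∀ g : X, g * z = z * g

namespace Dat

variable {π : X →* SL3} {t a b z : X} (D : Dat π t a b z)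

include D

theorem tinv : t⁻¹ = t := by rw [inv_eq_iff_mul_eq_one]; exact D.t2

theorem zcp (g : X) (k : ZMod 3) : g * pw z k = pw z k * g :=
  ((show Commute g z from D.zc g).pow_right _).eq

theorem tS (v : ZMod 3 × ZMod 3) (k : ZMod 3) : t * S a b z v k * t⁻¹ = S a b z (-v) k := by
  unfold S
  have e1 : t * (pw a v.1 * pw b v.2 * pw z (v.1 * v.2 + k)) * t⁻¹ =
      (t * pw a v.1 * t⁻¹) * (t * pw b v.2 * t⁻¹) * (t * pw z (v.1 * v.2 + k) * t⁻¹) := by group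
  have ei : ∀ (g : X) (i : ZMod 3), g ^ 3 = 1 → pw g⁻¹ i = pw g (-i) := by
    intro g i hg
    rw [pw_neg hg]
    unfold pw
    rw [inv_pow]
  rw [e1, pw_conj, pw_conj, D.ta, D.tb, ei a _ D.H.ha, ei b _ D.H.hb, D.zcp t, mul_inv_cancel_right,
    Prod.fst_neg, Prod.snd_neg, neg_mul_neg]

/-- elements of the kernel commuting with the involution -/
theorem comm_t_ker {v : ZMod 3 × ZMod 3} {k : ZMod 3} (h : t * S a b z v k = S a b z v k * t) : v = 0 := by
  have h1 := D.tS v k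
  rw [h, mul_inv_cancel_right] at h1
  have h2 := (D.H.S_inj h1).1
  have h3 : ∀ w : ZMod 3 × ZMod 3, w = -w → w = 0 := by decide
  exact h3 v h2

/-- the action of elements commuting with `t` -/
theorem exists_f {g : X} (hg : g * t = t * g) (v : ZMod 3 × ZMod 3) :
    ∃ w : ZMod 3 × ZMod 3, g * S a b z v 0 * g⁻¹ = S a b z w 0 := by
  have h1 : π (g * S a b z v 0 * g⁻¹) = 1 := by
    rw [map_mul, map_mul, map_inv, (D.ker _).2 ⟨v, 0, rfl⟩, mul_one, mul_inv_cancel]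
  obtain ⟨w, l, hw⟩ := (D.ker _).1 h1
  refine ⟨w, ?_⟩
  have h2 : t * (g * S a b z v 0 * g⁻¹) * t⁻¹ = (g * S a b z v 0 * g⁻¹)⁻¹ := by
    have e1 : t * (g * S a b z v 0 * g⁻¹) * t⁻¹ = (t * g) * S a b z v 0 * (t * g)⁻¹ := by group
    have e2 : (g * t) * S a b z v 0 * (g * t)⁻¹ = g * (t * S a b z v 0 * t⁻¹) * g⁻¹ := by group
    rw [e1, ← hg, e2, D.tS]
    have e3 : S a b z (-v) 0 = (S a b z v 0)⁻¹ := by rw [D.H.S_inv, neg_zero]
    rw [e3]
    group
  rw [hw, D.tS, D.H.S_inv] at h2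
  have h3 := (D.H.S_inj h2).2
  have h4 : ∀ l : ZMod 3, l = -l → l = 0 := by decide
  rw [hw, h4 l h3]

/-- the function -/
noncomputable def f (g : X) (v : ZMod 3 × ZMod 3) : ZMod 3 × ZMod 3 := by
  classical
  exact if hg : g * t = t * g then (D.exists_f hg v).choose else 0

theorem f_spec {g : X} (hg : g * t = t * g) (v : ZMod 3 × ZMod 3) :
    g * S a b z v 0 * g⁻¹ = S a b z (D.f g v) 0 := by
  unfold f
  rw [dif_pos hg]
  exact (D.exists_f hg v).choose_spec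

theorem conjS {g : X} (hg : g * t = t * g) (v : ZMod 3 × ZMod 3) (k : ZMod 3) :
    g * S a b z v k * g⁻¹ = S a b z (D.f g v) k := by
  have e0 : S a b z v k = S a b z v 0 * pw z k := by rw [← D.H.S_add_right, zero_add]
  have e1 : g * (S a b z v 0 * pw z k) * g⁻¹ = (g * S a b z v 0 * g⁻¹) * (g * pw z k * g⁻¹) := by group
  rw [e0, e1, D.f_spec hg, D.zcp g, mul_inv_cancel_right, ← D.H.S_add_right, zero_add]

theorem f_add {g : X} (hg : g * t = t * g) (v w : ZMod 3 × ZMod 3) :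
    D.f g (v + w) = D.f g v + D.f g w ∧ dt (D.f g v) (D.f g w) = dt v w := by
  have h1 : g * (S a b z v 0 * S a b z w 0) * g⁻¹ = (g * S a b z v 0 * g⁻¹) * (g * S a b z w 0 * g⁻¹) := by
    group
  rw [D.H.S_mul, D.conjS hg, D.f_spec hg, D.f_spec hg, D.H.S_mul] at h1
  obtain ⟨e1, e2⟩ := D.H.S_inj h1
  refine ⟨e1, ?_⟩
  linear_combination e2

theorem f_mul {g h : X} (hg : g * t = t * g) (hh : h * t = t * h) (v : ZMod 3 × ZMod 3) :
    D.f (g * h) v = D.f g (D.f h v) := by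
  have hgh : g * h * t = t * (g * h) := by rw [mul_assoc, hh, ← mul_assoc, hg, mul_assoc]
  have h1 : (g * h) * S a b z v 0 * (g * h)⁻¹ = g * (h * S a b z v 0 * h⁻¹) * g⁻¹ := by group
  rw [D.f_spec hgh, D.f_spec hh, D.f_spec hg] at h1
  exact (D.H.S_inj h1).1

theorem f_smul {g : X} (hg : g * t = t * g) (c : ZMod 3) (v : ZMod 3 × ZMod 3) :
    D.f g (c • v) = c • D.f g v := by
  have h0 : D.f g 0 = 0 := by
    have h1 := (D.f_add hg 0 0).1
    rw [add_zero] at h1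
    exact (add_eq_left.1 h1.symm)
  have h1 : ∀ c : ZMod 3, c = 0 ∨ c = 1 ∨ c = 2 := by decide
  rcases h1 c with rfl | rfl | rfl
  · rw [zero_smul, zero_smul, h0]
  · rw [one_smul, one_smul]
  · have h2 : (2 : ZMod 3) = 1 + 1 := rfl
    rw [h2, add_smul, add_smul, one_smul, one_smul, (D.f_add hg v v).1]

theorem f_eq {g : X} (hg : g * t = t * g) (v : ZMod 3 × ZMod 3) :
    D.f g v = ((D.f g (1, 0)).1 * v.1 + (D.f g (0, 1)).1 * v.2, (D.f g (1, 0)).2 * v.1 + (D.f g (0, 1)).2 * v.2) := by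
  have h1 : v = v.1 • ((1, 0) : ZMod 3 × ZMod 3) + v.2 • ((0, 1) : ZMod 3 × ZMod 3) := by
    ext <;> simp
  have h2 : D.f g v = v.1 • D.f g (1, 0) + v.2 • D.f g (0, 1) := by
    conv_lhs => rw [h1]
    rw [(D.f_add hg _ _).1, D.f_smul hg, D.f_smul hg]
  rw [h2]
  ext
  · simp [mul_comm]
  · simp [mul_comm]

/-- the matrix -/
noncomputable def mat (g : X) (hg : g * t = t * g) : SL3 :=
  ⟨!![(D.f g (1, 0)).1, (D.f g (0, 1)).1; (D.f g (1, 0)).2, (D.f g (0, 1)).2], by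
    have h1 := (D.f_add hg (1, 0) (0, 1)).2
    rw [Matrix.det_fin_two_of]
    unfold dt at h1
    simp at h1
    linear_combination h1⟩

theorem act_mat {g : X} (hg : g * t = t * g) (v : ZMod 3 × ZMod 3) : act (D.mat g hg) v = D.f g v := by
  rw [D.f_eq hg v]
  rfl

theorem mat_mul {g h : X} (hg : g * t = t * g) (hh : h * t = t * h) (hgh : g * h * t = t * (g * h)) :
    D.mat (g * h) hgh = D.mat g hg * D.mat h hh := by
  have h1 := D.f_mul hg hh (1, 0)
  have h2 := D.f_mul hg hh (0, 1)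
  rw [D.f_eq hg] at h1 h2
  apply Subtype.ext
  change !![(D.f (g * h) (1, 0)).1, (D.f (g * h) (0, 1)).1; (D.f (g * h) (1, 0)).2, (D.f (g * h) (0, 1)).2] =
    !![(D.f g (1, 0)).1, (D.f g (0, 1)).1; (D.f g (1, 0)).2, (D.f g (0, 1)).2] *
    !![(D.f h (1, 0)).1, (D.f h (0, 1)).1; (D.f h (1, 0)).2, (D.f h (0, 1)).2]
  rw [h1, h2, Matrix.mul_fin_two]

end Dat

end X

end H60.SP
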