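import Mathlib
import Cfsg.Agent.Lib.H60.SP2

/-!
The structure of a split extension of an extraspecial group of order 27 by SL(2,3): the complement.
-/

set_option autoImplicit false
set_option linter.unusedSectionVars false

open Subgroup Matrix

namespace H60.SP

universe u

variable {X : Type u} [Group X]

namespace Dat

variable {π : X →* SL3} {t a b z : X} (D : Dat π t a b z)

include D

theorem piS (v : ZMod 3 × ZMod 3) (k : ZMod 3) : π (S a b z v k) = 1 := (D.ker _).2 ⟨v, k, rfl⟩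

theorem dec (g : X) : ∃ (v : ZMod 3 × ZMod 3) (c : X), c * t = t * c ∧ g = S a b z v 0 * c := by
  have hc : ∀ A : SL3, A * (-1) * A⁻¹ * (-1) = 1 := by decide +kernel
  have h1 : π (g * t * g⁻¹ * t) = 1 := by
    rw [map_mul, map_mul, map_mul, map_inv, D.pt]
    exact hc _
  obtain ⟨v, k, hv⟩ := (D.ker _).1 h1
  have h2 : g * t * g⁻¹ = S a b z v k * t := by
    rw [← hv, mul_assoc (g * t * g⁻¹), D.t2, mul_one]
  have h3 : (S a b z v k * t) * (S a b z v k * t) = 1 := by
    rw [← h2]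
    have : g * t * g⁻¹ * (g * t * g⁻¹) = g * (t * t) * g⁻¹ := by group
    rw [this, D.t2]
    group
  have h4 : (S a b z v k * t) * (S a b z v k * t) = S a b z v k * (t * S a b z v k * t⁻¹) * (t * t) := by group
  rw [h4, D.t2, mul_one, D.tS, D.H.S_mul, ← D.H.S_zero] at h3
  have h5 := (D.H.S_inj h3).2
  have h6 : k = 0 := by
    have e1 : dt v (-v) = 0 := by unfold dt; simp; ring
    rw [e1, sub_zero] at h5
    have : ∀ k : ZMod 3, k + k = 0 → k = 0 := by decide
    exact this k h5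
  subst h6
  have h7 : S a b z (-v) 0 * t * (S a b z (-v) 0)⁻¹ = S a b z v 0 * t := by
    have e1 : (S a b z (-v) 0)⁻¹ = S a b z v 0 := by rw [D.H.S_inv, neg_neg, neg_zero]
    have e2 : S a b z (-v) 0 * t * S a b z v 0 = S a b z (-v) 0 * (t * S a b z v 0 * t⁻¹) * t := by group
    have e3 : -v + -v = v := by
      have : ∀ v : ZMod 3 × ZMod 3, -v + -v = v := by decide
      exact this v
    have e4 : dt (-v) (-v) = 0 := by unfold dt; ring
    rw [e1, e2, D.tS, D.H.S_mul, e3, e4, sub_zero, add_zero]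
  refine ⟨-v, (S a b z (-v) 0)⁻¹ * g, ?_, by group⟩
  rw [← h2] at h7
  have h8 : (S a b z (-v) 0)⁻¹ * (g * t * g⁻¹) * g = t * ((S a b z (-v) 0)⁻¹ * g) := by
    rw [← h7]; group
  rw [← h8]
  group

/-- the centralizer of the involution meets the kernel in `⟨z⟩` -/
theorem ker_cent {h : X} (hh : h * t = t * h) (hp : π h = 1) : ∃ k, h = pw z k := by
  obtain ⟨v, k, rfl⟩ := (D.ker h).1 hp
  have hv := D.comm_t_ker hh.symm
  subst hv
  exact ⟨k, D.H.S_zk k⟩

theorem card_cent [Finite X] : Nat.card (Subgroup.centralizer ({t} : Set X)) = 72 := by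
  let C := Subgroup.centralizer ({t} : Set X)
  let ρ : C →* SL3 := π.comp C.subtype
  have hsurj : Function.Surjective ρ := by
    intro A
    obtain ⟨g, hg⟩ := D.surj A
    obtain ⟨v, c, hc, hgc⟩ := D.dec g
    refine ⟨⟨c, Subgroup.mem_centralizer_singleton_iff.2 hc⟩, ?_⟩
    change π c = A
    rw [hgc, map_mul, D.piS, one_mul] at hg
    exact hg
  have hker : Nat.card ρ.ker = 3 := by
    let m : ZMod 3 → ρ.ker := fun k => ⟨⟨pw z k, Subgroup.mem_centralizer_singleton_iff.2 (D.zcp t k).symm⟩, by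
      rw [MonoidHom.mem_ker]
      change π (pw z k) = 1
      rw [← D.H.S_zk, D.piS]⟩
    have hm : Function.Bijective m := by
      refine ⟨?_, ?_⟩
      · intro i j hij
        have h1 : pw z i = pw z j := congrArg (fun x : ρ.ker => ((x : C) : X)) hij
        exact pw_inj D.H.hz D.H.hz1 h1
      · rintro ⟨⟨x, hx⟩, hx2⟩
        rw [MonoidHom.mem_ker] at hx2
        obtain ⟨k, hk⟩ := D.ker_cent (Subgroup.mem_centralizer_singleton_iff.1 hx) hx2
        refine ⟨k, ?_⟩
        apply Subtype.ext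
        apply Subtype.ext
        exact hk.symm
    rw [← Nat.card_congr (Equiv.ofBijective m hm), Nat.card_zmod]
  have h1 : Nat.card C = Nat.card (C ⧸ ρ.ker) * Nat.card ρ.ker := Subgroup.card_eq_card_quotient_mul_card_subgroup _
  rw [Nat.card_congr (QuotientGroup.quotientKerEquivOfSurjective ρ hsurj).toEquiv, hker, card_SL3] at h1
  exact h1

theorem exists_c0 [Finite X] (hE : ∃ E : Subgroup X, IsMulCommutative E ∧ (∀ a ∈ E, a ^ 3 = 1) ∧ Nat.card E = 27)
    : ∃ c : X, c * t = t * c ∧ c ^ 3 = 1 ∧ π c ≠ 1 := by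
  obtain ⟨E, hEc, hE3, hE27⟩ := hE
  have hcomm : ∀ x ∈ E, ∀ y ∈ E, x * y = y * x := by
    intro x hx y hy
    have := hEc.is_comm.comm ⟨x, hx⟩ ⟨y, hy⟩
    exact congrArg Subtype.val this
  let ρ : E →* SL3 := π.comp E.subtype
  have hmap : ∀ x : ρ.ker, ∃ p : (ZMod 3 × ZMod 3) × ZMod 3, ((x : E) : X) = S a b z p.1 p.2 := by
    intro x
    obtain ⟨v, k, h⟩ := (D.ker ((x : E) : X)).1 x.2
    exact ⟨(v, k), h⟩
  choose m hm using hmap
  have hminj : Function.Injective m := by
    intro x y hxy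
    apply Subtype.ext
    apply Subtype.ext
    rw [hm x, hm y, hxy]
  -- orders
  have hcard : Nat.card E = Nat.card ρ.range * Nat.card ρ.ker := by
    rw [Subgroup.card_eq_card_quotient_mul_card_subgroup ρ.ker]
    congr 1
    exact Nat.card_congr (QuotientGroup.quotientKerEquivRange ρ).toEquiv
  have hr24 : Nat.card ρ.range ∣ 24 := by rw [← card_SL3]; exact Subgroup.card_subgroup_dvd_card _
  have hr27 : Nat.card ρ.range ∣ 27 := by rw [← hE27, hcard]; exact Dvd.intro _ rfl
  have hr3 : Nat.card ρ.range ∣ 3 := by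
    have h0 := Nat.dvd_gcd hr24 hr27
    have h1 : Nat.gcd 24 27 = 3 := by norm_num
    rw [h1] at h0
    exact h0
  have hker9 : 9 ≤ Nat.card ρ.ker := by
    have h1 := Nat.le_of_dvd (by norm_num) hr3
    rw [hE27] at hcard
    nlinarith [Nat.zero_le (Nat.card ρ.ker)]
  -- an element outside of the kernel
  have hu : ∃ u ∈ E, π u ≠ 1 := by
    by_contra hno
    push Not at hno
    have h1 : Nat.card E = Nat.card ((ZMod 3 × ZMod 3) × ZMod 3) := by
      rw [hE27, Nat.card_prod, Nat.card_prod, Nat.card_zmod]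
    have hmap : ∀ x : E, ∃ p : (ZMod 3 × ZMod 3) × ZMod 3, (x : X) = S a b z p.1 p.2 := by
      intro x
      obtain ⟨v, k, h⟩ := (D.ker (x : X)).1 (hno _ x.2)
      exact ⟨(v, k), h⟩
    choose n hn using hmap
    have hninj : Function.Injective n := by
      intro x y hxy
      apply Subtype.ext
      rw [hn x, hn y, hxy]
    have hnb : Function.Bijective n :=
      (Nat.bijective_iff_injective_and_card n).2 ⟨hninj, h1⟩
    obtain ⟨x, hx⟩ := hnb.2 ((1, 0), 0)
    obtain ⟨y, hy⟩ := hnb.2 ((0, 1), 0)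
    have e1 := hcomm _ x.2 _ y.2
    rw [hn x, hn y, hx, hy, D.H.S_mul, D.H.S_mul] at e1
    have e2 := (D.H.S_inj e1).2
    revert e2
    unfold dt
    decide
  obtain ⟨u, huE, hu1⟩ := hu
  -- an element of the kernel, not central
  have hd : ∃ x : ρ.ker, (m x).1 ≠ 0 := by
    by_contra hno
    push Not at hno
    have h1 : Function.Injective (fun x => (m x).2) := by
      intro x y hxy
      apply hminj
      exact Prod.ext (by rw [hno x, hno y]) hxy
    have h2 := Nat.card_le_card_of_injective _ h1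
    rw [Nat.card_zmod] at h2
    omega
  obtain ⟨x, hx⟩ := hd
  have hxE : ((x : E) : X) ∈ E := (x : E).2
  have hcom := hcomm u huE _ hxE
  rw [hm x] at hcom
  obtain ⟨w, c, hc, huc⟩ := D.dec u
  set v := (m x).1 with hv
  set k := (m x).2 with hk
  have h1 : u * S a b z v k * u⁻¹ = S a b z v k := by rw [hcom, mul_inv_cancel_right]
  have h2 : u * S a b z v k * u⁻¹ = S a b z w 0 * (c * S a b z v k * c⁻¹) * (S a b z w 0)⁻¹ := by
    rw [huc]; group
  rw [h1, D.conjS hc, D.H.S_inv, D.H.S_mul, D.H.S_mul] at h2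
  obtain ⟨e1, e2⟩ := D.H.S_inj h2
  have hfv : D.f c v = v := by
    rw [e1]
    have : w + D.f c v + -w = D.f c v := by abel
    rw [this]
    rw [this] at e1
    rw [← e1]
    exact e1.symm ▸ e1.symm
  rw [hfv] at e2
  have hdt : dt w v = 0 := by
    have e3 : dt (w + v) (-w) = dt w v := by
      unfold dt
      simp
      ring
    rw [e3] at e2
    have h3 : ∀ x k : ZMod 3, k = 0 + k - x + -0 - x → x = 0 := by decide
    exact h3 _ _ e2
  have hlam : ∃ l : ZMod 3, w = l • v := by
    have h3 : ∀ v w : ZMod 3 × ZMod 3, v ≠ 0 → dt w v = 0 → ∃ l : ZMod 3, w = l • v := by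
      unfold dt
      decide +kernel
    exact h3 v w hx hdt
  obtain ⟨l, hl⟩ := hlam
  have hfw : D.f c w = w := by rw [hl, D.f_smul hc, hfv]
  have hcw : c * S a b z w 0 * c⁻¹ = S a b z w 0 := by rw [D.conjS hc, hfw]
  have hcw2 : Commute c (S a b z w 0) := by
    rw [mul_inv_eq_iff_eq_mul] at hcw
    exact hcw
  have hS3 : (S a b z w 0) ^ 3 = 1 := by
    have e4 : (S a b z w 0) ^ 3 = S a b z w 0 * S a b z w 0 * S a b z w 0 := by
      rw [pow_succ, pow_two]
    rw [e4, D.H.S_mul, D.H.S_mul, ← D.H.S_zero]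
    have e5 : w + w + w = 0 := by
      have : ∀ w : ZMod 3 × ZMod 3, w + w + w = 0 := by decide
      exact this w
    have e6 : 0 + 0 - dt w w + 0 - dt (w + w) w = 0 := by unfold dt; simp; ring
    rw [e5, e6]
  refine ⟨c, hc, ?_, ?_⟩
  · have h3 := hE3 u huE
    rw [huc, (hcw2.symm).mul_pow, hS3, one_mul] at h3
    exact h3
  · rw [huc, map_mul, D.piS, one_mul] at hu1
    exact hu1

/-- elements centralizing the kernel do not map to `-1` -/
theorem no_neg {h : X} (hh : ∀ v k, h * S a b z v k = S a b z v k * h) : π h ≠ -1 := by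
  intro hp
  have h1 : π (t⁻¹ * h) = 1 := by
    rw [map_mul, map_inv, D.pt, hp]
    exact inv_mul_cancel _
  obtain ⟨w, l, hw⟩ := (D.ker _).1 h1
  have h2 : h = t * S a b z w l := by rw [← hw]; group
  have h3 := hh (1, 0) 0
  have h4 : t * (S a b z w l * S a b z (1, 0) 0 * (S a b z w l)⁻¹) * t⁻¹ = S a b z (1, 0) 0 := by
    have e1 : t * (S a b z w l * S a b z (1, 0) 0 * (S a b z w l)⁻¹) * t⁻¹ =
        (t * S a b z w l) * S a b z (1, 0) 0 * (t * S a b z w l)⁻¹ := by group
    rw [e1, ← h2, h3, mul_inv_cancel_right]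
  rw [D.H.S_inv, D.H.S_mul, D.H.S_mul, D.tS] at h4
  have h5 := (D.H.S_inj h4).1
  have h6 : w + (1, 0) + -w = ((1, 0) : ZMod 3 × ZMod 3) := by abel
  rw [h6] at h5
  exact absurd h5 (by decide)

end Dat

end H60.SP
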