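import Mathlib
import Cfsg.Agent.Lib.H60.SP3

/-!
The structure of a split extension of an extraspecial group of order 27 by SL(2,3): the product law.
-/

set_option autoImplicit false
set_option linter.unusedSectionVars false

open Subgroup Matrix

namespace H60.SP

universe u

variable {X : Type u} [Group X]

namespace Dat

variable {π : X →* SL3} {t a b z : X} (D : Dat π t a b z)

include D

theorem law_of_compl [Finite X] (H : Subgroup (Subgroup.centralizer ({t} : Set X))) (hcard : Nat.card H = 24)
    (hz : ∀ y ∈ H, (y : X) ≠ z) : ∃ Φ : (ZMod 3 × ZMod 3) → ZMod 3 → SL3 → X, Law Φ := by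
  have hct : ∀ y : H, (((y : Subgroup.centralizer ({t} : Set X)) : X)) * t =
      t * (((y : Subgroup.centralizer ({t} : Set X)) : X)) := fun y =>
    Subgroup.mem_centralizer_singleton_iff.1 (y : Subgroup.centralizer ({t} : Set X)).2
  -- `π` is injective on `H`
  have hpi : ∀ y : H, π (((y : Subgroup.centralizer ({t} : Set X)) : X)) = 1 → y = 1 := by
    intro y hy
    obtain ⟨k, hk⟩ := D.ker_cent (hct y) hy
    have hk3 : k = 0 ∨ k = 1 ∨ k = -1 := by
      have : ∀ k : ZMod 3, k = 0 ∨ k = 1 ∨ k = -1 := by decide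
      exact this k
    rcases hk3 with rfl | rfl | rfl
    · rw [pw_zero] at hk
      apply Subtype.ext
      apply Subtype.ext
      exact hk
    · rw [pw_one] at hk
      exact absurd hk (hz _ y.2)
    · rw [pw_neg D.H.hz, pw_one] at hk
      have h1 : (((y⁻¹ : H) : Subgroup.centralizer ({t} : Set X)) : X) = z := by
        change (((y : Subgroup.centralizer ({t} : Set X)) : X))⁻¹ = z
        rw [hk, inv_inv]
      exact absurd h1 (hz _ (y⁻¹).2)
  let ρ : H →* SL3 := (π.comp (Subgroup.centralizer ({t} : Set X)).subtype).comp H.subtype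
  have hρ : Function.Bijective ρ := by
    refine (Nat.bijective_iff_injective_and_card ρ).2 ⟨?_, by rw [hcard, card_SL3]⟩
    rw [injective_iff_map_eq_one]
    intro y hy
    exact hpi y hy
  -- the matrix map
  let μ : H →* SL3 := MonoidHom.mk' (fun y => D.mat (((y : Subgroup.centralizer ({t} : Set X)) : X)) (hct y)) (by
    intro y w
    exact D.mat_mul (hct y) (hct w) (hct (y * w)))
  have hμ : Function.Bijective μ := by
    refine (Nat.bijective_iff_injective_and_card μ).2 ⟨?_, by rw [hcard, card_SL3]⟩
    rw [injective_iff_map_eq_one]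
    intro y hy
    by_contra hne
    set h := (((y : Subgroup.centralizer ({t} : Set X)) : X)) with hh
    have hP : ∀ v k, h * S a b z v k = S a b z v k * h := by
      intro v k
      have h1 := D.conjS (hct y) v k
      rw [← D.act_mat (hct y)] at h1
      have h2 : D.mat h (hct y) = 1 := hy
      rw [h2] at h1
      have h3 : act 1 v = v := by unfold act; simp
      rw [h3] at h1
      exact mul_inv_eq_iff_eq_mul.1 h1
    have hB : π h ≠ 1 := fun h1 => hne (hpi y h1)
    -- closure properties of the centralizer of the kernel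
    have hmul : ∀ g g' : X, (∀ v k, g * S a b z v k = S a b z v k * g) → (∀ v k, g' * S a b z v k = S a b z v k * g') →
        ∀ v k, (g * g') * S a b z v k = S a b z v k * (g * g') := by
      intro g g' h1 h2 v k
      rw [mul_assoc, h2, ← mul_assoc, h1, mul_assoc]
    have hinv : ∀ g : X, (∀ v k, g * S a b z v k = S a b z v k * g) →
        ∀ v k, g⁻¹ * S a b z v k = S a b z v k * g⁻¹ := by
      intro g h1 v k
      rw [eq_mul_inv_iff_mul_eq, mul_assoc, ← h1, inv_mul_cancel_left]
    have hconj : ∀ g x : X, (∀ v k, g * S a b z v k = S a b z v k * g) →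
        ∀ v k, (x * g * x⁻¹) * S a b z v k = S a b z v k * (x * g * x⁻¹) := by
      intro g x h1 v k
      have h2 : π (x⁻¹ * S a b z v k * x) = 1 := by
        rw [map_mul, map_mul, map_inv, D.piS, mul_one, inv_mul_cancel]
      obtain ⟨v', k', h3⟩ := (D.ker _).1 h2
      have h4 := h1 v' k'
      rw [← h3] at h4
      calc (x * g * x⁻¹) * S a b z v k = x * (g * (x⁻¹ * S a b z v k * x)) * x⁻¹ := by group
        _ = x * ((x⁻¹ * S a b z v k * x) * g) * x⁻¹ := by rw [h4]
        _ = _ := by group
    obtain ⟨C, hC⟩ := gen_neg (π h) hB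
    obtain ⟨x, hx⟩ := D.surj C
    rcases hC with hC | hC | hC | hC
    · exact D.no_neg hP hC.symm
    · exact D.no_neg (hmul _ _ hP hP) (by rw [map_mul]; exact hC.symm)
    · exact D.no_neg (hmul _ _ (hmul _ _ hP hP) hP) (by rw [map_mul, map_mul]; exact hC.symm)
    · have hQ := hmul _ _ hP (hconj _ x (hinv _ hP))
      refine D.no_neg (hmul _ _ hQ hQ) ?_
      rw [map_mul, map_mul, map_mul, map_mul, map_inv, map_inv, hx]
      exact hC.symm
  let M : H ≃* SL3 := MulEquiv.ofBijective μ hμ
  let ψ : SL3 → X := fun A => (((M.symm A : H) : Subgroup.centralizer ({t} : Set X)) : X)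
  have hψt : ∀ A, ψ A * t = t * ψ A := fun A => hct (M.symm A)
  have hψm : ∀ A B, ψ (A * B) = ψ A * ψ B := by
    intro A B
    change (((M.symm (A * B) : H) : Subgroup.centralizer ({t} : Set X)) : X) = _
    rw [map_mul]
    rfl
  have hψA : ∀ A, D.mat (ψ A) (hψt A) = A := by
    intro A
    exact M.apply_symm_apply A
  have hψS : ∀ A v k, ψ A * S a b z v k = S a b z (act A v) k * ψ A := by
    intro A v k
    have h1 := D.conjS (hψt A) v k
    rw [← D.act_mat (hψt A), hψA] at h1
    exact mul_inv_eq_iff_eq_mul.1 h1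
  refine ⟨fun v k A => S a b z v k * ψ A, ?_, ?_, ?_⟩
  · intro v k A v' k' A' heq
    have heq' : S a b z v k * ψ A = S a b z v' k' * ψ A' := heq
    have h1 : π (ψ A) = π (ψ A') := by
      have := congrArg π heq'
      rwa [map_mul, map_mul, D.piS, D.piS, one_mul, one_mul] at this
    have h2 : M.symm A = M.symm A' := hρ.1 h1
    have h3 : A = A' := M.symm.injective h2
    subst h3
    have h4 := mul_right_cancel heq'
    obtain ⟨e1, e2⟩ := D.H.S_inj h4
    exact ⟨e1, e2, rfl⟩
  · intro g
    obtain ⟨y, hy⟩ := hρ.2 (π g)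
    have h1 : ψ (M y) = ((y : Subgroup.centralizer ({t} : Set X)) : X) := by
      change (((M.symm (M y) : H) : Subgroup.centralizer ({t} : Set X)) : X) = _
      rw [M.symm_apply_apply]
    have h2 : π (g * (ψ (M y))⁻¹) = 1 := by
      rw [map_mul, map_inv, h1]
      have h3 : π ((y : Subgroup.centralizer ({t} : Set X)) : X) = π g := hy
      rw [h3, mul_inv_cancel]
    obtain ⟨v, k, hv⟩ := (D.ker _).1 h2
    refine ⟨v, k, M y, ?_⟩
    change S a b z v k * ψ (M y) = g
    rw [← hv, inv_mul_cancel_right]
  · intro v k A v' k' A'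
    change S a b z v k * ψ A * (S a b z v' k' * ψ A') = S a b z (v + act A v') (k + k' - dt v (act A v')) * ψ (A * A')
    rw [hψm, ← D.H.S_mul]
    calc S a b z v k * ψ A * (S a b z v' k' * ψ A') = S a b z v k * (ψ A * S a b z v' k') * ψ A' := by
          simp only [mul_assoc]
      _ = _ := by rw [hψS]; simp only [mul_assoc]

end Dat

end H60.SP
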