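import Mathlib
import Cfsg.Prelude.Def_Solvable
import Cfsg.Prelude.Def_Transfer
import Cfsg.Agent.Lib.H1.Cores
import Cfsg.Agent.Lib.H60.SP4

/-!
The extensions of an extraspecial group of order 27 and exponent 3 by SL(2,3): coordinates.
-/

set_option autoImplicit false
set_option linter.unusedSectionVars false

open Subgroup Matrix
open scoped commutatorElement

namespace H60.SP

universe u

variable {X : Type u} [Group X] [Finite X]

/-- central elements of the normal subgroup are central in the whole group -/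
theorem central_of_central {R : Subgroup X} [R.Normal] {π : X →* SL3} (hπ : Function.Surjective π)
    (hker : ∀ x, π x = 1 ↔ x ∈ R) (hZ : Nat.card (Subgroup.center R) = 3) (hexp : ∀ r ∈ R, r ^ 3 = 1)
    {w : X} (hw : w ∈ R) (hc : ∀ r ∈ R, r * w = w * r) (g : X) : g * w = w * g := by
  by_cases hw1 : w = 1
  · subst hw1; simp
  have hwc : ∀ y : X, y ∈ R → (∀ r ∈ R, r * y = y * r) → y = 1 ∨ y = w ∨ y = w⁻¹ := by
    intro y hy hyc
    haveI : Fact (Nat.Prime 3) := ⟨Nat.prime_three⟩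
    let W : Subgroup.center R := ⟨⟨w, hw⟩, by
      rw [Subgroup.mem_center_iff]
      rintro ⟨r, hr⟩
      exact Subtype.ext (hc r hr)⟩
    let Y : Subgroup.center R := ⟨⟨y, hy⟩, by
      rw [Subgroup.mem_center_iff]
      rintro ⟨r, hr⟩
      exact Subtype.ext (hyc r hr)⟩
    have hW1 : W ≠ 1 := by
      intro h
      exact hw1 (congrArg (fun x : Subgroup.center R => ((x : R) : X)) h)
    have h1 : Y ∈ Submonoid.powers W := mem_powers_of_prime_card hZ hW1
    obtain ⟨n, hn⟩ := h1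
    have h2 : w ^ n = y := congrArg (fun x : Subgroup.center R => ((x : R) : X)) hn
    rw [pow_mod3 (hexp w hw)] at h2
    have h3 : n % 3 < 3 := Nat.mod_lt _ (by norm_num)
    have h4 : n % 3 = 0 ∨ n % 3 = 1 ∨ n % 3 = 2 := by omega
    rcases h4 with h4 | h4 | h4
    · left; rw [← h2, h4, pow_zero]
    · right; left; rw [← h2, h4, pow_one]
    · right; right
      rw [← h2, h4, eq_inv_iff_mul_eq_one, ← pow_succ]
      exact hexp w hw
  refine cent_z hπ ?_ ?_ g
  · intro g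
    have h1 : g * w * g⁻¹ ∈ R := ‹R.Normal›.conj_mem _ hw g
    have h2 : ∀ r ∈ R, r * (g * w * g⁻¹) = (g * w * g⁻¹) * r := by
      intro r hr
      have h3 : g⁻¹ * r * g ∈ R := by
        have := ‹R.Normal›.conj_mem _ hr g⁻¹
        rwa [inv_inv] at this
      have h4 := hc _ h3
      calc r * (g * w * g⁻¹) = g * ((g⁻¹ * r * g) * w) * g⁻¹ := by group
        _ = g * (w * (g⁻¹ * r * g)) * g⁻¹ := by rw [h4]
        _ = _ := by group
    rcases hwc _ h1 h2 with h | h | h
    · exfalso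
      apply hw1
      have : w = g⁻¹ * (g * w * g⁻¹) * g := by group
      rw [this, h]; group
    · left; exact h
    · right; exact h
  · intro r hr
    exact hc r ((hker r).1 hr)

theorem x_dat (hR : Cfsg.IsExtraspecial 3 (Cfsg.pCore 3 X)) (hRcard : Nat.card (Cfsg.pCore 3 X) = 27)
    (hRexp : ∀ r ∈ Cfsg.pCore 3 X, r ^ 3 = 1)
    (e : X ⧸ Cfsg.pCore 3 X ≃* Matrix.SpecialLinearGroup (Fin 2) (ZMod 3))
    (hO2 : Cfsg.pCore 2 X = ⊥) : ∃ (π : X →* SL3) (t a b z : X), Dat π t a b z := by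
  set R := Cfsg.pCore 3 X with hRdef
  let π : X →* SL3 := e.toMonoidHom.comp (QuotientGroup.mk' R)
  have hπ : Function.Surjective π := e.surjective.comp (QuotientGroup.mk'_surjective R)
  have hker : ∀ x, π x = 1 ↔ x ∈ R := by
    intro x
    change e (QuotientGroup.mk' R x) = 1 ↔ _
    rw [MulEquiv.map_eq_one_iff]
    exact QuotientGroup.eq_one_iff x
  obtain ⟨⟨hRp, -, hRcomm⟩, hRZ⟩ := hR
  -- commutators are central
  have hcc : ∀ r ∈ R, ∀ s ∈ R, ∀ q ∈ R, q * (r * s * r⁻¹ * s⁻¹) = (r * s * r⁻¹ * s⁻¹) * q := by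
    intro r hr s hs q hq
    have h1 : ⁅(⟨r, hr⟩ : R), (⟨s, hs⟩ : R)⁆ ∈ commutator R :=
      Subgroup.commutator_mem_commutator (Subgroup.mem_top _) (Subgroup.mem_top _)
    rw [hRcomm, Subgroup.mem_center_iff] at h1
    have h2 := h1 ⟨q, hq⟩
    exact congrArg Subtype.val h2
  have hall : ∀ w ∈ R, (∀ r ∈ R, r * w = w * r) → ∀ g : X, g * w = w * g := fun w hw hc g =>
    central_of_central hπ hker hRZ hRexp hw hc g
  have hcin : ∀ r ∈ R, ∀ s ∈ R, r * s * r⁻¹ * s⁻¹ ∈ R := fun r hr s hs =>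
    R.mul_mem (R.mul_mem (R.mul_mem hr hs) (R.inv_mem hr)) (R.inv_mem hs)
  -- small cancellations
  have hsq1 : ∀ r ∈ R, r * r = 1 → r = 1 := by
    intro r hr h
    have h1 := hRexp r hr
    rw [pow_succ, pow_two, h, one_mul] at h1
    exact h1
  -- the involution
  obtain ⟨x, hx⟩ := hπ (-1)
  have hx2 : π (x * x) = 1 := by
    rw [map_mul, hx]; decide
  have hx6 := hRexp _ ((hker _).1 hx2)
  set t := x * x * x with ht
  have t2 : t * t = 1 := by
    have e1 : t * t = (x * x) ^ 3 := by rw [ht, pow_succ, pow_two]; simp only [mul_assoc]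
    rw [e1, hx6]
  have pt : π t = -1 := by
    rw [ht, map_mul, hx2, hx, one_mul]
  have ti : t⁻¹ = t := by rw [inv_eq_iff_mul_eq_one]; exact t2
  have t1 : t ≠ 1 := by
    intro h
    rw [h, map_one] at pt
    exact absurd pt (by decide)
  have hneg : ∀ A : SL3, A * (-1) * A⁻¹ * (-1) = 1 := by decide +kernel
  -- `t` does not centralize `R`
  have hnc : ∃ r ∈ R, t * r ≠ r * t := by
    by_contra hno
    push Not at hno
    have h1 : ∀ g : X, g * t = t * g := by
      intro g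
      have h2 : g * t * g⁻¹ * t ∈ R := by
        rw [← hker, map_mul, map_mul, map_mul, map_inv, pt]
        exact hneg _
      set r := g * t * g⁻¹ * t with hr
      have h3 : g * t * g⁻¹ = r * t := by rw [hr, mul_assoc (g * t * g⁻¹), t2, mul_one]
      have h4 : (r * t) * (r * t) = 1 := by
        rw [← h3]
        have : g * t * g⁻¹ * (g * t * g⁻¹) = g * (t * t) * g⁻¹ := by group
        rw [this, t2]; group
      have h5 : (r * t) * (r * t) = r * r := by
        rw [mul_assoc, ← mul_assoc t r t, hno r h2, mul_assoc r t t, t2, mul_one]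
      rw [h5] at h4
      have h6 := hsq1 r h2 h4
      rw [h6, one_mul] at h3
      exact mul_inv_eq_iff_eq_mul.1 h3
    have hN : (Subgroup.zpowers t).Normal := by
      refine ⟨?_⟩
      intro n hn g
      obtain ⟨k, rfl⟩ := Subgroup.mem_zpowers_iff.1 hn
      have : g * t ^ k * g⁻¹ = t ^ k := by
        rw [((show Commute g t from h1 g).zpow_right k).eq, mul_inv_cancel_right]
      rw [this]; exact hn
    have hp : IsPGroup 2 (Subgroup.zpowers t) := by
      haveI : Fact (Nat.Prime 2) := ⟨Nat.prime_two⟩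
      rw [IsPGroup.iff_card]
      refine ⟨1, ?_⟩
      rw [Nat.card_zpowers, pow_one]
      exact orderOf_eq_prime (by rw [pow_two]; exact t2) t1
    have h2 := H1.Cores.le_pCore hN hp
    rw [hO2, le_bot_iff] at h2
    exact t1 (Subgroup.zpowers_eq_bot.1 h2)
  obtain ⟨r0, hr0, hr0t⟩ := hnc
  -- elements inverted by `t`
  have hinvt : ∀ r : X, t * (r * (t * r * t⁻¹)⁻¹) * t⁻¹ = (r * (t * r * t⁻¹)⁻¹)⁻¹ := by
    intro r
    have e1 : t * (r * (t * r * t⁻¹)⁻¹) * t⁻¹ = (t * r * t⁻¹) * ((t * t) * r * (t * t)⁻¹)⁻¹ := by group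
    rw [e1, t2]
    group
  have hRn : R.Normal := H1.Cores.pCore_normal 3
  have hconj : ∀ r ∈ R, t * r * t⁻¹ ∈ R := fun r hr => hRn.conj_mem _ hr t
  set a := r0 * (t * r0 * t⁻¹)⁻¹ with ha
  have haR : a ∈ R := R.mul_mem hr0 (R.inv_mem (hconj r0 hr0))
  have ta : t * a * t⁻¹ = a⁻¹ := hinvt r0
  have ha1 : a ≠ 1 := by
    intro h
    rw [ha, mul_inv_eq_one] at h
    apply hr0t
    have h2 : t * r0 * t⁻¹ = r0 := h.symm
    exact mul_inv_eq_iff_eq_mul.1 h2
  have hac : ∃ s ∈ R, s * a ≠ a * s := by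
    by_contra hno
    push Not at hno
    have h1 := hall a haR hno t
    rw [h1, mul_inv_cancel_right] at ta
    apply ha1
    apply hsq1 a haR
    nth_rewrite 2 [ta]
    exact mul_inv_cancel a
  obtain ⟨s, hs, hsa⟩ := hac
  set s' := t * s * t⁻¹ with hs'
  have hs'R : s' ∈ R := hconj s hs
  set b := s * (t * s * t⁻¹)⁻¹ with hb
  have hbR : b ∈ R := R.mul_mem hs (R.inv_mem hs'R)
  have tb : t * b * t⁻¹ = b⁻¹ := hinvt s
  have hab : a * b ≠ b * a := by
    intro hab
    set c := s * a * s⁻¹ * a⁻¹ with hc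
    have hcR : c ∈ R := hcin s hs a haR
    have hcz := hall c hcR (hcc s hs a haR)
    have h1 : s * a * s⁻¹ = c * a := by rw [hc]; group
    have h2 : t * c * t⁻¹ = c := by rw [hcz t, mul_inv_cancel_right]
    have h3 : t * c * t⁻¹ = s' * (t * a * t⁻¹) * s'⁻¹ * (t * a * t⁻¹)⁻¹ := by rw [hc, hs']; group
    rw [h2, ta, inv_inv] at h3
    -- s' a⁻¹ s'⁻¹ = c a⁻¹
    have h4 : s' * a * s'⁻¹ = a * c⁻¹ := by
      have e1 : s' * a⁻¹ * s'⁻¹ = c * a⁻¹ := by
        rw [eq_mul_inv_iff_mul_eq]; exact h3.symm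
      have e2 : s' * a * s'⁻¹ = (s' * a⁻¹ * s'⁻¹)⁻¹ := by group
      rw [e2, e1]; group
    have h5 : s'⁻¹ * a * s' = a * c := by
      have e1 : a = s'⁻¹ * (s' * a * s'⁻¹) * s' := by group
      have e2 : s'⁻¹ * (a * c⁻¹) * s' = (s'⁻¹ * a * s') * c⁻¹ := by
        have : c⁻¹ * s' = s' * c⁻¹ := by
          have := hcz s'
          rw [eq_mul_inv_iff_mul_eq, mul_assoc, this, inv_mul_cancel_left]
        rw [mul_assoc, mul_assoc, this]; group
      have e3 : a = (s'⁻¹ * a * s') * c⁻¹ := by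
        rw [← e2, ← h4]; exact e1
      rw [eq_mul_inv_iff_mul_eq] at e3
      exact e3.symm
    have h6 : b * a * b⁻¹ = a := by rw [← hab, mul_inv_cancel_right]
    have h7 : b * a * b⁻¹ = s * (s'⁻¹ * a * s') * s⁻¹ := by rw [hb, ← hs']; group
    rw [h5] at h7
    have h8 : s * (a * c) * s⁻¹ = (s * a * s⁻¹) * c := by
      have : c * s⁻¹ = s⁻¹ * c := (hcz s⁻¹).symm
      rw [mul_assoc, mul_assoc a c, this]; group
    rw [h8, h1, h6] at h7
    have h9 : c * c = 1 := by
      have e1 : c * a * c = (c * c) * a := by rw [mul_assoc, hcz a]; group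
      rw [e1] at h7
      exact (mul_eq_right.1 h7.symm)
    have h10 := hsq1 c hcR h9
    rw [hc, mul_inv_eq_one, mul_inv_eq_iff_eq_mul] at h10
    exact hsa h10
  set z := a * b * a⁻¹ * b⁻¹ with hz
  have hzR : z ∈ R := hcin a haR b hbR
  have hzc := hall z hzR (hcc a haR b hbR)
  have hz1 : z ≠ 1 := by
    intro h
    rw [hz, mul_inv_eq_one, mul_inv_eq_iff_eq_mul] at h
    exact hab h
  have hH : Heis a b z := ⟨hRexp a haR, hRexp b hbR, hRexp z hzR, hz1, (hzc a).symm, (hzc b).symm, by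
    rw [hz]; group⟩
  have hpow : ∀ g ∈ R, ∀ i : ZMod 3, pw g i ∈ R := fun g hg i => R.pow_mem hg _
  have hSR : ∀ v k, S a b z v k ∈ R := fun v k =>
    R.mul_mem (R.mul_mem (hpow a haR _) (hpow b hbR _)) (hpow z hzR _)
  have hbij : Function.Bijective (fun p : (ZMod 3 × ZMod 3) × ZMod 3 => (⟨S a b z p.1 p.2, hSR p.1 p.2⟩ : R)) := by
    refine (Nat.bijective_iff_injective_and_card _).2 ⟨?_, ?_⟩
    · intro p q hpq
      obtain ⟨e1, e2⟩ := hH.S_inj (congrArg Subtype.val hpq)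
      exact Prod.ext e1 e2
    · rw [hRcard, Nat.card_prod, Nat.card_prod, Nat.card_zmod]
  refine ⟨π, t, a, b, z, ⟨hπ, t2, pt, hH, ?_, ta, tb, hzc⟩⟩
  intro r
  rw [hker]
  constructor
  · intro hr
    obtain ⟨p, hp⟩ := hbij.2 ⟨r, hr⟩
    exact ⟨p.1, p.2, (congrArg Subtype.val hp).symm⟩
  · rintro ⟨v, k, rfl⟩
    exact hSR v k

end H60.SP
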