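import Mathlib
import Cfsg.Agent.Lib.H60.SP5
import Cfsg.Agent.Lib.H77.SPH

/-!
The extensions of an extraspecial group of order 27 and exponent 3 by SL(2,3): the product law.
-/

set_option autoImplicit false
set_option linter.unusedSectionVars false

open Subgroup Matrix

namespace H60.SP

universe u

theorem x_law {X : Type u} [Group X] [Finite X]
    (hR : Cfsg.IsExtraspecial 3 (Cfsg.pCore 3 X)) (hRcard : Nat.card (Cfsg.pCore 3 X) = 27)
    (hRexp : ∀ r ∈ Cfsg.pCore 3 X, r ^ 3 = 1)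
    (e : X ⧸ Cfsg.pCore 3 X ≃* Matrix.SpecialLinearGroup (Fin 2) (ZMod 3))
    (hO2 : Cfsg.pCore 2 X = ⊥)
    (hE : ∃ E : Subgroup X, IsMulCommutative E ∧ (∀ a ∈ E, a ^ 3 = 1) ∧ Nat.card E = 27) :
    ∃ Φ : (ZMod 3 × ZMod 3) → ZMod 3 → SL3 → X, Law Φ := by
  obtain ⟨π, t, a, b, z, D⟩ := x_dat hR hRcard hRexp e hO2
  obtain ⟨c, hct, hc3, hcp⟩ := D.exists_c0 hE
  let zC : Subgroup.centralizer ({t} : Set X) := ⟨z, Subgroup.mem_centralizer_singleton_iff.2 (D.zc t).symm⟩
  let cC : Subgroup.centralizer ({t} : Set X) := ⟨c, Subgroup.mem_centralizer_singleton_iff.2 hct⟩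
  have hz : zC ∈ Subgroup.center (Subgroup.centralizer ({t} : Set X)) := by
    rw [Subgroup.mem_center_iff]
    intro g
    exact Subtype.ext (D.zc (g : X))
  have oz : orderOf zC = 3 := by
    rw [← Subgroup.orderOf_coe]
    exact orderOf_eq_prime D.H.hz D.H.hz1
  have hc : cC ^ 3 = 1 := Subtype.ext hc3
  have hne : cC ∉ Subgroup.zpowers zC := by
    intro h
    obtain ⟨k, hk⟩ := Subgroup.mem_zpowers_iff.1 h
    have h1 : z ^ k = c := congrArg Subtype.val hk
    apply hcp
    have hz1 : π z = 1 := by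
      have := D.piS 0 1
      rwa [D.H.S_zk, pw_one] at this
    rw [← h1, map_zpow, hz1, _root_.one_zpow]
  obtain ⟨H, hH, hzH⟩ := H77.SPH.exists_compl D.card_cent zC cC hz oz hc hne
  refine D.law_of_compl H hH ?_
  intro y hy h
  apply hzH
  have : y = zC := Subtype.ext h
  rwa [← this]

end H60.SP
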