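import Mathlib
import Cfsg.Agent.Lib.H28.RelHall

/-! Tutte--Sims bound: systems of involutions permuted by a shift (helper60). -/

set_option autoImplicit false

namespace H60.SimsA

open Subgroup

variable {G : Type*} [Group G]

/-- `⟨x_l : i ≤ l < j⟩` -/
def A (x : ℤ → G) (i j : ℤ) : Subgroup G := closure (x '' {l | i ≤ l ∧ l < j})

theorem mem_A (x : ℤ → G) {i j l : ℤ} (h1 : i ≤ l) (h2 : l < j) : x l ∈ A x i j :=
  subset_closure ⟨l, ⟨h1, h2⟩, rfl⟩

theorem A_le {x : ℤ → G} {i j : ℤ} {H : Subgroup G} (h : ∀ l, i ≤ l → l < j → x l ∈ H) : A x i j ≤ H := by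
  rw [A, closure_le]
  rintro _ ⟨l, ⟨h1, h2⟩, rfl⟩
  exact h l h1 h2

theorem A_mono {x : ℤ → G} {i j i' j' : ℤ} (h1 : i' ≤ i) (h2 : j ≤ j') : A x i j ≤ A x i' j' :=
  A_le fun l hl1 hl2 => mem_A x (h1.trans hl1) (lt_of_lt_of_le hl2 h2)

theorem A_empty {x : ℤ → G} {i j : ℤ} (h : j ≤ i) : A x i j = ⊥ := by
  rw [eq_bot_iff]
  exact A_le fun _ h1 h2 => by omega

theorem A_sup {x : ℤ → G} {i j k : ℤ} (h1 : i ≤ j) (h2 : j ≤ k) : A x i j ⊔ A x j k = A x i k := by
  apply le_antisymm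
  · exact sup_le (A_mono le_rfl h2) (A_mono h1 le_rfl)
  · apply A_le
    intro l hl1 hl2
    by_cases h : l < j
    · exact mem_sup_left (mem_A x hl1 h)
    · exact mem_sup_right (mem_A x (by omega) hl2)

theorem A_comm {x : ℤ → G} {i j : ℤ} {t w : G} (h : ∀ l, i ≤ l → l < j → t * x l = x l * t) (hw : w ∈ A x i j) :
    t * w = w * t := by
  have : A x i j ≤ centralizer {t} := A_le fun l h1 h2 => by
    rw [mem_centralizer_singleton_iff]; exact (h l h1 h2).symm
  exact (mem_centralizer_singleton_iff.mp (this hw)).symm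

/-- the structure -/
structure Sys (h : G) (x : ℤ → G) (n : ℕ) : Prop where
  step : ∀ i, x (i + 1) = h * x i * h⁻¹
  sq : ∀ i, x i * x i = 1
  card : ∀ (i : ℤ) (m : ℕ), m ≤ n → Nat.card (A x i (i + m)) = 2 ^ m
  core : ∀ N : Subgroup G, N ≤ A x 0 (n + 1) → (∀ i : ℤ, 0 ≤ i → i ≤ n + 1 → x i ∈ normalizer (N : Set G)) → N = ⊥
  nonab : ¬ ∀ i j : ℤ, 0 ≤ i → i ≤ n → 0 ≤ j → j ≤ n → x i * x j = x j * x i

namespace Sys

variable {h : G} {x : ℤ → G} {n : ℕ}

theorem shift (S : Sys h x n) (i k : ℤ) : x (i + k) = h ^ k * x i * (h ^ k)⁻¹ := by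
  induction k using Int.induction_on with
  | zero => simp
  | succ k ih =>
    rw [← add_assoc, S.step, ih, zpow_add_one]
    have : h * h ^ (k : ℤ) = h ^ (k : ℤ) * h := (Commute.self_zpow h k).eq
    calc h * (h ^ (k : ℤ) * x i * (h ^ (k : ℤ))⁻¹) * h⁻¹ = (h * h ^ (k : ℤ)) * x i * (h * h ^ (k : ℤ))⁻¹ := by group
      _ = _ := by rw [this]
  | pred k ih =>
    have h1 := S.step (i + (-(k : ℤ) - 1))
    rw [show i + (-(k : ℤ) - 1) + 1 = i + -(k : ℤ) by ring, ih] at h1
    have h2 : x (i + (-(k : ℤ) - 1)) = h⁻¹ * (h ^ (-(k : ℤ)) * x i * (h ^ (-(k : ℤ)))⁻¹) * h := by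
      rw [h1]; group
    rw [h2, zpow_sub_one]
    have : h⁻¹ * h ^ (-(k : ℤ)) = h ^ (-(k : ℤ)) * h⁻¹ := ((Commute.self_zpow h (-(k : ℤ))).inv_left).eq
    calc h⁻¹ * (h ^ (-(k : ℤ)) * x i * (h ^ (-(k : ℤ)))⁻¹) * h
        = (h⁻¹ * h ^ (-(k : ℤ))) * x i * (h⁻¹ * h ^ (-(k : ℤ)))⁻¹ := by group
      _ = _ := by rw [this]

theorem comm_shift (S : Sys h x n) {i j : ℤ} (k : ℤ) (hc : x i * x j = x j * x i) :
    x (i + k) * x (j + k) = x (j + k) * x (i + k) := by
  rw [S.shift i k, S.shift j k]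
  calc h ^ k * x i * (h ^ k)⁻¹ * (h ^ k * x j * (h ^ k)⁻¹) = h ^ k * (x i * x j) * (h ^ k)⁻¹ := by group
    _ = h ^ k * (x j * x i) * (h ^ k)⁻¹ := by rw [hc]
    _ = _ := by group

theorem inv_eq (S : Sys h x n) (i : ℤ) : (x i)⁻¹ = x i := inv_eq_of_mul_eq_one_left (S.sq i)

theorem exists_lam (S : Sys h x n) : ∃ L : ℕ, 1 ≤ L ∧ L ≤ n ∧ x 0 * x L ≠ x L * x 0 ∧
    ∀ i j : ℤ, |i - j| < L → x i * x j = x j * x i := by
  classical
  have hex : ∃ L : ℕ, x 0 * x L ≠ x L * x 0 ∧ L ≤ n := by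
    by_contra hcon
    push Not at hcon
    apply S.nonab
    have key : ∀ i j : ℤ, 0 ≤ i → i ≤ n → 0 ≤ j → j ≤ n → i ≤ j → x i * x j = x j * x i := by
      intro i j hi0 hin hj0 hjn hij
      obtain ⟨L, hL⟩ : ∃ L : ℕ, j - i = L := ⟨(j - i).toNat, by omega⟩
      have h1 : x 0 * x (L : ℤ) = x (L : ℤ) * x 0 := by
        by_contra hne
        have := hcon L hne
        omega
      have h2 := S.comm_shift i h1
      rwa [zero_add, ← hL, sub_add_cancel] at h2
    intro i j hi0 hin hj0 hjn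
    rcases le_total i j with h | h
    · exact key i j hi0 hin hj0 hjn h
    · exact (key j i hj0 hjn hi0 hin h).symm
  let L := Nat.find hex
  have hL : x 0 * x (L : ℤ) ≠ x (L : ℤ) * x 0 ∧ L ≤ n := Nat.find_spec hex
  have hmin : ∀ m : ℕ, m < L → x 0 * x (m : ℤ) = x (m : ℤ) * x 0 := by
    intro m hm
    have := Nat.find_min hex hm
    by_contra hne
    exact this ⟨hne, by omega⟩
  refine ⟨L, ?_, hL.2, hL.1, ?_⟩
  · by_contra hlt
    have : L = 0 := by omega
    have h1 := hL.1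
    rw [this] at h1
    exact h1 rfl
  · have key : ∀ i j : ℤ, i ≤ j → j - i < L → x i * x j = x j * x i := by
      intro i j hij hlt
      obtain ⟨m, hm⟩ : ∃ m : ℕ, j - i = m := ⟨(j - i).toNat, by omega⟩
      have h2 := S.comm_shift i (hmin m (by omega))
      rwa [zero_add, ← hm, sub_add_cancel] at h2
    intro i j hij
    rw [abs_lt] at hij
    rcases le_total i j with h | h
    · exact key i j h (by omega)
    · exact (key j i h (by omega)).symm

theorem finite_A (S : Sys h x n) (i : ℤ) (m : ℕ) (hm : m ≤ n) : Finite (A x i (i + m)) := by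
  apply Nat.finite_of_card_ne_zero
  rw [S.card i m hm]
  positivity

/-- consecutive intersections -/
theorem inf_eq (S : Sys h x n) (i : ℤ) (m : ℕ) (hm : 1 ≤ m) (hmn : m + 1 ≤ n) :
    A x i (i + m) ⊓ A x (i + 1) (i + m + 1) = A x (i + 1) (i + m) := by
  have hf1 : Finite (A x i (i + m)) := S.finite_A i m (by omega)
  have hle : A x (i + 1) (i + m) ≤ A x i (i + m) ⊓ A x (i + 1) (i + m + 1) :=
    le_inf (A_mono (by omega) le_rfl) (A_mono le_rfl (by omega))
  have hf2 : Finite (A x i (i + m) ⊓ A x (i + 1) (i + m + 1) : Subgroup G) :=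
    Finite.of_injective _ (inclusion_injective (inf_le_left : _ ≤ A x i (i + m)))
  symm
  apply Subgroup.eq_of_le_of_card_ge hle
  have h1 : Nat.card (A x i (i + m) ⊓ A x (i + 1) (i + m + 1) : Subgroup G) ∣ 2 ^ m := by
    rw [← S.card i m (by omega)]
    exact card_dvd_of_le inf_le_left
  obtain ⟨k, hk, hk2⟩ := (Nat.dvd_prime_pow Nat.prime_two).mp h1
  have hcardR : Nat.card (A x (i + 1) (i + m)) = 2 ^ (m - 1) := by
    have := S.card (i + 1) (m - 1) (by omega)
    rwa [show i + 1 + ((m - 1 : ℕ) : ℤ) = i + m by push_cast [hm]; ring] at this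
  rw [hk2, hcardR]
  apply Nat.pow_le_pow_right (by norm_num)
  by_contra hlt
  have hkm : k = m := by omega
  rw [hkm, ← S.card i m (by omega)] at hk2
  have h3 : A x i (i + m) ⊓ A x (i + 1) (i + m + 1) = A x i (i + m) :=
    Subgroup.eq_of_le_of_card_ge inf_le_left hk2.ge
  have h4 : x i ∈ A x (i + 1) (i + m + 1) := by
    have : x i ∈ A x i (i + m) := mem_A x le_rfl (by omega)
    rw [← h3] at this
    exact this.2
  have h5 : A x i (i + ((m + 1 : ℕ) : ℤ)) ≤ A x (i + 1) (i + 1 + m) := by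
    apply A_le
    intro l hl1 hl2
    by_cases h : l = i
    · rw [h]
      rwa [show i + 1 + (m : ℤ) = i + m + 1 by ring]
    · exact mem_A x (by omega) (by push_cast at hl2; omega)
  have hf3 : Finite (A x (i + 1) (i + 1 + m)) := S.finite_A (i + 1) m (by omega)
  have h6 := card_le_of_le h5
  rw [S.card i (m + 1) hmn, S.card (i + 1) m (by omega)] at h6
  have : 2 ^ m < 2 ^ (m + 1) := Nat.pow_lt_pow_right (by norm_num) (by omega)
  omega

/-- commutators of the two ends -/
theorem comm_mem (S : Sys h x n) (i : ℤ) (m : ℕ) (hm : 1 ≤ m) (hmn : m + 1 ≤ n) :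
    x i * x (i + m) * x i * x (i + m) ∈ A x (i + 1) (i + m) := by
  rw [← S.inf_eq i m hm hmn]
  have hf : Finite (A x i (i + ((m + 1 : ℕ) : ℤ))) := S.finite_A i (m + 1) hmn
  -- index two subgroups are normal
  have hnorm : ∀ (H : Subgroup G), H ≤ A x i (i + ((m + 1 : ℕ) : ℤ)) → Nat.card H = 2 ^ m →
      A x i (i + ((m + 1 : ℕ) : ℤ)) ≤ normalizer (H : Set G) := by
    intro H hH hc
    have hidx : (H.subgroupOf (A x i (i + ((m + 1 : ℕ) : ℤ)))).index = 2 := by
      have h1 := (H.subgroupOf (A x i (i + ((m + 1 : ℕ) : ℤ)))).card_mul_index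
      rw [Nat.card_congr (subgroupOfEquivOfLe hH).toEquiv, hc, S.card i (m + 1) hmn, pow_succ] at h1
      exact Nat.eq_of_mul_eq_mul_left (by positivity) h1
    have := normal_of_index_eq_two hidx
    exact (normal_subgroupOf_iff_le_normalizer hH).mp this
  have hi : x i ∈ A x i (i + ((m + 1 : ℕ) : ℤ)) := mem_A x le_rfl (by push_cast; omega)
  have hj : x (i + m) ∈ A x i (i + ((m + 1 : ℕ) : ℤ)) := mem_A x (by omega) (by push_cast; omega)
  rw [mem_inf]
  constructor
  · have h1 := hnorm (A x i (i + m)) (A_mono le_rfl (by push_cast; omega)) (S.card i m (by omega))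
    have h2 := (mem_normalizer_iff.mp (h1 hj) (x i)).mp (mem_A x le_rfl (by omega))
    rw [S.inv_eq] at h2
    have h3 := (A x i (i + m)).mul_mem (mem_A x (le_refl i) (by omega : i < i + m)) h2
    simpa only [mul_assoc] using h3
  · have h1 := hnorm (A x (i + 1) (i + m + 1)) (A_mono (by omega) (by push_cast; omega)) (by
      have := S.card (i + 1) m (by omega)
      rwa [show i + 1 + (m : ℤ) = i + m + 1 by ring] at this)
    have h2 := (mem_normalizer_iff.mp (h1 hi) (x (i + m))).mp (mem_A x (by omega) (by omega))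
    rw [S.inv_eq] at h2
    exact (A x (i + 1) (i + m + 1)).mul_mem h2 (mem_A x (by omega) (by omega))

/-- splitting off the left generator -/
theorem split_left (S : Sys h x n) {i j : ℤ} (hc : ∀ l, i ≤ l → l < j → x i * x l = x l * x i) {w : G}
    (hw : w ∈ A x i j) : w ∈ A x (i + 1) j ∨ ∃ w' ∈ A x (i + 1) j, w = x i * w' := by
  let T : Subgroup G :=
    { carrier := {w | w ∈ A x (i + 1) j ∨ ∃ w' ∈ A x (i + 1) j, w = x i * w'}
      mul_mem' := by
        have hcc : ∀ w ∈ A x (i + 1) j, x i * w = w * x i := fun w hw =>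
          A_comm (fun l h1 h2 => hc l (by omega) h2) hw
        rintro a b (ha | ⟨a', ha', rfl⟩) (hb | ⟨b', hb', rfl⟩)
        · exact Or.inl (mul_mem ha hb)
        · exact Or.inr ⟨a * b', mul_mem ha hb', by rw [← mul_assoc, ← mul_assoc, hcc a ha]⟩
        · exact Or.inr ⟨a' * b, mul_mem ha' hb, by rw [mul_assoc]⟩
        · refine Or.inl ?_
          rw [hcc a' ha', mul_assoc, ← mul_assoc (x i), S.sq, one_mul]
          exact mul_mem ha' hb'
      one_mem' := Or.inl (one_mem _)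
      inv_mem' := by
        have hcc : ∀ w ∈ A x (i + 1) j, x i * w = w * x i := fun w hw =>
          A_comm (fun l h1 h2 => hc l (by omega) h2) hw
        rintro a (ha | ⟨a', ha', rfl⟩)
        · exact Or.inl (inv_mem ha)
        · refine Or.inr ⟨a'⁻¹, inv_mem ha', ?_⟩
          rw [mul_inv_rev, S.inv_eq, hcc _ (inv_mem ha')] }
  have : A x i j ≤ T := by
    apply A_le
    intro l h1 h2
    by_cases h : l = i
    · exact Or.inr ⟨1, one_mem _, by rw [h, mul_one]⟩
    · exact Or.inl (mem_A x (by omega) h2)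
  exact this hw

/-- splitting off the right generator -/
theorem split_right (S : Sys h x n) {i j : ℤ} (hc : ∀ l, i ≤ l → l ≤ j → x j * x l = x l * x j) {w : G}
    (hw : w ∈ A x i (j + 1)) : w ∈ A x i j ∨ ∃ w' ∈ A x i j, w = x j * w' := by
  let T : Subgroup G :=
    { carrier := {w | w ∈ A x i j ∨ ∃ w' ∈ A x i j, w = x j * w'}
      mul_mem' := by
        have hcc : ∀ w ∈ A x i j, x j * w = w * x j := fun w hw =>
          A_comm (fun l h1 h2 => hc l (by omega) (by omega)) hw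
        rintro a b (ha | ⟨a', ha', rfl⟩) (hb | ⟨b', hb', rfl⟩)
        · exact Or.inl (mul_mem ha hb)
        · exact Or.inr ⟨a * b', mul_mem ha hb', by rw [← mul_assoc, ← mul_assoc, hcc a ha]⟩
        · exact Or.inr ⟨a' * b, mul_mem ha' hb, by rw [mul_assoc]⟩
        · refine Or.inl ?_
          rw [hcc a' ha', mul_assoc, ← mul_assoc (x j), S.sq, one_mul]
          exact mul_mem ha' hb'
      one_mem' := Or.inl (one_mem _)
      inv_mem' := by
        have hcc : ∀ w ∈ A x i j, x j * w = w * x j := fun w hw =>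
          A_comm (fun l h1 h2 => hc l (by omega) (by omega)) hw
        rintro a (ha | ⟨a', ha', rfl⟩)
        · exact Or.inl (inv_mem ha)
        · refine Or.inr ⟨a'⁻¹, inv_mem ha', ?_⟩
          rw [mul_inv_rev, S.inv_eq, hcc _ (inv_mem ha')] }
  have : A x i (j + 1) ≤ T := by
    apply A_le
    intro l h1 h2
    by_cases h : l = j
    · exact Or.inr ⟨1, one_mem _, by rw [h, mul_one]⟩
    · exact Or.inl (mem_A x h1 (by omega))
  exact this hw

/-- independence -/
theorem indep (S : Sys h x n) {L : ℕ} (hL : ∀ i j : ℤ, |i - j| < L → x i * x j = x j * x i) (i : ℤ) (a b : ℕ)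
    (hab : a + b ≤ L) (hn : a + b ≤ n) : A x i (i + a) ⊓ A x (i + a) (i + a + b) = ⊥ := by
  have hf1 : Finite (A x i (i + a)) := S.finite_A i a (by omega)
  have hf2 : Finite (A x (i + a) (i + a + b)) := S.finite_A (i + a) b (by omega)
  have hfs : Finite (A x i (i + ((a + b : ℕ) : ℤ))) := S.finite_A i (a + b) hn
  have hle : A x i (i + a) ≤ normalizer (A x (i + a) (i + a + b) : Set G) := by
    refine le_trans ?_ (centralizer_le_normalizer _)
    apply A_le
    intro l h1 h2
    rw [mem_centralizer_iff]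
    intro w hw
    exact (A_comm (fun l' h3 h4 => hL l l' (by rw [abs_lt]; constructor <;> omega)) hw).symm
  -- work inside the big finite group
  have hsup : A x i (i + a) ⊔ A x (i + a) (i + a + b) = A x i (i + ((a + b : ℕ) : ℤ)) := by
    rw [A_sup (by omega) (by omega)]
    congr 1; push_cast; ring
  set T := A x i (i + ((a + b : ℕ) : ℤ)) with hT
  have hU : A x i (i + a) ≤ T := A_mono le_rfl (by push_cast; omega)
  have hW : A x (i + a) (i + a + b) ≤ T := A_mono (by omega) (by push_cast; omega)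
  have h1 := H28.RelHall.card_sup_mul_card_inf (H := (A x i (i + a)).subgroupOf T)
    (N := (A x (i + a) (i + a + b)).subgroupOf T) (by
      rw [← subgroupOf_normalizer_eq hW]
      exact comap_mono hle)
  rw [← subgroupOf_sup hU hW, hsup, subgroupOf_self, card_top] at h1
  rw [Nat.card_congr (subgroupOfEquivOfLe hU).toEquiv, Nat.card_congr (subgroupOfEquivOfLe hW).toEquiv,
    S.card i (a + b) hn, S.card i a (by omega), S.card (i + a) b (by omega), pow_add] at h1
  have h2 : Nat.card ((A x i (i + a)).subgroupOf T ⊓ (A x (i + a) (i + a + b)).subgroupOf T : Subgroup T) = 1 := by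
    have : 0 < 2 ^ a * 2 ^ b := by positivity
    exact Nat.eq_of_mul_eq_mul_left this (by rw [h1, mul_one])
  have h3 := eq_bot_of_card_eq _ h2
  rw [eq_bot_iff]
  rintro w ⟨hw1, hw2⟩
  have : (⟨w, hU hw1⟩ : T) ∈ ((A x i (i + a)).subgroupOf T ⊓ (A x (i + a) (i + a + b)).subgroupOf T : Subgroup T) :=
    ⟨hw1, hw2⟩
  rw [h3, mem_bot] at this
  exact congrArg Subtype.val this

end Sys

end H60.SimsA
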