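import Mathlib
import Cfsg.Agent.Lib.H60.SimsA

/-! Tutte--Sims bound: the bound `n ≤ 4` (helper60). -/

set_option autoImplicit false
set_option linter.unusedVariables false
set_option linter.unusedTactic false

namespace H60.SimsB

open Subgroup H60.SimsA

variable {G : Type*} [Group G] {h : G} {x : ℤ → G} {n : ℕ}

theorem bound2 (S : Sys h x n) {L : ℕ} (hL1 : 1 ≤ L) (hLn : L ≤ n)
    (hL : ∀ i j : ℤ, |i - j| < L → x i * x j = x j * x i) : 2 * L ≤ n + 2 := by
  by_contra hlt
  push Not at hlt
  have hc : ∀ i : ℤ, 0 ≤ i → i ≤ n + 1 → x i * x (L - 1) = x (L - 1) * x i := by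
    intro i h1 h2
    apply hL
    rw [abs_lt]
    constructor <;> omega
  have h1 := S.core (zpowers (x (L - 1))) (by
    rw [zpowers_le]
    exact mem_A x (by omega) (by omega)) (by
    intro i h1 h2
    apply centralizer_le_normalizer
    rw [mem_centralizer_iff]
    intro w hw
    obtain ⟨k, rfl⟩ := mem_zpowers_iff.mp hw
    exact ((Commute.zpow_left (hc i h1 h2 : Commute (x i) (x (L - 1))).symm k).eq))
  rw [zpowers_eq_bot] at h1
  -- then `A` has order one
  have h2 := S.card (L - 1) 1 (by omega)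
  have h3 : A x (L - 1) (L - 1 + (1 : ℕ)) = ⊥ := by
    rw [eq_bot_iff]
    apply A_le
    intro l hl1 hl2
    push_cast at hl2
    have : l = L - 1 := by omega
    rw [this, h1]; exact one_mem _
  rw [h3, card_bot] at h2
  norm_num at h2

theorem left_claim (S : Sys h x n) {L : ℕ} (hL1 : 1 ≤ L) (hne : x 0 * x L ≠ x L * x 0)
    (hL : ∀ i j : ℤ, |i - j| < L → x i * x j = x j * x i) (u : G) (hu : u = x 0 * x L * x 0 * x L)
    (hu0 : u ∈ A x 1 L) (hLn : L + 1 ≤ n) : ∀ m : ℕ, m + 1 + L ≤ n → u ∈ A x (m + 1) L := by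
  have hu1 : u ≠ 1 := by
    intro h1
    apply hne
    rw [h1] at hu
    have h2 : x 0 * x L = (x 0 * x L)⁻¹ := by
      rw [eq_inv_iff_mul_eq_one, hu]; group
    rw [h2, mul_inv_rev, S.inv_eq, S.inv_eq]
  intro m
  induction m with
  | zero => intro _; simpa using hu0
  | succ m ih =>
    intro hm
    have h1 := ih (by omega)
    -- `t = x (m+1+L)` commutes with `u`
    have hmL : m + 1 < L := by
      by_contra hge
      push Not at hge
      rw [A_empty (by push_cast; omega), mem_bot] at h1
      exact hu1 h1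
    set t := x (0 + ((m + 1 + L : ℕ) : ℤ)) with ht
    have htt : t * t = 1 := S.sq _
    have htL : t * x L = x L * t := by
      apply hL
      rw [abs_lt]; constructor <;> push_cast <;> omega
    have hv := S.comm_mem 0 (m + 1 + L) (by omega) (by omega)
    rw [← ht] at hv
    set v := x 0 * t * x 0 * t with hvdef
    have hLv : x L * v = v * x L := by
      refine A_comm (fun l h1 h2 => ?_) hv
      apply hL
      push_cast at h2
      rw [abs_lt]; constructor <;> omega
    have htx : t * x 0 * t = x 0 * v := by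
      rw [hvdef]
      calc t * x 0 * t = (x 0 * x 0) * t * x 0 * t := by rw [S.sq]; group
        _ = _ := by group
    have htx' : t * x 0 * t = v⁻¹ * x 0 := by
      have h2 : (t * x 0 * t)⁻¹ = t * x 0 * t := by
        rw [mul_inv_rev, mul_inv_rev, S.inv_eq 0, inv_eq_of_mul_eq_one_left htt, mul_assoc]
      rw [← h2, htx, mul_inv_rev, S.inv_eq 0]
    have htu : t * u * t = u := by
      have h2 : t * x L * t = x L := by rw [htL, mul_assoc, htt, mul_one]
      calc t * u * t = (t * x 0 * t) * (t * x L * t) * (t * x 0 * t) * (t * x L * t) := by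
            rw [hu]
            calc t * (x 0 * x L * x 0 * x L) * t
                = t * x 0 * 1 * x L * 1 * x 0 * 1 * x L * t := by group
              _ = t * x 0 * (t * t) * x L * (t * t) * x 0 * (t * t) * x L * t := by rw [htt]
              _ = _ := by group
        _ = (x 0 * v) * x L * (v⁻¹ * x 0) * x L := by rw [h2]; nth_rewrite 1 [htx]; rw [htx']
        _ = x 0 * (v * x L) * v⁻¹ * x 0 * x L := by group
        _ = x 0 * x L * x 0 * x L := by rw [← hLv]; group
        _ = u := hu.symm
    have htu' : t * u = u * t := by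
      calc t * u = (t * u * t) * t := by rw [mul_assoc (t * u), htt, mul_one]
        _ = u * t := by rw [htu]
    rcases S.split_left (i := m + 1) (j := L) (fun l h1 h2 => hL _ _ (by rw [abs_lt]; constructor <;> omega)) h1
      with h2 | ⟨w, hw, h2⟩
    · push_cast; exact h2
    · exfalso
      have htw : t * w = w * t := by
        refine A_comm (fun l h3 h4 => ?_) hw
        apply hL
        rw [abs_lt]; constructor <;> push_cast <;> omega
      have h3 : t * x (m + 1) = x (m + 1) * t := by
        have h4 : x (m + 1) = u * w⁻¹ := by rw [h2]; group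
        have h5 : t * w⁻¹ = w⁻¹ * t := by
          rw [eq_inv_mul_iff_mul_eq, ← mul_assoc, ← htw, mul_assoc, mul_inv_cancel, mul_one]
        rw [h4, ← mul_assoc, htu', mul_assoc, h5, mul_assoc]
      have h4 := S.comm_shift (-(m + 1 : ℤ)) h3
      apply hne
      rw [show (0 + ((m + 1 + L : ℕ) : ℤ)) + -(m + 1 : ℤ) = L by push_cast; ring,
        show ((m : ℤ) + 1) + -(m + 1 : ℤ) = 0 by ring] at h4
      exact h4.symm

theorem right_claim (S : Sys h x n) {L : ℕ} (hL1 : 1 ≤ L) (hne : x 0 * x L ≠ x L * x 0)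
    (hL : ∀ i j : ℤ, |i - j| < L → x i * x j = x j * x i) (u : G) (hu : u = x 0 * x L * x 0 * x L)
    (hu0 : u ∈ A x 1 L) (hLn : L + 1 ≤ n) : ∀ m : ℕ, m + 1 + L ≤ n → u ∈ A x 1 (L - m) := by
  have hu1 : u ≠ 1 := by
    intro h1
    apply hne
    rw [h1] at hu
    have h2 : x 0 * x L = (x 0 * x L)⁻¹ := by
      rw [eq_inv_iff_mul_eq_one, hu]; group
    rw [h2, mul_inv_rev, S.inv_eq, S.inv_eq]
  intro m
  induction m with
  | zero => intro _; simpa using hu0
  | succ m ih =>
    intro hm
    have h1 := ih (by omega)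
    have hmL : m + 1 < L := by
      by_contra hge
      push Not at hge
      rw [A_empty (by omega), mem_bot] at h1
      exact hu1 h1
    -- `ν = L - m - 1`, `t = x (ν - L) = x (-m-1)`
    set t := x (-(m : ℤ) - 1) with ht
    have htt : t * t = 1 := S.sq _
    have ht0 : t * x 0 = x 0 * t := by
      apply hL
      rw [abs_lt]; constructor <;> omega
    have hv := S.comm_mem (-(m : ℤ) - 1) (m + 1 + L) (by omega) (by omega)
    rw [← ht, show -(m : ℤ) - 1 + ((m + 1 + L : ℕ) : ℤ) = L by push_cast; ring] at hv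
    set v := t * x L * t * x L with hvdef
    have h0v : x 0 * v = v * x 0 := by
      refine A_comm (fun l h1 h2 => ?_) hv
      apply hL
      rw [abs_lt]; constructor <;> omega
    have htx : t * x L * t = v * x L := by
      rw [hvdef, mul_assoc _ (x L) (x L), S.sq, mul_one]
    have htx' : t * x L * t = x L * v⁻¹ := by
      have h2 : (t * x L * t)⁻¹ = t * x L * t := by
        rw [mul_inv_rev, mul_inv_rev, S.inv_eq L, inv_eq_of_mul_eq_one_left htt, mul_assoc]
      rw [← h2, htx, mul_inv_rev, S.inv_eq L]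
    have htu : t * u * t = u := by
      have h2 : t * x 0 * t = x 0 := by rw [ht0, mul_assoc, htt, mul_one]
      calc t * u * t = (t * x 0 * t) * (t * x L * t) * (t * x 0 * t) * (t * x L * t) := by
            rw [hu]
            calc t * (x 0 * x L * x 0 * x L) * t
                = t * x 0 * 1 * x L * 1 * x 0 * 1 * x L * t := by group
              _ = t * x 0 * (t * t) * x L * (t * t) * x 0 * (t * t) * x L * t := by rw [htt]
              _ = _ := by group
        _ = x 0 * (x L * v⁻¹) * x 0 * (v * x L) := by rw [h2]; nth_rewrite 1 [htx']; rw [htx]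
        _ = x 0 * x L * v⁻¹ * (x 0 * v) * x L := by group
        _ = x 0 * x L * x 0 * x L := by rw [h0v]; group
        _ = u := hu.symm
    have htu' : t * u = u * t := by
      calc t * u = (t * u * t) * t := by rw [mul_assoc (t * u), htt, mul_one]
        _ = u * t := by rw [htu]
    rcases S.split_right (i := 1) (j := L - m - 1) (w := u)
      (fun l h1 h2 => hL _ _ (by rw [abs_lt]; constructor <;> omega)) (by
        rwa [show (L : ℤ) - m - 1 + 1 = L - m by ring]) with h2 | ⟨w, hw, h2⟩
    · rwa [show (L : ℤ) - ((m + 1 : ℕ) : ℤ) = L - m - 1 by push_cast; ring]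
    · exfalso
      have htw : t * w = w * t := by
        refine A_comm (fun l h3 h4 => ?_) hw
        apply hL
        rw [abs_lt]; constructor <;> omega
      have h3 : t * x (L - m - 1) = x (L - m - 1) * t := by
        have h4 : x (L - m - 1) = u * w⁻¹ := by rw [h2]; group
        have h5 : t * w⁻¹ = w⁻¹ * t := by
          rw [eq_inv_mul_iff_mul_eq, ← mul_assoc, ← htw, mul_assoc, mul_inv_cancel, mul_one]
        rw [h4, ← mul_assoc, htu', mul_assoc, h5, mul_assoc]
      have h4 := S.comm_shift (m + 1 : ℤ) h3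
      apply hne
      rw [show (-(m : ℤ) - 1) + (m + 1 : ℤ) = 0 by ring,
        show ((L : ℤ) - m - 1) + (m + 1 : ℤ) = L by ring] at h4
      exact h4

theorem main (S : Sys h x n) : n ≤ 4 := by
  obtain ⟨L, hL1, hLn, hne, hL⟩ := S.exists_lam
  have hb2 := bound2 S hL1 hLn hL
  by_contra hn4
  push Not at hn4
  have hLn' : L + 1 ≤ n := by omega
  have hcm := S.comm_mem 0 L hL1 hLn'
  rw [zero_add, zero_add] at hcm
  set u := x 0 * x L * x 0 * x L with hu
  have hu1 : u ≠ 1 := by
    intro h1
    apply hne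
    rw [hu] at h1
    have h2 : x 0 * x L = (x 0 * x L)⁻¹ := by
      rw [eq_inv_iff_mul_eq_one, ← h1]; group
    rw [h2, mul_inv_rev, S.inv_eq, S.inv_eq]
  have hleft := left_claim S hL1 hne hL u hu hcm hLn' (n - L - 1) (by omega)
  have hright := right_claim S hL1 hne hL u hu hcm hLn' (n - L - 1) (by omega)
  rw [show ((n - L - 1 : ℕ) : ℤ) + 1 = n - L by omega] at hleft
  rw [show (L : ℤ) - ((n - L - 1 : ℕ) : ℤ) = 2 * L - n + 1 by omega] at hright
  -- `3 L ≥ 2 n`
  have hb1 : 2 * n ≤ 3 * L := by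
    by_contra hlt
    push Not at hlt
    apply hu1
    have h2 : u ∈ A x 1 (n - L) := A_mono le_rfl (by omega) hright
    by_cases hcase : n ≤ 2 * L
    · have h3 := S.indep hL 1 (n - L - 1) (2 * L - n) (by omega) (by omega)
      rw [show (1 : ℤ) + ((n - L - 1 : ℕ) : ℤ) = n - L by omega,
        show (n : ℤ) - L + ((2 * L - n : ℕ) : ℤ) = L by omega] at h3
      rw [← mem_bot, ← h3]
      exact ⟨h2, hleft⟩
    · rw [A_empty (by omega), mem_bot] at hright
      exact hright
  have hn6 : n = 6 ∧ L = 4 := by omega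
  obtain ⟨rfl, rfl⟩ := hn6
  -- the case n = 6, L = 4
  have huu : u = x 2 := by
    have h1 : u ∈ A x 1 (1 + 1 + 1) := by simpa using hright
    have h2 : u ∈ A x 2 4 := by simpa using hleft
    rcases S.split_left (i := 1) (j := 1 + 1 + 1) (fun l h1 h2 => hL _ _ (by rw [abs_lt]; constructor <;> push_cast <;> omega)) h1
      with h3 | ⟨w, hw, h3⟩
    · -- u ∈ A 2 3
      have h4 : A x (1 + 1) (1 + 1 + 1) ≤ zpowers (x 2) := by
        apply A_le
        intro l h5 h6
        have : l = 2 := by omega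
        rw [this]; exact mem_zpowers _
      obtain ⟨k, hk⟩ := mem_zpowers_iff.mp (h4 h3)
      rcases Int.even_or_odd' k with ⟨c, rfl | rfl⟩
      · exfalso
        apply hu1
        rw [← hk, zpow_mul, zpow_two, S.sq, one_zpow]
      · rw [← hk, zpow_add, zpow_mul, zpow_two, S.sq, one_zpow, one_mul, zpow_one]
    · exfalso
      -- x 1 ∈ A 2 4
      have h4 : x 1 ∈ A x 2 4 := by
        have h5 : w ∈ A x 2 4 := A_mono (by norm_num) (by norm_num) hw
        have h6 : x 1 = u * w⁻¹ := by rw [h3]; group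
        rw [h6]; exact mul_mem h2 (inv_mem h5)
      have h5 := S.indep hL 1 1 2 (by norm_num) (by norm_num)
      have h6 : x 1 ∈ A x 1 (1 + (1 : ℕ)) ⊓ A x (1 + (1 : ℕ)) (1 + (1 : ℕ) + (2 : ℕ)) :=
        ⟨mem_A x le_rfl (by norm_num), by simpa using h4⟩
      rw [h5, mem_bot] at h6
      have h7 := S.sq 0
      have h8 := S.comm_shift (i := 1) (j := 1) (-1) rfl
      apply hne
      have h9 := S.shift 1 (-1)
      rw [h6] at h9
      norm_num at h9
      rw [h9]; simp
  -- commutation relations
  have e04 : x 0 * x 4 * x 0 * x 4 = x 2 := huu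
  have hrel : ∀ k : ℤ, x k * x (k + 4) * x k * x (k + 4) = x (k + 2) := by
    intro k
    have h1 := S.shift 0 k
    have h2 := S.shift 4 k
    have h3 := S.shift 2 k
    rw [zero_add] at h1
    rw [add_comm] at h2 h3
    rw [h1, h2, h3, ← e04]; group
  -- v = [x 0, x 5]
  have hv := S.comm_mem 0 5 (by norm_num) (by norm_num)
  have hv' : x 0 * x 5 * x 0 * x 5 ∈ A x 1 5 := by simpa using hv
  set v := x 0 * x 5 * x 0 * x 5 with hvdef
  clear_value v
  have hc4 : ∀ i j : ℤ, |i - j| < 4 → x i * x j = x j * x i := by simpa using hL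
  have hnc15 : x 1 * x 5 ≠ x 5 * x 1 := by
    intro h1
    have h2 := S.comm_shift (-1) h1
    norm_num at h2
    exact hne (by simpa using h2)
  have hnc04 : x 0 * x 4 ≠ x 4 * x 0 := by simpa using hne
  -- v commutes with x 5 and x 0
  have hv5 : x 5 * v * x 5 = v⁻¹ := by
    rw [hvdef]
    simp only [mul_inv_rev, S.inv_eq]
    calc x 5 * (x 0 * x 5 * x 0 * x 5) * x 5 = x 5 * x 0 * x 5 * x 0 * (x 5 * x 5) := by group
      _ = x 5 * (x 0 * (x 5 * x 0)) := by rw [S.sq]; group
  have hv0 : x 0 * v * x 0 = v⁻¹ := by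
    rw [hvdef]
    simp only [mul_inv_rev, S.inv_eq]
    calc x 0 * (x 0 * x 5 * x 0 * x 5) * x 0 = (x 0 * x 0) * x 5 * x 0 * x 5 * x 0 := by group
      _ = x 5 * (x 0 * (x 5 * x 0)) := by rw [S.sq]; group
  have hvv : v * v = 1 := by
    -- A x 1 5 is elementary abelian
    have hcc : ∀ w ∈ A x 1 5, ∀ l : ℤ, 1 ≤ l → l < 5 → x l * w = w * x l := fun w hw l h1 h2 =>
      A_comm (fun l' h3 h4 => hc4 _ _ (by rw [abs_lt]; constructor <;> omega)) hw
    have hab : ∀ w ∈ A x 1 5, ∀ w' ∈ A x 1 5, w' * w = w * w' := by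
      intro w hw w' hw'
      exact (A_comm (fun l h1 h2 => (hcc w hw l h1 h2).symm) hw').symm
    have : A x 1 5 ≤ { carrier := {w | w ∈ A x 1 5 ∧ w * w = 1}
                       mul_mem' := by
                         rintro a b ⟨ha, ha2⟩ ⟨hb, hb2⟩
                         refine ⟨mul_mem ha hb, ?_⟩
                         calc a * b * (a * b) = a * (b * a) * b := by group
                           _ = a * (a * b) * b := by rw [hab a ha b hb]
                           _ = (a * a) * (b * b) := by group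
                           _ = 1 := by rw [ha2, hb2, one_mul]
                       one_mem' := ⟨one_mem _, one_mul 1⟩
                       inv_mem' := by
                         rintro a ⟨ha, ha2⟩
                         exact ⟨inv_mem ha, by rw [← mul_inv_rev, ha2, inv_one]⟩ : Subgroup G } :=
      A_le fun l h1 h2 => ⟨mem_A x h1 h2, S.sq l⟩
    exact (this hv').2
  have hvi : v⁻¹ = v := inv_eq_of_mul_eq_one_left hvv
  have hc5 : x 5 * v = v * x 5 := by
    calc x 5 * v = (x 5 * v * x 5) * x 5 := by rw [mul_assoc (x 5 * v), S.sq, mul_one]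
      _ = v * x 5 := by rw [hv5, hvi]
  have hc0 : x 0 * v = v * x 0 := by
    calc x 0 * v = (x 0 * v * x 0) * x 0 := by rw [mul_assoc (x 0 * v), S.sq, mul_one]
      _ = v * x 0 := by rw [hv0, hvi]
  have hv25 : v ∈ A x 2 5 := by
    rcases S.split_left (i := 1) (j := 5) (fun l h1 h2 => hc4 _ _ (by rw [abs_lt]; constructor <;> omega)) hv'
      with h3 | ⟨w, hw, h3⟩
    · exact h3
    · exfalso
      apply hnc15
      have h4 : x 5 * w = w * x 5 := A_comm (fun l h1 h2 => hc4 _ _ (by rw [abs_lt]; constructor <;> omega)) hw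
      have h5 : x 1 = v * w⁻¹ := by rw [h3]; group
      have h6 : x 5 * w⁻¹ = w⁻¹ * x 5 := by
        rw [eq_inv_mul_iff_mul_eq, ← mul_assoc, ← h4, mul_assoc, mul_inv_cancel, mul_one]
      calc x 1 * x 5 = v * (w⁻¹ * x 5) := by rw [h5, mul_assoc]
        _ = v * x 5 * w⁻¹ := by rw [← h6, mul_assoc]
        _ = x 5 * (v * w⁻¹) := by rw [← hc5, mul_assoc]
        _ = x 5 * x 1 := by rw [h5]
  have hv14 : v ∈ A x 1 4 := by
    rcases S.split_right (i := 1) (j := 4) (fun l h1 h2 => hc4 _ _ (by rw [abs_lt]; constructor <;> omega)) hv'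
      with h3 | ⟨w, hw, h3⟩
    · exact h3
    · exfalso
      apply hnc04
      have h4 : x 0 * w = w * x 0 := A_comm (fun l h1 h2 => hc4 _ _ (by rw [abs_lt]; constructor <;> omega)) hw
      have h5 : x 4 = v * w⁻¹ := by rw [h3]; group
      have h6 : x 0 * w⁻¹ = w⁻¹ * x 0 := by
        rw [eq_inv_mul_iff_mul_eq, ← mul_assoc, ← h4, mul_assoc, mul_inv_cancel, mul_one]
      calc x 0 * x 4 = (x 0 * v) * w⁻¹ := by rw [h5, mul_assoc]
        _ = v * (x 0 * w⁻¹) := by rw [hc0, mul_assoc]
        _ = (v * w⁻¹) * x 0 := by rw [h6, mul_assoc]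
        _ = x 4 * x 0 := by rw [h5]
  -- [x 2, x 7] ∈ A 3 6
  have hv27 : x 2 * x 7 * x 2 * x 7 ∈ A x 3 6 := by
    have h1 : x 2 * x 7 * x 2 * x 7 = h ^ (2 : ℤ) * v * (h ^ (2 : ℤ))⁻¹ := by
      have e0 := S.shift 0 2
      have e5 := S.shift 5 2
      norm_num at e0 e5
      rw [e0, e5, hvdef]; group
    rw [h1]
    have h2 : A x 1 4 ≤ (A x 3 6).comap (MulAut.conj (h ^ (2 : ℤ))).toMonoidHom := by
      apply A_le
      intro l h3 h4
      rw [mem_comap]
      show h ^ (2 : ℤ) * x l * (h ^ (2 : ℤ))⁻¹ ∈ _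
      rw [← S.shift l 2]
      exact mem_A x (by omega) (by omega)
    exact h2 hv14
  -- all the x i, 0 ≤ i ≤ 7, normalise A 2 6
  have hfin : Finite (A x 2 6) := by
    have := S.finite_A 2 4 (by norm_num)
    simpa using this
  have hnorm : ∀ i : ℤ, (∀ l : ℤ, 2 ≤ l → l < 6 → x i * x l * x i ∈ A x 2 6) → x i ∈ normalizer (A x 2 6 : Set G) := by
    intro i hi
    have h1 : ∀ w ∈ A x 2 6, x i * w * (x i)⁻¹ ∈ A x 2 6 := by
      intro w hw
      have h2 : A x 2 6 ≤ (A x 2 6).comap (MulAut.conj (x i)).toMonoidHom := by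
        apply A_le
        intro l h3 h4
        rw [mem_comap]
        show x i * x l * (x i)⁻¹ ∈ _
        rw [S.inv_eq]; exact hi l h3 h4
      exact h2 hw
    rw [mem_normalizer_iff]
    intro w
    refine ⟨h1 w, fun hw => ?_⟩
    have h2 := h1 _ hw
    rw [S.inv_eq] at h2
    have h3 : x i * (x i * w * x i) * x i = w := by
      calc x i * (x i * w * x i) * x i = (x i * x i) * w * (x i * x i) := by group
        _ = w := by rw [S.sq]; group
    rwa [h3] at h2
  have hclose : ∀ i l : ℤ, |i - l| < 4 → 2 ≤ l → l < 6 → x i * x l * x i ∈ A x 2 6 := by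
    intro i l h1 h2 h3
    rw [hc4 i l h1, mul_assoc, S.sq, mul_one]
    exact mem_A x h2 h3
  have hbot := S.core (A x 2 6) (A_mono (by norm_num) (by norm_num)) (by
    intro i h1 h2
    push_cast at h2
    have hi : i = 0 ∨ i = 1 ∨ i = 2 ∨ i = 3 ∨ i = 4 ∨ i = 5 ∨ i = 6 ∨ i = 7 := by omega
    apply hnorm
    intro l h3 h4
    have hl : l = 2 ∨ l = 3 ∨ l = 4 ∨ l = 5 := by omega
    by_cases hil : |i - l| < 4
    · exact hclose i l hil h3 h4
    · have hpairs : (i = 0 ∧ l = 4) ∨ (i = 0 ∧ l = 5) ∨ (i = 1 ∧ l = 5) ∨ (i = 6 ∧ l = 2) ∨ (i = 7 ∧ l = 2) ∨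
          (i = 7 ∧ l = 3) := by
        rw [abs_lt, not_and_or] at hil
        omega
      rcases hpairs with ⟨rfl, rfl⟩ | ⟨rfl, rfl⟩ | ⟨rfl, rfl⟩ | ⟨rfl, rfl⟩ | ⟨rfl, rfl⟩ | ⟨rfl, rfl⟩
      · have : x 0 * x 4 * x 0 = x 2 * x 4 := by
          rw [← e04, mul_assoc _ (x 4) (x 4), S.sq, mul_one]
        rw [this]
        exact mul_mem (mem_A x (by norm_num) (by norm_num)) (mem_A x (by norm_num) (by norm_num))
      · have : x 0 * x 5 * x 0 = v * x 5 := by
          rw [hvdef, mul_assoc _ (x 5) (x 5), S.sq, mul_one]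
        rw [this]
        exact mul_mem (A_mono le_rfl (by norm_num) hv25) (mem_A x (by norm_num) (by norm_num))
      · have h5 := hrel 1
        norm_num at h5
        have : x 1 * x 5 * x 1 = x 3 * x 5 := by
          rw [← h5, mul_assoc _ (x 5) (x 5), S.sq, mul_one]
        rw [this]
        exact mul_mem (mem_A x (by norm_num) (by norm_num)) (mem_A x (by norm_num) (by norm_num))
      · have h5 := hrel 2
        norm_num at h5
        have : x 6 * x 2 * x 6 = x 2 * x 4 := by
          rw [← h5]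
          calc x 6 * x 2 * x 6 = (x 2 * x 2) * x 6 * x 2 * x 6 := by rw [S.sq]; group
            _ = _ := by group
        rw [this]
        exact mul_mem (mem_A x (by norm_num) (by norm_num)) (mem_A x (by norm_num) (by norm_num))
      · have : x 7 * x 2 * x 7 = x 2 * (x 2 * x 7 * x 2 * x 7) := by
          calc x 7 * x 2 * x 7 = (x 2 * x 2) * x 7 * x 2 * x 7 := by rw [S.sq]; group
            _ = _ := by group
        rw [this]
        exact mul_mem (mem_A x (by norm_num) (by norm_num)) (A_mono (by norm_num) le_rfl hv27)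
      · have h5 := hrel 3
        norm_num at h5
        have : x 7 * x 3 * x 7 = x 3 * x 5 := by
          rw [← h5]
          calc x 7 * x 3 * x 7 = (x 3 * x 3) * x 7 * x 3 * x 7 := by rw [S.sq]; group
            _ = _ := by group
        rw [this]
        exact mul_mem (mem_A x (by norm_num) (by norm_num)) (mem_A x (by norm_num) (by norm_num)))
  have hcard := S.card 2 4 (by norm_num)
  norm_num at hcard
  rw [hbot, card_bot] at hcard
  norm_num at hcard

end H60.SimsB
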