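import Mathlib
import Cfsg.Agent.Lib.H60.SimsB
import Cfsg.Agent.Lib.H28.Cj

/-! Tutte--Sims bound: from a maximal subgroup with a conjugate meeting it in index 3 (helper60). -/

set_option autoImplicit false
set_option linter.unusedVariables false

namespace H60.SimsC

open Subgroup H28.Cj H60.SimsA

section lemmas

theorem perm_three {α : Type*} (hα : Nat.card α = 3) (σ : Equiv.Perm α) (a : α) (h : σ a = a) : σ ^ 2 = 1 := by
  have : Finite α := Nat.finite_of_card_ne_zero (by omega)
  have e : α ≃ Fin 3 := Finite.equivFinOfCardEq hα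
  have key : ∀ (τ : Equiv.Perm (Fin 3)) (b : Fin 3), τ b = b → τ ^ 2 = 1 := by decide
  have h1 := key (e.permCongr σ) (e a) (by simp [h])
  have h2 : e.permCongrHom (σ ^ 2) = e.permCongrHom 1 := by
    rw [map_pow, map_one]; exact h1
  exact e.permCongrHom.injective h2

theorem odd_conj_mem {X : Type*} [Group X] (H : Subgroup X) (hH : H.index = 3) {x : X} (hx : x ∈ H)
    (hodd : Odd (orderOf x)) (p : X) : p * x * p⁻¹ ∈ H := by
  let σ : Equiv.Perm (X ⧸ H) := MulAction.toPermHom X (X ⧸ H) x
  have h1 : σ ^ 2 = 1 := by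
    apply perm_three (α := X ⧸ H) hH σ ((1 : X) : X ⧸ H)
    show x • ((1 : X) : X ⧸ H) = ((1 : X) : X ⧸ H)
    rw [MulAction.Quotient.smul_coe, QuotientGroup.eq]
    simpa using H.inv_mem hx
  have h2 : σ ^ orderOf x = 1 := by
    show (MulAction.toPermHom X (X ⧸ H) x) ^ orderOf x = 1
    rw [← map_pow, pow_orderOf_eq_one, map_one]
  have h3 : σ = 1 := by
    obtain ⟨k, hk⟩ := hodd
    rw [hk, pow_succ, pow_mul, h1, one_pow, one_mul] at h2
    exact h2
  have h4 : σ ((p⁻¹ : X) : X ⧸ H) = ((p⁻¹ : X) : X ⧸ H) := by rw [h3]; rfl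
  have h5 : x • ((p⁻¹ : X) : X ⧸ H) = ((p⁻¹ : X) : X ⧸ H) := h4
  rw [MulAction.Quotient.smul_coe, QuotientGroup.eq] at h5
  have h6 := H.inv_mem h5
  have h7 : ((x • p⁻¹)⁻¹ * p⁻¹)⁻¹ = p * x * p⁻¹ := by rw [smul_eq_mul]; group
  rwa [h7] at h6

variable {G : Type*} [Group G] [Finite G]

theorem relIndex_mul_card {H K : Subgroup G} (h : H ≤ K) : H.relIndex K * Nat.card H = Nat.card K := by
  have := Subgroup.relIndex_mul_relIndex ⊥ H K bot_le h
  rw [relIndex_bot_left, relIndex_bot_left] at this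
  rw [mul_comm]; exact this

theorem relIndex_le_of_le' {H K L : Subgroup G} (hKL : K ≤ L) : H.relIndex K ≤ H.relIndex L :=
  Subgroup.relIndex_le_of_le_right hKL (by unfold relIndex; exact index_ne_zero_of_finite)

theorem gen (X H1 H2 : Subgroup G) (k n : ℕ) (hk : k = 2 ∨ k = 3) (h1X : H1 ≤ X) (h2X : H2 ≤ X)
    (hc1 : Nat.card H1 = 2 ^ n) (hc2 : Nat.card H2 = 2 ^ n) (hX : Nat.card X = k * 2 ^ n) (hne : H1 ≠ H2) :
    H1 ⊔ H2 = X ∧ Nat.card (H1 ⊓ H2 : Subgroup G) * 2 = Nat.card H1 := by
  have hkp : k.Prime := by rcases hk with rfl | rfl <;> norm_num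
  have hi1 : H1.relIndex X = k := by
    have := relIndex_mul_card h1X
    rw [hc1, hX] at this
    exact Nat.eq_of_mul_eq_mul_right (by positivity) this
  have hi2 : H2.relIndex X = k := by
    have := relIndex_mul_card h2X
    rw [hc2, hX] at this
    exact Nat.eq_of_mul_eq_mul_right (by positivity) this
  constructor
  · have hle : H1 ⊔ H2 ≤ X := sup_le h1X h2X
    have h3 := Subgroup.relIndex_mul_relIndex H1 (H1 ⊔ H2) X le_sup_left hle
    rw [hi1] at h3
    rcases (Nat.dvd_prime hkp).mp (Dvd.intro_left _ h3) with h4 | h4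
    · apply le_antisymm hle
      exact relIndex_eq_one.mp h4
    · exfalso
      rw [h4] at h3
      have h5 : H1.relIndex (H1 ⊔ H2) = 1 := Nat.eq_of_mul_eq_mul_right hkp.pos (by rw [h3, one_mul])
      have h6 : H2 ≤ H1 := le_sup_right.trans (relIndex_eq_one.mp h5)
      exact hne (Subgroup.eq_of_le_of_card_ge h6 (by rw [hc1, hc2])).symm
  · have h3 := relIndex_mul_card (inf_le_left : H1 ⊓ H2 ≤ H1)
    rw [inf_relIndex_left] at h3
    have h4 : H2.relIndex H1 ≤ k := by rw [← hi2]; exact relIndex_le_of_le' h1X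
    have h5 : H2.relIndex H1 ∣ 2 ^ n := by rw [← hc1, ← h3]; exact Dvd.intro _ rfl
    obtain ⟨j, -, hj⟩ := (Nat.dvd_prime_pow Nat.prime_two).mp h5
    have hj1 : j = 1 := by
      have hk3 : k ≤ 3 := by rcases hk with rfl | rfl <;> norm_num
      have hj0 : j ≠ 0 := by
        rintro rfl
        rw [pow_zero] at hj
        have h6 : H1 ≤ H2 := relIndex_eq_one.mp hj
        exact hne (Subgroup.eq_of_le_of_card_ge h6 (by rw [hc1, hc2]))
      by_contra hne1
      have : 2 ^ 2 ≤ 2 ^ j := Nat.pow_le_pow_right (by norm_num) (by omega)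
      omega
    rw [hj, hj1, pow_one] at h3
    rw [mul_comm]; exact h3

end lemmas

variable {G : Type*} [Group G] [Finite G]

/-- a subgroup normalised by `P` and `g ∉ P`, contained in `P` is trivial -/
theorem core_triv {P : Subgroup G} (hP : IsCoatom P) (hcore : P.normalCore = ⊥) {N : Subgroup G} (hN : N ≤ P)
    (h1 : P ≤ normalizer (N : Set G)) {g : G} (hg : g ∉ P) (h2 : g ∈ normalizer (N : Set G)) : N = ⊥ := by
  have h3 : normalizer (N : Set G) = ⊤ := by
    apply hP.2
    refine lt_of_le_of_ne h1 fun h => hg ?_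
    rw [h]; exact h2
  have h4 : N.Normal := normalizer_eq_top_iff.mp h3
  rw [eq_bot_iff, ← hcore]
  exact (normal_le_normalCore (hN := h4)).mpr hN

theorem two_group {P : Subgroup G} (hP : IsCoatom P) (hcore : P.normalCore = ⊥) (h0 : G) (h0P : cj h0 P ≠ P)
    (hidx : (P ⊓ cj h0 P).relIndex P = 3) : IsPGroup 2 (P ⊓ cj h0 P : Subgroup G) := by
  have hcard : Nat.card (cj h0 P) = Nat.card P := card_cj h0 P
  have hidx2 : (P ⊓ cj h0 P).relIndex (cj h0 P) = 3 := by
    have h1 := relIndex_mul_card (inf_le_left : P ⊓ cj h0 P ≤ P)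
    have h2 := relIndex_mul_card (inf_le_right : P ⊓ cj h0 P ≤ cj h0 P)
    rw [hidx] at h1
    rw [hcard, ← h1] at h2
    exact Nat.eq_of_mul_eq_mul_right Nat.card_pos h2
  have key : ∀ Q : Subgroup G, P ⊓ cj h0 P ≤ Q → (P ⊓ cj h0 P).relIndex Q = 3 → ∀ p ∈ Q, ∀ x ∈ P ⊓ cj h0 P,
      Odd (orderOf x) → p * x * p⁻¹ ∈ P ⊓ cj h0 P := by
    intro Q hQ hi p hp x hx hodd
    have h1 := odd_conj_mem ((P ⊓ cj h0 P).subgroupOf Q) hi (x := ⟨x, hQ hx⟩) (mem_subgroupOf.mpr hx)
      (by rw [← Subgroup.orderOf_coe]; exact hodd) ⟨p, hp⟩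
    exact mem_subgroupOf.mp h1
  let O : Subgroup G := closure {x | x ∈ P ⊓ cj h0 P ∧ Odd (orderOf x)}
  have hOle : O ≤ P ⊓ cj h0 P := by
    rw [closure_le]; rintro x ⟨hx, -⟩; exact hx
  have hON : ∀ Q : Subgroup G, P ⊓ cj h0 P ≤ Q → (P ⊓ cj h0 P).relIndex Q = 3 → Q ≤ normalizer (O : Set G) := by
    intro Q hQ hi
    apply le_normalizer_of_conj_mem
    intro p hp x hx
    have h1 : O ≤ O.comap (MulAut.conj p).toMonoidHom := by
      rw [closure_le]
      rintro y ⟨hy, hyo⟩
      show p * y * p⁻¹ ∈ O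
      apply Subgroup.subset_closure
      refine ⟨key Q hQ hi p hp y hy hyo, ?_⟩
      have : orderOf (p * y * p⁻¹) = orderOf y := by
        have := MulEquiv.orderOf_eq (MulAut.conj p) y
        rwa [MulAut.conj_apply] at this
      rw [this]; exact hyo
    exact h1 hx
  obtain ⟨g, hgc, hgP⟩ : ∃ g ∈ cj h0 P, g ∉ P := by
    by_contra hcon
    push Not at hcon
    exact h0P (Subgroup.eq_of_le_of_card_ge hcon hcard.ge)
  have hO : O = ⊥ := core_triv hP hcore (hOle.trans inf_le_left) (hON P inf_le_left hidx) hgP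
    (hON _ inf_le_right hidx2 hgc)
  intro x
  obtain ⟨k, m, hm, hkm⟩ := Nat.exists_eq_two_pow_mul_odd (n := orderOf (x : G)) (orderOf_pos _).ne'
  refine ⟨k, Subtype.ext ?_⟩
  have h1 : (x : G) ^ 2 ^ k ∈ O := by
    apply Subgroup.subset_closure
    refine ⟨Subgroup.pow_mem _ x.2 _, ?_⟩
    rw [orderOf_pow' _ (by positivity), hkm]
    rw [Nat.gcd_eq_right (Dvd.intro _ rfl), Nat.mul_div_cancel_left _ (by positivity)]
    exact hm
  rw [hO, mem_bot] at h1
  rw [SubmonoidClass.coe_pow, h1]; rfl

/-- the chain -/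
def D (P : Subgroup G) (h : G) : ℕ → Subgroup G
  | 0 => P
  | j + 1 => D P h j ⊓ cj h (D P h j)

theorem D_le (P : Subgroup G) (h : G) (j : ℕ) : D P h (j + 1) ≤ D P h j := inf_le_left

theorem D_le' (P : Subgroup G) (h : G) (j : ℕ) : D P h (j + 1) ≤ cj h (D P h j) := inf_le_right

theorem D_le_P (P : Subgroup G) (h : G) (j : ℕ) : D P h j ≤ P := by
  induction j with
  | zero => exact le_rfl
  | succ j ih => exact (D_le P h j).trans ih

section chain

variable {P : Subgroup G} (hP : IsCoatom P) (hcore : P.normalCore = ⊥) {h : G} (hhP : h ∉ P) {n : ℕ}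
  (hn : 1 ≤ n) (hcP : Nat.card P = 3 * 2 ^ n) (hB : Nat.card (P ⊓ cj h P : Subgroup G) = 2 ^ n)
  (hne : P ⊓ cj h P ≠ cj h (P ⊓ cj h P))

include hP hcore hhP hn hcP hB hne

theorem chain (j : ℕ) (hj1 : 1 ≤ j) (hjn : j ≤ n + 1) :
    Nat.card (D P h j) = 2 ^ (n + 1 - j) ∧ (j ≤ n → D P h j ≠ cj h (D P h j)) ∧
      (j ≤ n → D P h j ⊔ cj h (D P h j) = cj h (D P h (j - 1))) := by
  induction j using Nat.strong_induction_on with
  | _ j ih =>
    -- generation at level j, given card and non-invariance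
    have hgen : ∀ i : ℕ, 1 ≤ i → i ≤ n → Nat.card (D P h i) = 2 ^ (n + 1 - i) →
        (i = 1 ∨ Nat.card (D P h (i - 1)) = 2 ^ (n + 1 - (i - 1))) → D P h i ≠ cj h (D P h i) →
        D P h i ⊔ cj h (D P h i) = cj h (D P h (i - 1)) ∧
          Nat.card (D P h i ⊓ cj h (D P h i) : Subgroup G) * 2 = Nat.card (D P h i) := by
      intro i hi1 hin hc hc' hne'
      have hii : i - 1 + 1 = i := by omega
      have hle1 : D P h i ≤ cj h (D P h (i - 1)) := by
        have := D_le' P h (i - 1); rwa [hii] at this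
      have hle2 : cj h (D P h i) ≤ cj h (D P h (i - 1)) := by
        rw [cj_le_cj]; have := D_le P h (i - 1); rwa [hii] at this
      by_cases h1 : i = 1
      · subst h1
        apply gen _ _ _ 3 (n + 1 - 1) (Or.inr rfl) hle1 hle2 hc (by rw [card_cj, hc]) _ hne'
        rw [card_cj]
        exact hcP
      · have hc2 := hc'.resolve_left h1
        apply gen _ _ _ 2 (n + 1 - i) (Or.inl rfl) hle1 hle2 hc (by rw [card_cj, hc]) _ hne'
        rw [card_cj, hc2, ← pow_succ']
        congr 1; omega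
    -- card and non-invariance at level j
    have hcj : Nat.card (D P h j) = 2 ^ (n + 1 - j) := by
      by_cases h1 : j = 1
      · subst h1; exact hB
      · obtain ⟨i, rfl⟩ : ∃ i, j = i + 1 := ⟨j - 1, by omega⟩
        obtain ⟨hc, hni, -⟩ := ih i (by omega) (by omega) (by omega)
        have hc' : i = 1 ∨ Nat.card (D P h (i - 1)) = 2 ^ (n + 1 - (i - 1)) := by
          by_cases h2 : i = 1
          · exact Or.inl h2
          · exact Or.inr (ih (i - 1) (by omega) (by omega) (by omega)).1
        have h2 := (hgen i (by omega) (by omega) hc hc' (hni (by omega))).2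
        have h3 : Nat.card (D P h (i + 1)) * 2 = 2 ^ (n + 1 - i) := by rw [← hc]; exact h2
        have h4 : (2 : ℕ) ^ (n + 1 - i) = 2 ^ (n + 1 - (i + 1)) * 2 := by
          rw [← pow_succ]; congr 1; omega
        rw [h4] at h3
        exact Nat.eq_of_mul_eq_mul_right (by norm_num) h3
    have hnj : j ≤ n → D P h j ≠ cj h (D P h j) := by
      intro hjn' heq
      by_cases h1 : j = 1
      · subst h1; exact hne heq
      · -- normaliser
        have hhN : h ∈ normalizer (D P h j : Set G) := mem_normalizer_iff_cj.mpr heq.symm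
        have hcjN : ∀ H : Subgroup G, H ≤ normalizer (D P h j : Set G) → cj h H ≤ normalizer (D P h j : Set G) := by
          intro H hH
          calc cj h H ≤ cj h (normalizer (D P h j : Set G)) := cj_le_cj.mpr hH
            _ = normalizer (D P h j : Set G) := by rw [cj_normalizer, ← heq]
        have hcjN' : ∀ H : Subgroup G, cj h H ≤ normalizer (D P h j : Set G) → H ≤ normalizer (D P h j : Set G) := by
          intro H hH
          rw [cj_le_iff, cj_normalizer] at hH
          have : cj h⁻¹ (D P h j) = D P h j := by rw [cj_eq_iff, inv_inv]; exact heq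
          rwa [this] at hH
        have hdown : ∀ i : ℕ, i < j → D P h (j - 1 - i) ≤ normalizer (D P h j : Set G) := by
          intro i
          induction i with
          | zero =>
            intro _
            have hle : D P h j ≤ D P h (j - 1) := by
              have := D_le P h (j - 1); rwa [show j - 1 + 1 = j by omega] at this
            have hidx2 : (D P h j).relIndex (D P h (j - 1)) = 2 := by
              have h2 := relIndex_mul_card hle
              rw [hcj, (ih (j - 1) (by omega) (by omega) (by omega)).1] at h2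
              have h3 : (2 : ℕ) ^ (n + 1 - (j - 1)) = 2 * 2 ^ (n + 1 - j) := by
                rw [← pow_succ']; congr 1; omega
              rw [h3] at h2
              exact Nat.eq_of_mul_eq_mul_right (by positivity) h2
            have := normal_of_index_eq_two hidx2
            exact (normal_subgroupOf_iff_le_normalizer hle).mp this
          | succ i ih2 =>
            intro hi
            have h2 := ih2 (by omega)
            have h3 := (ih (j - 1 - i) (by omega) (by omega) (by omega)).2.2 (by omega)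
            rw [show j - 1 - (i + 1) = j - 1 - i - 1 by omega]
            apply hcjN'
            rw [← h3]
            exact sup_le h2 (hcjN _ h2)
        have hPN : P ≤ normalizer (D P h j : Set G) := by
          have := hdown (j - 1) (by omega)
          rwa [Nat.sub_self] at this
        have hbot := core_triv hP hcore (D_le_P P h j) hPN hhP hhN
        rw [hbot, card_bot] at hcj
        have : 2 ^ 1 ≤ 2 ^ (n + 1 - j) := Nat.pow_le_pow_right (by norm_num) (by omega)
        omega
    refine ⟨hcj, hnj, fun hjn' => ?_⟩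
    have hc' : j = 1 ∨ Nat.card (D P h (j - 1)) = 2 ^ (n + 1 - (j - 1)) := by
      by_cases h2 : j = 1
      · exact Or.inl h2
      · exact Or.inr (ih (j - 1) (by omega) (by omega) (by omega)).1
    exact (hgen j hj1 hjn' hcj hc' (hnj hjn')).1

theorem exists_sys : ∃ x : ℤ → G, Sys h x n := by
  have hch := chain hP hcore hhP hn hcP hB hne
  have hDn : Nat.card (D P h n) = 2 := by
    have := (hch n hn (by omega)).1
    rwa [show n + 1 - n = 1 by omega, pow_one] at this
  have hf2 := Fact.mk Nat.prime_two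
  obtain ⟨x0, hx0⟩ := exists_prime_orderOf_dvd_card' (G := D P h n) 2 (by rw [hDn])
  have hx0' : orderOf (x0 : G) = 2 := by rw [Subgroup.orderOf_coe]; exact hx0
  have hzp : zpowers (x0 : G) = D P h n := by
    apply Subgroup.eq_of_le_of_card_ge
    · rw [zpowers_le]; exact x0.2
    · rw [Nat.card_zpowers, hx0', hDn]
  let x : ℤ → G := fun i => h ^ i * (x0 : G) * (h ^ i)⁻¹
  have hx : ∀ i, x i = h ^ i * (x0 : G) * (h ^ i)⁻¹ := fun i => rfl
  have hstep : ∀ i, x (i + 1) = h * x i * h⁻¹ := by
    intro i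
    rw [hx, hx, add_comm, zpow_add, zpow_one]; group
  have hcjA : ∀ (g : ℤ) (i j : ℤ), cj (h ^ g) (A x i j) = A x (i + g) (j + g) := by
    intro g i j
    have key : ∀ (g i j : ℤ), cj (h ^ g) (A x i j) ≤ A x (i + g) (j + g) := by
      intro g i j
      rw [Subgroup.map_le_iff_le_comap]
      apply A_le
      intro l h1 h2
      rw [mem_comap]
      show h ^ g * x l * (h ^ g)⁻¹ ∈ _
      have : h ^ g * x l * (h ^ g)⁻¹ = x (l + g) := by
        rw [hx, hx, add_comm, zpow_add]; group
      rw [this]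
      exact mem_A x (by omega) (by omega)
    apply le_antisymm (key g i j)
    have h1 := key (-g) (i + g) (j + g)
    rw [show i + g + -g = i by ring, show j + g + -g = j by ring, cj_le_iff, zpow_neg, inv_inv] at h1
    exact h1
  have hA : ∀ m : ℕ, 1 ≤ m → m ≤ n + 1 → A x 0 m = cj (h ^ ((m : ℤ) - 1)) (D P h (n + 1 - m)) := by
    intro m hm1
    induction m, hm1 using Nat.le_induction with
    | base =>
      intro _
      rw [show n + 1 - 1 = n by omega, ← hzp]
      norm_num
      apply le_antisymm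
      · apply A_le
        intro l h1 h2
        have : l = 0 := by omega
        rw [this, hx, zpow_zero, one_mul, inv_one, mul_one]
        exact mem_zpowers _
      · rw [zpowers_le]
        have : (x0 : G) = x 0 := by rw [hx, zpow_zero, one_mul, inv_one, mul_one]
        rw [this]
        exact mem_A x le_rfl (by norm_num)
    | succ m hm1 ih =>
      intro hmn
      have h1 := ih (by omega)
      have h2 : A x 0 ((m + 1 : ℕ) : ℤ) = A x 0 m ⊔ cj (h ^ (1 : ℤ)) (A x 0 m) := by
        rw [hcjA]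
        apply le_antisymm
        · apply A_le
          intro l h3 h4
          push_cast at h4
          by_cases h5 : l < m
          · exact mem_sup_left (mem_A x h3 h5)
          · exact mem_sup_right (mem_A x (by omega) (by omega))
        · exact sup_le (A_mono le_rfl (by push_cast; omega)) (A_mono (by omega) (by push_cast; omega))
      have h3 := (hch (n + 1 - m) (by omega) (by omega)).2.2 (by omega)
      rw [h2, h1, cj_cj, ← zpow_add, show (1 : ℤ) + ((m : ℤ) - 1) = ((m : ℤ) - 1) + 1 by ring, zpow_add, ← cj_cj,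
        zpow_one, ← cj_sup, h3, cj_cj]
      rw [show n + 1 - m - 1 = n + 1 - (m + 1) by omega]
      congr 2
      rw [← zpow_add_one]
      congr 1; push_cast; ring
  have hcardA : ∀ (i : ℤ) (m : ℕ), m ≤ n → Nat.card (A x i (i + m)) = 2 ^ m := by
    intro i m hm
    have h1 : A x i (i + m) = cj (h ^ i) (A x 0 m) := by
      rw [hcjA, zero_add, add_comm]
    rw [h1, card_cj]
    by_cases h0 : m = 0
    · subst h0
      rw [A_empty (by norm_num), card_bot, pow_zero]
    · rw [hA m (by omega) (by omega), card_cj, (hch (n + 1 - m) (by omega) (by omega)).1]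
      congr 1; omega
  have hAn : A x 0 (n + 1) = cj (h ^ (n : ℤ)) P := by
    have h1 := hA (n + 1) (by omega) le_rfl
    rw [Nat.sub_self] at h1
    push_cast at h1
    rw [show (n : ℤ) + 1 - 1 = n by ring] at h1
    exact h1
  have hhPc : cj h P ≠ P := by
    intro he
    have : P ⊓ cj h P = P := by rw [he, inf_idem]
    apply hne
    rw [this, he]
  refine ⟨x, hstep, ?_, hcardA, ?_, ?_⟩
  · intro i
    rw [hx]
    have : (x0 : G) * x0 = 1 := by rw [← pow_two, ← hx0', pow_orderOf_eq_one]
    calc h ^ i * (x0 : G) * (h ^ i)⁻¹ * (h ^ i * (x0 : G) * (h ^ i)⁻¹) = h ^ i * ((x0 : G) * x0) * (h ^ i)⁻¹ := by group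
      _ = 1 := by rw [this]; group
  · intro N hN hnorm
    have h1 : A x 0 (n + 1) ≤ normalizer (N : Set G) := A_le fun l h1 h2 => hnorm l h1 (by omega)
    have h2 : A x 1 (n + 1 + 1) ≤ normalizer (N : Set G) := A_le fun l h1 h2 => hnorm l (by omega) (by omega)
    have h3 : A x 1 (n + 1 + 1) = cj h (A x 0 (n + 1)) := by
      have := hcjA 1 0 (n + 1)
      rw [zpow_one, zero_add] at this
      exact this.symm
    rw [hAn] at h1 h3 hN
    have hP' : IsCoatom (cj (h ^ (n : ℤ)) P) := by
      constructor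
      · intro he
        exact hP.1 (cj_eq_top.mp he)
      · intro K hK
        have h4 : P < cj (h ^ (n : ℤ))⁻¹ K := by
          rw [← cj_lt_cj (g := h ^ (n : ℤ)), cj_cj_inv]; exact hK
        have h5 := hP.2 _ h4
        exact cj_eq_top.mp h5
    have hcore' : (cj (h ^ (n : ℤ)) P).normalCore = ⊥ := by
      rw [eq_bot_iff, ← hcore]
      have h4 : (cj (h ^ (n : ℤ)) P).normalCore ≤ cj (h ^ (n : ℤ)) P := normalCore_le _
      apply (normal_le_normalCore).mpr
      have h5 : cj (h ^ (n : ℤ)) ((cj (h ^ (n : ℤ)) P).normalCore) = (cj (h ^ (n : ℤ)) P).normalCore := by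
        rw [← mem_normalizer_iff_cj, normalizer_eq_top]; trivial
      rw [← h5, cj_le_cj] at h4
      exact h4
    have hcc : cj h (cj (h ^ (n : ℤ)) P) ≠ cj (h ^ (n : ℤ)) P := by
      intro he
      apply hhPc
      rw [cj_cj, ← zpow_one_add, add_comm, zpow_add, ← cj_cj, zpow_one] at he
      exact (cj_injective _ he)
    obtain ⟨g, hg1, hg2⟩ : ∃ g ∈ cj h (cj (h ^ (n : ℤ)) P), g ∉ cj (h ^ (n : ℤ)) P := by
      by_contra hcon
      push Not at hcon
      exact hcc (Subgroup.eq_of_le_of_card_ge hcon (card_cj h _).ge)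
    exact core_triv hP' hcore' hN h1 hg2 (h2 (by rw [h3]; exact hg1))
  · intro hab
    -- cj h^n P is abelian
    have hcomm : ∀ a ∈ A x 0 (n + 1), ∀ b ∈ A x 0 (n + 1), a * b = b * a := by
      intro a ha b hb
      apply A_comm (fun l h1 h2 => ?_) hb
      symm
      exact A_comm (fun l' h3 h4 => (hab l l' h1 (by omega) h3 (by omega))) ha
    have hPcomm : ∀ a ∈ cj h P, ∀ b ∈ cj h P, a * b = b * a := by
      have hPc0 : ∀ a ∈ P, ∀ b ∈ P, a * b = b * a := by
        intro a ha b hb
        rw [hAn] at hcomm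
        have h1 := hcomm _ (conj_mem_cj.mpr ha) _ (conj_mem_cj.mpr hb)
        have h2 : h ^ (n : ℤ) * (a * b) * (h ^ (n : ℤ))⁻¹ = h ^ (n : ℤ) * (b * a) * (h ^ (n : ℤ))⁻¹ := by
          calc h ^ (n : ℤ) * (a * b) * (h ^ (n : ℤ))⁻¹
              = h ^ (n : ℤ) * a * (h ^ (n : ℤ))⁻¹ * (h ^ (n : ℤ) * b * (h ^ (n : ℤ))⁻¹) := by group
            _ = _ := by rw [h1]; group
        exact mul_left_cancel (mul_right_cancel h2)
      intro a ha b hb
      rw [mem_cj] at ha hb
      have h1 := hPc0 _ ha _ hb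
      calc a * b = h * ((h⁻¹ * a * h) * (h⁻¹ * b * h)) * h⁻¹ := by group
        _ = _ := by rw [h1]; group
    have h1 := gen (cj h P) (P ⊓ cj h P) (cj h (P ⊓ cj h P)) 3 n (Or.inr rfl) inf_le_right
      (by rw [cj_le_cj]; exact inf_le_left) hB (by rw [card_cj, hB]) (by rw [card_cj, hcP]) hne
    have h2 := H28.RelHall.card_sup_mul_card_inf (H := P ⊓ cj h P) (N := cj h (P ⊓ cj h P)) (by
      apply le_normalizer_of_conj_mem
      intro g hg y hy
      have h3 : y ∈ cj h P := (cj_le_cj.mpr inf_le_left : cj h (P ⊓ cj h P) ≤ cj h P) hy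
      rw [hPcomm g hg.2 y h3, mul_inv_cancel_right]; exact hy)
    rw [h1.1, card_cj, card_cj, hcP, hB] at h2
    have h3 := h1.2
    rw [hB] at h3
    have h4 : 0 < 2 ^ n := by positivity
    nlinarith

end chain

theorem main {P : Subgroup G} (hP : IsCoatom P) (hcore : P.normalCore = ⊥) (h0 : G) (h0P : cj h0 P ≠ P)
    (hidx : (P ⊓ cj h0 P).relIndex P = 3) : ∃ k : ℕ, k ≤ 4 ∧ Nat.card P = 2 ^ k * 3 := by
  have h2 := two_group hP hcore h0 h0P hidx
  have hf2 := Fact.mk Nat.prime_two
  obtain ⟨n, hn⟩ := IsPGroup.iff_card.mp h2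
  have hcP : Nat.card P = 3 * 2 ^ n := by
    have := relIndex_mul_card (inf_le_left : P ⊓ cj h0 P ≤ P)
    rw [hidx, hn] at this
    exact this.symm
  refine ⟨n, ?_, by rw [hcP, mul_comm]⟩
  by_cases hex : ∃ p ∈ cj h0 P, cj p (cj h0 (P ⊓ cj h0 P)) ≠ P ⊓ cj h0 P
  · obtain ⟨p, hp, hpne⟩ := hex
    have hcjh : cj (p * h0) P = cj h0 P := by rw [← cj_cj, cj_eq_self_of_mem hp]
    have hne : P ⊓ cj (p * h0) P ≠ cj (p * h0) (P ⊓ cj (p * h0) P) := by
      rw [hcjh, ← cj_cj]; exact hpne.symm
    have hn1 : 1 ≤ n := by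
      by_contra hlt
      have : n = 0 := by omega
      subst this
      rw [pow_zero] at hn
      have hb := Subgroup.eq_bot_of_card_eq _ hn
      rw [hb] at hpne
      simp at hpne
    obtain ⟨x, S⟩ := exists_sys hP hcore (h := p * h0) (by
      intro hmem
      apply h0P
      rw [← hcjh, cj_eq_self_of_mem hmem]) hn1 hcP (by rw [hcjh]; exact hn) hne
    exact H60.SimsB.main S
  · push Not at hex
    have h1 : cj h0 (P ⊓ cj h0 P) = P ⊓ cj h0 P := by
      have := hex 1 (one_mem _)
      rwa [cj_one] at this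
    have h3 : cj h0 P ≤ normalizer ((P ⊓ cj h0 P : Subgroup G) : Set G) := by
      rw [le_normalizer_iff_forall_cj]
      intro g hg
      have := hex g hg
      rwa [h1] at this
    have h4 : h0 ∈ normalizer ((P ⊓ cj h0 P : Subgroup G) : Set G) := mem_normalizer_iff_cj.mpr h1
    have h5 : P ≤ normalizer ((P ⊓ cj h0 P : Subgroup G) : Set G) := by
      rw [cj_le_iff, cj_normalizer] at h3
      have : cj h0⁻¹ (P ⊓ cj h0 P) = P ⊓ cj h0 P := by rw [cj_eq_iff, inv_inv]; exact h1.symm
      rwa [this] at h3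
    have h6 := core_triv hP hcore inf_le_left h5 (g := h0) (fun hm => h0P (cj_eq_self_of_mem hm)) h4
    rw [h6, card_bot] at hn
    have : n = 0 := by
      by_contra hne
      have : 2 ^ 1 ≤ 2 ^ n := Nat.pow_le_pow_right (by norm_num) (by omega)
      omega
    omega

end H60.SimsC
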